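import Mathlib
import Cfsg.Agent.H952.F4.Gen

/-!
# S5927: the elements of `A₆` used for `n = 6`, `p = 3` (helper401)
-/

set_option autoImplicit false
set_option linter.unusedVariables false
set_option maxRecDepth 10000

namespace Cfsg.Agent.H401.E6Three

open Equiv Equiv.Perm
open Cfsg.Agent.H952.F4 (v0 v1 c3 z5)

/-- the permutation of `Fin 6` fixing 5 -/
def ext5 (σ : Perm (Fin 5)) : Perm (Fin 6) where
  toFun i := if h : i.val < 5 then Fin.castSucc (σ ⟨i.val, h⟩) else i
  invFun i := if h : i.val < 5 then Fin.castSucc (σ⁻¹ ⟨i.val, h⟩) else i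
  left_inv i := by
    by_cases h : i.val < 5
    · simp [h]
    · simp [h]
  right_inv i := by
    by_cases h : i.val < 5
    · simp [h]
    · simp [h]

theorem ext5_apply (σ : Perm (Fin 5)) (i : Fin 6) :
    ext5 σ i = if h : i.val < 5 then Fin.castSucc (σ ⟨i.val, h⟩) else i := rfl

theorem ext5_mul (σ τ : Perm (Fin 5)) : ext5 (σ * τ) = ext5 σ * ext5 τ := by
  ext i
  rw [Perm.mul_apply, ext5_apply, ext5_apply, ext5_apply]
  by_cases h : i.val < 5
  · simp [h]
  · simp [h]

theorem ext5_one : ext5 1 = 1 := by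
  ext i
  rw [ext5_apply]
  by_cases h : i.val < 5
  · simp [h]
  · simp [h]

/-- the homomorphism -/
def ext5Hom : Perm (Fin 5) →* Perm (Fin 6) where
  toFun := ext5
  map_one' := ext5_one
  map_mul' := ext5_mul

theorem sign_ext5 (σ : Perm (Fin 5)) : sign (ext5 σ) = sign σ := by
  have h : (sign : Perm (Fin 6) →* ℤˣ).comp ext5Hom = sign := by
    apply MonoidHom.eq_of_eqOn_dense (s := {σ : Perm (Fin 5) | σ.IsSwap}) Equiv.Perm.closure_isSwap
    rintro _ ⟨x, y, hxy, rfl⟩
    rw [sign_swap hxy]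
    show sign (ext5 (swap x y)) = -1
    have e : ext5 (swap x y) = swap (Fin.castSucc x) (Fin.castSucc y) := by
      revert x y; decide
    rw [e, sign_swap (fun h => hxy (Fin.castSucc_injective _ h))]
  exact DFunLike.congr_fun h σ

/-- the embedding of `A₅` as the stabilizer of the last point -/
def iota : ↥(alternatingGroup (Fin 5)) →* ↥(alternatingGroup (Fin 6)) where
  toFun σ := ⟨ext5 σ, by rw [mem_alternatingGroup, sign_ext5]; exact mem_alternatingGroup.1 σ.2⟩
  map_one' := Subtype.ext ext5_one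
  map_mul' σ τ := Subtype.ext (ext5_mul _ _)

theorem iota_coe (σ : ↥(alternatingGroup (Fin 5))) : ((iota σ : ↥(alternatingGroup (Fin 6))) : Perm (Fin 6)) = ext5 σ := rfl

/-- `(0 2 1 3)(4 5)` -/
def c6 : ↥(alternatingGroup (Fin 6)) := ⟨swap 0 2 * swap 2 1 * swap 1 3 * swap 4 5, by
  rw [Equiv.Perm.mem_alternatingGroup]; decide⟩

theorem c6_sq : c6 * c6 = iota v0 := by decide +kernel
theorem c6_four : c6 * c6 * (c6 * c6) = 1 := by decide +kernel
theorem v1_sq : iota v1 * iota v1 = 1 := by decide +kernel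
theorem v1_c6 : iota v1 * c6 * iota v1 = c6⁻¹ := by decide +kernel
theorem c6_c3 : c6 * iota c3 = iota c3 * iota c3 * (c6 * (c6 * c6)) := by decide +kernel
theorem c6_c3' : c6 * (iota c3 * iota c3) = iota c3 * (c6 * iota v1) := by decide +kernel

set_option maxRecDepth 100000 in
theorem cj2 : ∀ g : ↥(alternatingGroup (Fin 6)), g * g = 1 → g ≠ 1 → ∃ h, h * iota v0 * h⁻¹ = g := by
  decide +kernel

set_option maxRecDepth 100000 in
theorem cj4 : ∀ g : ↥(alternatingGroup (Fin 6)), g * g * (g * g) = 1 → g * g ≠ 1 → ∃ h, h * c6 * h⁻¹ = g := by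
  decide +kernel

set_option maxRecDepth 100000 in
theorem cj5 : ∀ g : ↥(alternatingGroup (Fin 6)), g * g * (g * g) * g = 1 → g ≠ 1 →
    ∃ h, h * iota z5 * h⁻¹ = g ∨ h * (iota z5 * iota z5) * h⁻¹ = g := by
  decide +kernel

/-- `z5` and `c6` generate `A₆` -/
theorem closure_six : Subgroup.closure {iota z5, c6} = ⊤ := by
  have hx : Equiv.Perm.sign (iota z5 : Equiv.Perm (Fin 6)) = 1 := Equiv.Perm.mem_alternatingGroup.1 (iota z5).2
  have hy : Equiv.Perm.sign (c6 : Equiv.Perm (Fin 6)) = 1 := Equiv.Perm.mem_alternatingGroup.1 c6.2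
  rw [eq_top_iff]
  intro σ _
  have h1 : (σ : Equiv.Perm (Fin 6)) ∈ Subgroup.closure {(iota z5 : Equiv.Perm (Fin 6)), (c6 : Equiv.Perm (Fin 6))} := by
    refine H952.F4.Gen.mem_of_star (n := 4) _ ?_ ?_ σ.2
    · rw [Subgroup.closure_le]
      rintro z (rfl | rfl)
      · exact (iota z5).2
      · exact c6.2
    · intro k hk
      have hW : ∀ k : Fin 6, k ≠ 0 → H952.F4.Gen.ev (iota z5 : Equiv.Perm (Fin 6)) (c6 : Equiv.Perm (Fin 6))
          ((![[], [], [2, 1, 2, 1, 1, 2, 0], [0, 2, 0, 0, 2, 1, 3], [0, 2, 0, 2, 0, 0, 3],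
            [0, 0, 2, 1, 1, 3, 0, 0]] : Fin 6 → List (Fin 4)) k) =
            Equiv.swap 0 1 * Equiv.swap 0 k := by decide +kernel
      rw [← hW k hk]
      exact H952.F4.Gen.ev_mem (Subgroup.subset_closure (by simp)) (Subgroup.subset_closure (by simp)) _
  have h2 : (Subgroup.closure {iota z5, c6}).map (alternatingGroup (Fin 6)).subtype =
      Subgroup.closure {(iota z5 : Equiv.Perm (Fin 6)), (c6 : Equiv.Perm (Fin 6))} := by
    rw [MonoidHom.map_closure, Set.image_pair]
    rfl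
  rw [← h2] at h1
  obtain ⟨τ, hτ, h3⟩ := h1
  rwa [← Subtype.ext h3]

/-- the `(2, 4, 5)`-generation -/
theorem closure_245 : Subgroup.closure {iota (z5 * v0), c6} = ⊤ := by
  rw [eq_top_iff, ← closure_six, Subgroup.closure_le]
  have h1 : c6 ∈ Subgroup.closure {iota (z5 * v0), c6} := Subgroup.subset_closure (by simp)
  have h2 : iota (z5 * v0) ∈ Subgroup.closure {iota (z5 * v0), c6} := Subgroup.subset_closure (by simp)
  rintro z (rfl | rfl)
  · have h3 : iota z5 = iota (z5 * v0) * (c6 * c6) := by decide +kernel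
    rw [h3]
    exact Subgroup.mul_mem _ h2 (Subgroup.mul_mem _ h1 h1)
  · exact h1

theorem x_sq : iota (z5 * v0) * iota (z5 * v0) = 1 := by decide +kernel
theorem x_ne : iota (z5 * v0) ≠ 1 := by decide +kernel
theorem xy_five : (iota (z5 * v0) * c6) ^ 5 = 1 := by decide +kernel
theorem xy_ne : iota (z5 * v0) * c6 ≠ 1 := by decide +kernel
theorem c6_ne : c6 * c6 ≠ 1 := by decide +kernel

end Cfsg.Agent.H401.E6Three
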