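import Mathlib
import Cfsg.Agent.H401.SixUniq
import Cfsg.Agent.H944.E6CovEnd

/-!
# S5927, S5928: `sixc_two`: the end game from the types (helper401)
-/

set_option autoImplicit false
set_option linter.unusedSectionVars false

namespace Cfsg.Agent.H401.SixLast

open Cfsg Cfsg.Lie Module Equiv
open Cfsg.Agent.ChevalleyStructure.E6Min.Tables Cfsg.Agent.ChevalleyStructure.E6Min.Basic
  Cfsg.Agent.ChevalleyStructure.E6Min.Adjoint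
open Cfsg.Agent.H952.F4 (ev es matRep sh cr tf MaxAlt)
open Cfsg.Agent.H163.E6 Cfsg.Agent.H163.E6.SixC
open Cfsg.Agent.H958.SixC
open Cfsg.Agent.H401.SixUniq

universe u

variable {F : Type u} [Field F] [Finite F] [CharP F 2] {H : Subgroup ↥(chevE6.group F)}
  {φ : ↥(alternatingGroup (Fin 6)) →* ↥(chevE6.group F)}

theorem pr1 : Pr (V F) (V' F) := Or.inl ⟨rfl, rfl⟩
theorem pr2 : Pr (V' F) (V F) := Or.inr ⟨rfl, rfl⟩

/-- the list of the stable subspaces of dimension three -/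
theorem only (hR : BoxR F ↥(φ.range.comap (ad F))) (hS : Sit H 6 φ) {ω : Fˣ} (hω : Cover φ ω)
    {ζ z g₁ g₂ β t a : ↥(φ.range.comap (ad F))} (hF : Full ζ z g₁ g₂ β t a)
    (hζ : ((ζ : ↥(Zgrp F)) : GL I27 F) = scal ω) {ρ ρ' : Representation F ↥(Zgrp F) (I27 → F)} (hp : Pr ρ ρ')
    (h6 : 6 ≤ ev (ρ' z) 1) {W₁ W₂ : Submodule F (I27 → F)} (h₁ : Ty φ ρ z g₁ W₁) (h₂ : Ty φ ρ z g₂ W₂) :
    ∀ W : Submodule F (I27 → F), Stab ρ φ.range W → finrank F ↥W = 3 → W = W₁ ∨ W = W₂ := by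
  intro W hW d
  rcases ty_cases hω.1 hω.2.1 hF hζ hp.left hW d with ⟨h, -⟩ | ⟨h, -⟩
  · exact Or.inl (uniq_of hR hS hω hF hζ hp h6 h h₁ h₂)
  · exact Or.inr (uniq_of hR hS hω hF.symm hζ hp h6 h h₂ h₁)

/-- **the contradiction from the existence of both types in both modules** -/
theorem last (hR : BoxR F ↥(φ.range.comap (ad F))) (hS : Sit H 6 φ) {ω : Fˣ} (hω : Cover φ ω)
    {ζ z g₁ g₂ β t a : ↥(φ.range.comap (ad F))} (hF : Full ζ z g₁ g₂ β t a)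
    (hζ : ((ζ : ↥(Zgrp F)) : GL I27 F) = scal ω)
    (hct : ∀ {ρ ρ' : Representation F ↥(Zgrp F) (I27 → F)}, Pr ρ ρ' → ∀ {W : Submodule F (I27 → F)}, Ty φ ρ z g₁ W →
      Ty φ ρ' z g₂ (crs W W))
    (hct' : ∀ {ρ ρ' : Representation F ↥(Zgrp F) (I27 → F)}, Pr ρ ρ' → ∀ {W : Submodule F (I27 → F)}, Ty φ ρ z g₂ W →
      Ty φ ρ' z g₁ (crs W W))
    (hW₁ : ∃ W, Ty φ (V F) z g₁ W) (hW₂ : ∃ W, Ty φ (V F) z g₂ W) (hS₁ : ∃ W, Ty φ (V' F) z g₁ W)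
    (hS₂ : ∃ W, Ty φ (V' F) z g₂ W) (he : 7 ≤ ev (V F z) 1) (he' : 7 ≤ ev (V' F z) 1) : False := by
  obtain ⟨W₁, hW₁⟩ := hW₁
  obtain ⟨W₂, hW₂⟩ := hW₂
  obtain ⟨S₁, hS₁⟩ := hS₁
  obtain ⟨S₂, hS₂⟩ := hS₂
  have nW : W₁ ≠ W₂ := by
    rintro rfl
    rcases ty_cases hω.1 hω.2.1 hF hζ (Or.inl rfl) hW₁.st hW₁.d with ⟨-, h⟩ | ⟨-, h⟩
    · exact h hW₂
    · exact h hW₁
  have c₁ : crs W₁ W₁ = S₂ := uniq_of hR hS hω hF.symm hζ pr2 (by omega) (hct pr1 hW₁) hS₂ hS₁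
  have c₂ : crs W₂ W₂ = S₁ := uniq_of hR hS hω hF hζ pr2 (by omega) (hct' pr1 hW₂) hS₁ hS₂
  have c₁' : crs S₁ S₁ = W₂ := uniq_of hR hS hω hF.symm hζ pr1 (by omega) (hct pr2 hS₁) hW₂ hW₁
  have c₂' : crs S₂ S₂ = W₁ := uniq_of hR hS hω hF hζ pr1 (by omega) (hct' pr2 hS₂) hW₁ hW₂
  obtain ⟨u₁, m₁, n₁, k₁⟩ := hS₁.k
  obtain ⟨u₂, m₂, n₂, k₂⟩ := hS₂.k
  obtain ⟨dR, nR, fR, iR⟩ := br_of hR hS hω hF hζ pr2 S₁ S₂ (st_iff.2 hS₁.st) (st_iff.2 hS₂.st) hS₁.d hS₂.d u₁ m₁ u₂ m₂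
    k₁ k₂ n₁ n₂
  have aR : Stab (V F) φ.range (crs S₁ S₂) :=
    st_iff.1 (crs_st (r := rP φ (V' F)) (r' := rP φ (V F)) (fun g x y => pr2.cr g x y) (st_iff.2 hS₁.st)
      (st_iff.2 hS₂.st))
  have hzr : ad F (z : ↥(Zgrp F)) ∈ φ.range := z.2
  have hz5 : (z : ↥(Zgrp F)) ^ 5 = 1 := congrArg Subtype.val hF.h1.z5
  have hz1 : (z : ↥(Zgrp F)) ≠ 1 := by
    intro h1
    obtain ⟨c, hc⟩ := ch_pr hω.1 hω.2.1 hζ (ρ := V F) (Or.inl rfl)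
    have h2 : 3 * ev (V F z) 1 ≤ finrank F (I27 → F) := ev_le hF (rP φ (V F)) hc
    rw [h1, map_one, H905.E6T.finrank27] at h2
    have h3 : ev (1 : (I27 → F) →ₗ[F] (I27 → F)) 1 = 27 := by
      have h4 : Module.End.eigenspace (1 : Module.End F (I27 → F)) 1 = ⊤ := by
        rw [eq_top_iff]
        intro v _
        rw [Module.End.mem_eigenspace_iff, one_smul]
        rfl
      rw [ev, h4, finrank_top, H905.E6T.finrank27]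
    omega
  refine H944.E6CovEnd.end_game hS hω hW₁.st hW₁.d hW₂.st hW₂.d hS₁.st hS₁.d hS₂.st hS₂.d nW
    (only hR hS hω hF hζ pr1 (by omega) hW₁ hW₂) (only hR hS hω hF hζ pr2 (by omega) hS₁ hS₂) c₁ c₂ c₁' c₂' aR dR le_rfl
    (fun X hX hXs => iR X hX (st_iff.2 hXs)) ?_ ?_
  · intro z' hz' h1' h5'
    refine (H944.E6CovKer.fix_le hS.inj aR hz' hzr h1' hz1 h5' hz5).trans ?_
    have h1 : crs S₁ S₂ ⊓ Module.End.eigenspace (V F z) 1 ≤ Submodule.span F {cr u₁ u₂} := by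
      rintro y ⟨hy, hy1⟩
      rw [SetLike.mem_coe, Module.End.mem_eigenspace_iff, one_smul] at hy1
      obtain ⟨s, hs⟩ := fR y hy hy1
      rw [hs]
      exact Submodule.smul_mem _ _ (Submodule.mem_span_singleton_self _)
    exact (Submodule.finrank_mono h1).trans (H65.SixA.one_span _)
  · intro z' hz' h1' h5'
    have h1 := H944.E6CovKer.fix_le hS.inj (ρ := V F) (U := ⊤) (fun g _ w _ => Submodule.mem_top) hzr hz' hz1 h1' hz5 h5'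
    rw [top_inf_eq, top_inf_eq] at h1
    exact he.trans h1

end Cfsg.Agent.H401.SixLast
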