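import Mathlib
import Cfsg.Agent.H401.SixUniq
import Cfsg.Agent.H906.E6.SixR

/-!
# S5927, S5928: `sixc_two`: uniqueness (helper401), with BOX R (helper906)
-/

set_option autoImplicit false

namespace Cfsg.Agent.H163.E6.SixC

open Cfsg Cfsg.Lie Module Equiv
open Cfsg.Agent.ChevalleyStructure.E6Min.Tables Cfsg.Agent.ChevalleyStructure.E6Min.Basic
  Cfsg.Agent.ChevalleyStructure.E6Min.Adjoint
open Cfsg.Agent.H952.F4 (ev es matRep sh cr tf MaxAlt)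
open Cfsg.Agent.H958.SixC

universe u

theorem boxR_all (F : Type u) [Field F] [CharP F 2] (P : Type u) [Group P] : Cfsg.Agent.H401.SixUniq.BoxR F P := by
  intro ζ z g₁ g₂ β t a hF c X₁ X₂ Y _ _ _ _ _ _ _ _ _ ρ₁ ρ₂ σ hc₁ hc₂ d₁ d₂ u₁ u₂ k₁ n₁ k₂ n₂ B hB hne R hR
  exact boxR hF ρ₁ ρ₂ σ hc₁ hc₂ d₁ d₂ k₁ n₁ k₂ n₂ B hB hne R hR

variable {F : Type u} [Field F] [Finite F] [CharP F 2] {H : Subgroup ↥(chevE6.group F)}
  {φ : ↥(alternatingGroup (Fin 6)) →* ↥(chevE6.group F)}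

/-- **uniqueness of the stable subspaces of dimension three of each type** -/
theorem uniq (hS : Sit H 6 φ) {ω : Fˣ} (hω : Cover φ ω) {ζ z g₁ g₂ β t a : ↥(φ.range.comap (ad F))}
    (hF : Full ζ z g₁ g₂ β t a) (hζ : ((ζ : ↥(Zgrp F)) : GL I27 F) = scal ω)
    {ρ ρ' : Representation F ↥(Zgrp F) (I27 → F)} (hp : Pr ρ ρ') (h6 : 6 ≤ ev (ρ' z) 1)
    {W W' W₂ : Submodule F (I27 → F)} (h : Ty φ ρ z g₁ W) (h' : Ty φ ρ z g₁ W') (h2 : Ty φ ρ z g₂ W₂) : W = W' :=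
  Cfsg.Agent.H401.SixUniq.uniq_of (boxR_all F _) hS hω hF hζ hp h6 h h' h2

end Cfsg.Agent.H163.E6.SixC
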