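import Mathlib
import Cfsg.Agent.H958.SixC.Hex2
import Cfsg.Agent.H65.SixA
import Cfsg.Agent.H944.E6CovFit

/-!
# S5927, S5928: `sixc_two`, piece U3: `cr` and `sh` on stable subspaces of dimension three (helper401)
-/

set_option autoImplicit false
set_option linter.unusedSectionVars false

namespace Cfsg.Agent.H401.SixU3

open Cfsg Cfsg.Lie Module Equiv
open Cfsg.Agent.ChevalleyStructure.E6Min.Tables Cfsg.Agent.ChevalleyStructure.E6Min.Basic
  Cfsg.Agent.ChevalleyStructure.E6Min.Adjoint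
open Cfsg.Agent.H952.F4 (ev es matRep sh cr tf MaxAlt)
open Cfsg.Agent.H952.F4.Jord
open Cfsg.Agent.H905.E6T (sh_zero cr_zero_left cr_zero_right cr_self2)
open Cfsg.Agent.H163.E6 Cfsg.Agent.H163.E6.SixC
open Cfsg.Agent.H958.SixC

universe u

/-- the span of the products -/
def crSpan {F : Type u} [Field F] (S : Submodule F (I27 → F)) : Submodule F (I27 → F) :=
  Submodule.span F {v | ∃ x ∈ S, ∃ y ∈ S, v = cr x y}

section
variable {F : Type u} [Field F]

theorem crSpan_le (h2 : (2 : F) = 0) {S : Submodule F (I27 → F)} {x y v : I27 → F}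
    (h : ∀ u ∈ S, ∃ p q r : F, u = p • x + q • y + r • v) :
    crSpan S ≤ Submodule.span F {cr x y, cr x v, cr y v} := by
  rw [crSpan, Submodule.span_le]
  rintro _ ⟨u, hu, u', hu', rfl⟩
  obtain ⟨p, q, r, rfl⟩ := h u hu
  obtain ⟨p', q', r', rfl⟩ := h u' hu'
  have e : cr (p • x + q • y + r • v) (p' • x + q' • y + r' • v) =
      (p * q' + q * p') • cr x y + (p * r' + r * p') • cr x v + (q * r' + r * q') • cr y v := by
    simp only [cr_add_left, cr_add_right, cr_smul_left, cr_smul_right, cr_self2 h2, smul_zero]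
    rw [cr_comm y x, cr_comm v x, cr_comm v y]
    module
  rw [e]
  exact mem3 _ _ _

theorem key_alg (h2 : (2 : F) = 0) (b : F) (s0 s1 s2 : I27 → F) :
    sh s0 + (b * b) • sh s1 + (b * b) • sh s2 + sh (s0 + b • s1 + b • s2) =
      b • cr s0 s1 + b • cr s0 s2 + (b * b) • cr s1 s2 := by
  rw [sh_add, sh_add, sh_smul, sh_smul, cr_add_left, cr_smul_left, cr_smul_right, cr_smul_right, cr_smul_right]
  generalize sh s0 = A
  generalize sh s1 = B
  generalize sh s2 = C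
  generalize cr s0 s1 = D
  generalize cr s0 s2 = E
  generalize cr s1 s2 = G
  match_scalars <;> grind

theorem exists_basis3 {S : Submodule F (I27 → F)} (h3 : finrank F ↥S = 3) :
    ∃ x ∈ S, ∃ y ∈ S, ∃ v ∈ S, ∀ u ∈ S, ∃ p q r : F, u = p • x + q • y + r • v := by
  have B := Module.finBasisOfFinrankEq F ↥S h3
  refine ⟨B 0, (B 0).2, B 1, (B 1).2, B 2, (B 2).2, fun u hu => ⟨B.repr ⟨u, hu⟩ 0, B.repr ⟨u, hu⟩ 1, B.repr ⟨u, hu⟩ 2, ?_⟩⟩
  have h := congrArg Subtype.val (B.sum_repr ⟨u, hu⟩)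
  rw [Fin.sum_univ_three] at h
  exact h.symm

end

variable {F : Type u} [Field F] {H : Subgroup ↥(chevE6.group F)} {φ : ↥(alternatingGroup (Fin 6)) →* ↥(chevE6.group F)}

/-- the products of a stable subspace of dimension three -/
theorem crS_aux (h2 : (2 : F) = 0) (hS : Sit H 6 φ) (hd : Div3 φ) {ρ ρ' : Representation F ↥(Zgrp F) (I27 → F)}
    (hρ : ρ = V F ∨ ρ = V' F) (hρ' : ρ' = V F ∨ ρ' = V' F) (hcr : ∀ g x y, ρ' g (cr x y) = cr (ρ g x) (ρ g y))
    {S : Submodule F (I27 → F)} (hSt : Stab ρ φ.range S) (h3 : finrank F ↥S = 3) :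
    Stab ρ' φ.range (crSpan S) ∧ finrank F ↥(crSpan S) = 3 := by
  have h1 : Stab ρ' φ.range (crSpan S) := by
    refine H65.SixA.span_stab fun g hg v hv => ?_
    obtain ⟨x, hx, y, hy, rfl⟩ := hv
    exact ⟨_, hSt g hg x hx, _, hSt g hg y hy, hcr g x y⟩
  refine ⟨h1, ?_⟩
  obtain ⟨x, hx, y, hy, v, hv, hsp⟩ := exists_basis3 h3
  obtain ⟨p, hp, q, hq, hne⟩ := cr_ne hS hd hρ hSt h3
  have h4 : finrank F ↥(crSpan S) ≤ 3 := (Submodule.finrank_mono (crSpan_le h2 hsp)).trans (finrank_span3 _ _ _)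
  exact three_of h4 (hd ρ' hρ' _ h1) (Submodule.subset_span ⟨p, hp, q, hq, rfl⟩) hne

theorem b_ne {b : F} (hb : b * b + b + 1 = 0) : b ≠ 0 := by
  rintro rfl
  simp at hb

/-- `sh` of the vector fixed by `A₅` does not satisfy the hexacode relation -/
theorem sh_rr_aux (h2 : (2 : F) = 0) (hS : Sit H 6 φ) (hd : Div3 φ) {ρ ρ' : Representation F ↥(Zgrp F) (I27 → F)}
    (hρ : ρ = V F ∨ ρ = V' F) (hρ' : ρ' = V F ∨ ρ' = V' F)
    (hsh : ∀ g x, ρ' g (sh x) = sh (ρ g x)) (hcr : ∀ g x y, ρ' g (cr x y) = cr (ρ g x) (ρ g y))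
    {r r' : Representation F ↥(φ.range.comap (ad F)) (I27 → F)} (hr : ∀ g x, r g x = ρ (g : ↥(Zgrp F)) x)
    (hr' : ∀ g x, r' g x = ρ' (g : ↥(Zgrp F)) x)
    {ζ z g β : ↥(φ.range.comap (ad F))} (hh : Half ζ z g β) {b : F} (hs : Sc r β b)
    {S : Submodule F (I27 → F)} (hSt : Stab ρ φ.range S) (h3 : finrank F ↥S = 3) {s : I27 → F} (hsS : s ∈ S)
    (k : KF r z g s) (h0 : s ≠ 0) : KF r' z g (sh s) ∧ rr r' z g (b * b) (sh s) ≠ 0 := by
  have hd' : ∀ W : Submodule F (I27 → F), St r W → 3 ∣ finrank F ↥W := fun W hW => hd ρ hρ W fun g hg w hw => by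
    have := hW ⟨g, hg⟩ w hw
    rwa [hr] at this
  have hst : St r S := fun g w hw => by rw [hr]; exact hSt _ g.2 w hw
  have hz := rr_zero hd' hh hs hst h3 hsS k h0
  have hsr : ∀ g x, r' g (sh x) = sh (r g x) := fun g x => by rw [hr', hr, hsh]
  constructor
  · exact ⟨by rw [hsr, k.1], by rw [hsr, k.2]⟩
  · have h := Hx.of_KF hh hs k
    obtain ⟨e3, -, -⟩ := h.rels hs.b2 h2 hz
    have m0 : r g s ∈ S := hst _ _ hsS
    have m1 : r z (r g s) ∈ S := hst _ _ m0
    have m2 : r z (r z (r g s)) ∈ S := hst _ _ m1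
    have hle : S3 r z g s ≤ S := S3_le hst hsS
    have hS3 : finrank F ↥(S3 r z g s) = 3 := S3_three hd' hh hs k hz h0
    have heq : S3 r z g s = S := Submodule.eq_of_le_of_finrank_eq hle (hS3.trans h3.symm)
    have hsp : ∀ u ∈ S, ∃ p q t : F, u = p • r g s + q • r z (r g s) + t • r z (r z (r g s)) := by
      intro u hu
      rw [← heq, S3, Submodule.mem_span_triple] at hu
      obtain ⟨p, q, t, hpq⟩ := hu
      exact ⟨p, q, t, hpq.symm⟩
    obtain ⟨-, hc3⟩ := crS_aux h2 hS hd hρ hρ' hcr hSt h3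
    have hle2 := crSpan_le h2 hsp
    have hc : finrank F ↥(Submodule.span F
        ({cr (r g s) (r z (r g s)), cr (r g s) (r z (r z (r g s))), cr (r z (r g s)) (r z (r z (r g s)))} : Set (I27 → F))) = 3 :=
      le_antisymm (finrank_span3 _ _ _) (hc3.symm.le.trans (Submodule.finrank_mono hle2))
    have key : rr r' z g (b * b) (sh s) = b • cr (r g s) (r z (r g s)) + b • cr (r g s) (r z (r z (r g s))) +
        (b * b) • cr (r z (r g s)) (r z (r z (r g s))) := by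
      rw [rr, hsr, hsr, hsr, hsr, e3]
      exact key_alg h2 b _ _ _
    rw [key]
    intro he
    exact b_ne hs.b2 (indep3 hc he).1

end Cfsg.Agent.H401.SixU3
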