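import Cfsg.Agent.H401.Equi
import Cfsg.Agent.Solvable.Glauberman
import Cfsg.Agent.Classification.QDW.FuCop

/-!
# Fixed points of a `p`-group on a transitive set of a `p'`-group
-/

set_option autoImplicit false
open Subgroup MulAction
open scoped Pointwise

namespace Cfsg.Agent.H401

variable {M X : Type*} [Group M] [Finite M] [MulAction M X] [Finite X] {p : ℕ} [Fact p.Prime]

omit [MulAction M X] [Finite X] [Fact p.Prime] in
theorem relIndex_ne_zero' (A B : Subgroup M) : A.relIndex B ≠ 0 :=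
  Subgroup.index_ne_zero_of_finite

open Cfsg.Agent.Classification.QDW in
theorem coprime_index_dvd {D K L : Subgroup M} (hD : IsPGroup p D) (hK : ¬ p ∣ Nat.card K)
    (hDK : ∀ b ∈ D, ∀ u ∈ K, b * u * b⁻¹ ∈ K) (hLK : L ≤ K)
    (hDL : ∀ b ∈ D, ∀ u ∈ L, b * u * b⁻¹ ∈ L) :
    (L ⊓ centralizer (D : Set M)).relIndex (K ⊓ centralizer (D : Set M)) ∣ L.relIndex K := by
  have hL : ¬ p ∣ Nat.card L := fun h => hK (h.trans (Subgroup.card_dvd_of_le hLK))
  rw [← Nat.factorization_prime_le_iff_dvd (relIndex_ne_zero' _ _)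
    (relIndex_ne_zero' _ _)]
  intro r hr
  have : Fact r.Prime := ⟨hr⟩
  obtain ⟨R, hRL, hR, hRi, hDR⟩ := FuCop.exists_inv hD hL hDL r
  obtain ⟨T, hTK, hT, hTi, hDT, hRT⟩ := FuCop.exists_inv_ge hD hK hDK (hRL.trans hLK) hR hDR
  obtain ⟨-, hRCi⟩ := FuCop.centralizer_sylow hD hL hDL hRL hR hRi hDR
  obtain ⟨hTC, hTCi⟩ := FuCop.centralizer_sylow hD hK hDK hTK hT hTi hDT
  set C := centralizer (D : Set M) with hC
  have hmul : ∀ {A B E : Subgroup M}, A ≤ B → B ≤ E → ¬ r ∣ A.relIndex B →
      (B.relIndex E).factorization r = (A.relIndex E).factorization r := by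
    intro A B E hAB hBE h
    rw [← Subgroup.relIndex_mul_relIndex A B E hAB hBE,
      Nat.factorization_mul (relIndex_ne_zero' _ _)
        (relIndex_ne_zero' _ _), Finsupp.add_apply,
      Nat.factorization_eq_zero_of_not_dvd h, zero_add]
  have hmul' : ∀ {A B E : Subgroup M}, A ≤ B → B ≤ E → ¬ r ∣ B.relIndex E →
      (A.relIndex E).factorization r = (A.relIndex B).factorization r := by
    intro A B E hAB hBE h
    rw [← Subgroup.relIndex_mul_relIndex A B E hAB hBE,
      Nat.factorization_mul (relIndex_ne_zero' _ _)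
        (relIndex_ne_zero' _ _), Finsupp.add_apply,
      Nat.factorization_eq_zero_of_not_dvd h, add_zero]
  rw [hmul (inf_le_inf_right C hRL) (inf_le_inf_right C hLK) hRCi,
    hmul' (inf_le_inf_right C hRT) (inf_le_inf_right C hTK) hTCi,
    hmul hRL hLK hRi, hmul' hRT hTK hTi]
  -- powers of `r`
  have hpow : ∀ {A B : Subgroup M}, IsPGroup r B → ∃ k, A.relIndex B = r ^ k := by
    intro A B hB
    obtain ⟨k, hk⟩ := (IsPGroup.iff_card).1 hB
    have h2 : A.relIndex B ∣ r ^ k := by rw [← hk]; exact Subgroup.relIndex_dvd_card A B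
    obtain ⟨j, -, hj⟩ := (Nat.dvd_prime_pow hr).1 h2
    exact ⟨j, hj⟩
  obtain ⟨a, ha⟩ := hpow (A := R) hT
  obtain ⟨b, hb⟩ := hpow (A := R ⊓ C) hTC
  have hle : (R ⊓ C).relIndex (T ⊓ C) ≤ R.relIndex T := by
    have h1 : (R ⊓ C).relIndex (T ⊓ C) = R.relIndex (T ⊓ C) := by
      rw [← Subgroup.inf_relIndex_right R (T ⊓ C), ← Subgroup.inf_relIndex_right (R ⊓ C) (T ⊓ C)]
      congr 1
      rw [inf_assoc, ← inf_assoc C, inf_comm C T, inf_assoc, inf_idem]
    rw [h1]
    exact Subgroup.relIndex_le_of_le_right inf_le_left (relIndex_ne_zero' _ _)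
  rw [ha, hb, hr.factorization_pow, hr.factorization_pow, Finsupp.single_eq_same,
    Finsupp.single_eq_same]
  rw [ha, hb] at hle
  exact (Nat.pow_le_pow_iff_right hr.one_lt).1 hle

/-- If the `p'`-group `K` is transitive on `X`, then the number of fixed points of a `p`-group
normalizing `K` and fixing a point divides the number of points. -/
theorem ncard_fs_dvd {D K : Subgroup M} (hD : IsPGroup p D) (hK : ¬ p ∣ Nat.card K)
    (hDK : D ≤ normalizer (K : Set M)) (htr : ∀ x y : X, ∃ k ∈ K, k • x = y)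
    (hne : (fs D X).Nonempty) : (fs D X).ncard ∣ Nat.card X := by
  obtain ⟨x, hx⟩ := hne
  have hcop : (Nat.card D).Coprime (Nat.card K) := by
    obtain ⟨k, hk⟩ := (IsPGroup.iff_card).1 hD
    rw [hk]
    exact ((Nat.Prime.coprime_iff_not_dvd Fact.out).2 hK).pow_left k
  have hsolv : Group.IsSolvable D ∨ Group.IsSolvable K := by
    left
    have := hD.isNilpotent
    infer_instance
  have hDK' : ∀ b ∈ D, ∀ u ∈ K, b * u * b⁻¹ ∈ K := fun b hb u hu =>
    (mem_normalizer_iff.1 (hDK hb) u).1 hu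
  let L : Subgroup M := K ⊓ stabilizer M x
  have hDL : ∀ b ∈ D, ∀ u ∈ L, b * u * b⁻¹ ∈ L := by
    intro b hb u hu
    refine ⟨hDK' b hb u hu.1, ?_⟩
    exact (stabilizer M x).mul_mem ((stabilizer M x).mul_mem (hx hb) hu.2)
      ((stabilizer M x).inv_mem (hx hb))
  have h1 := coprime_index_dvd hD hK hDK' (L := L) inf_le_left hDL
  have e1 : L.relIndex K = Nat.card X := by
    have h2 : (stabilizer K x).index = Nat.card X := by
      have h3 : orbit K x = Set.univ := by
        rw [Set.eq_univ_iff_forall]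
        intro y
        obtain ⟨k, hk, hky⟩ := htr x y
        exact ⟨⟨k, hk⟩, hky⟩
      rw [← Set.ncard_univ, ← h3, ← Nat.card_coe_set_eq,
        Nat.card_congr (orbitEquivQuotientStabilizer K x)]
      rfl
    rw [← h2, Subgroup.relIndex]
    congr 1
    ext k
    simp only [L, mem_subgroupOf, mem_inf, mem_stabilizer_iff]
    exact ⟨fun h => h.2, fun h => ⟨k.2, h⟩⟩
  have e2 : (L ⊓ centralizer (D : Set M)).relIndex (K ⊓ centralizer (D : Set M)) =
      (fs D X).ncard := by
    set C := K ⊓ centralizer (D : Set M) with hC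
    have h3 : (orbit C x : Set X) = fs D X := by
      ext y
      constructor
      · rintro ⟨c, rfl⟩ b hb
        have h4 : b * (c : M) = c * b := by
          have := mem_centralizer_iff.1 c.2.2 b hb
          exact this
        have h5 : b • x = x := hx hb
        change b • ((c : M) • x) = (c : M) • x
        rw [smul_smul, h4, mul_smul, h5]
      · intro hy
        obtain ⟨k, hk, hkx⟩ := htr x y
        obtain ⟨c, hcK, hcC, hcx⟩ := Cfsg.Agent.Solvable.Glauberman.exists_centralizer_smul D K hDK hcop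
          hsolv x y (fun a ha => hx ha) (fun a ha => hy ha) hk hkx
        exact ⟨⟨c, hcK, hcC⟩, hcx⟩
    have h2 : (stabilizer C x).index = (fs D X).ncard := by
      rw [← h3, ← Nat.card_coe_set_eq, Nat.card_congr (orbitEquivQuotientStabilizer C x)]
      rfl
    rw [← h2, Subgroup.relIndex]
    congr 1
    ext k
    simp only [L, mem_subgroupOf, mem_inf, mem_stabilizer_iff]
    exact ⟨fun h => h.1.2, fun h => ⟨⟨k.2.1, h⟩, k.2.2⟩⟩
  rw [← e1, ← e2]
  exact h1

end Cfsg.Agent.H401
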