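import Cfsg.Agent.H401.Alt
import Cfsg.Agent.H401.L4

/-!
# The rank three argument
-/

set_option autoImplicit false
open Subgroup MulAction
open scoped Pointwise

namespace Cfsg.Agent.H401

section TwoTrans

variable {D Z : Type*} [Group D] [Finite D] [MulAction D Z] {p : ℕ} [Fact p.Prime]

theorem two_trans [Finite Z] [IsPretransitive D Z] (hp3 : 3 ≤ p) {P : Subgroup D}
    (hP : Nat.card P = p) {a : ℕ} (ha : a = 1 ∨ a = 2) (hf : (fs P Z).ncard = a)
    (hZ : Nat.card Z = a + p) (x y x' y' : Z) (hxy : x ≠ y) (hxy' : x' ≠ y') :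
    ∃ d : D, d • x = x' ∧ d • y = y' := by
  classical
  have := Fintype.ofFinite Z
  have hp : p.Prime := Fact.out
  rcases ha with rfl | rfl
  · obtain ⟨z0, hz0⟩ := Set.ncard_eq_one.1 hf
    have hfix : ∀ z, z ∈ fs P Z ↔ z = z0 := by
      intro z
      rw [hz0, Set.mem_singleton_iff]
    have hcompl : (fs P Z)ᶜ.ncard = p := by
      have := Set.ncard_add_ncard_compl (fs P Z)
      omega
    -- `P` is transitive on the complement
    have htr : ∀ u v : Z, u ≠ z0 → v ≠ z0 → ∃ g ∈ P, g • u = v := by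
      intro u v hu hv
      have hu' : u ∉ fs P Z := by rw [hfix]; exact hu
      have horb : orbit P u = (fs P Z)ᶜ := by
        apply Set.eq_of_subset_of_ncard_le _ _ (Set.toFinite _)
        · rintro _ ⟨q, rfl⟩ hq
          rw [hfix] at hq
          simp only at hq
          have h1 : z0 ∈ fs P Z := by rw [hfix]
          have h2 : (q : D)⁻¹ • z0 = z0 := h1 (inv_mem q.2)
          have h3 : (q : D) • u = z0 := hq
          rw [← h3, inv_smul_smul, h3] at h2
          exact hu h2
        · rw [hcompl]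
          exact (ncard_orbit_eq hP hu').ge
      have h4 : v ∈ orbit P u := by
        rw [horb]
        intro h
        rw [hfix] at h
        exact hv h
      obtain ⟨g, hg⟩ := h4
      exact ⟨g, g.2, hg⟩
    obtain ⟨d, hd⟩ := MulAction.exists_smul_eq D x z0
    obtain ⟨d', hd'⟩ := MulAction.exists_smul_eq D x' z0
    obtain ⟨g, hg, hgy⟩ := htr (d • y) (d' • y')
      (by rw [← hd]; exact fun h => hxy (smul_left_cancel d h.symm))
      (by rw [← hd']; exact fun h => hxy' (smul_left_cancel d' h.symm))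
    refine ⟨d'⁻¹ * (g * d), ?_, ?_⟩
    · have h1 : z0 ∈ fs P Z := by rw [hfix]
      have h2 : g • z0 = z0 := h1 hg
      rw [mul_smul, mul_smul, hd, h2, ← hd', inv_smul_smul]
    · rw [mul_smul, mul_smul, hgy, inv_smul_smul]
  · obtain ⟨g, hg, hgc, hgp⟩ := exists_cycle (Z := Z) hP hf
      (by rw [← Nat.card_eq_fintype_card, hZ]) (by omega)
    have htr : IsPretransitive (toPermHom D Z).range Z := by
      constructor
      intro x y
      obtain ⟨d, hd⟩ := MulAction.exists_smul_eq D x y
      exact ⟨⟨toPermHom D Z d, d, rfl⟩, hd⟩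
    have hZ' : Fintype.card Z = p + 2 := by
      rw [← Nat.card_eq_fintype_card, hZ, add_comm]
    have hprim := Cfsg.Agent.H529.TwoCycles.isPreprimitive_of_cycle hp hgc hgp (by omega) htr
      ⟨g, rfl⟩
    have h3 := Cfsg.Agent.H529.TwinCycle.three_transitive hprim hp hZ' hgc hgp ⟨g, rfl⟩
    have h2 : IsMultiplyPretransitive (toPermHom D Z).range Z 2 :=
      isMultiplyPretransitive_of_le (n := 3) (by norm_num)
        (by rw [Nat.card_eq_fintype_card, hZ']; omega)
    rw [is_two_pretransitive_iff] at h2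
    obtain ⟨⟨_, d, rfl⟩, hd1, hd2⟩ := h2 hxy hxy'
    exact ⟨d, hd1, hd2⟩

end TwoTrans

theorem double_count {X Y : Type*} [Finite X] [Finite Y] (A : Set X) (B : Set Y)
    (E : X → Y → Prop) {m n : ℕ} (h1 : ∀ x ∈ A, {z | z ∈ B ∧ E x z}.ncard = m)
    (h2 : ∀ z ∈ B, {x | x ∈ A ∧ E x z}.ncard = n) : A.ncard * m = B.ncard * n := by
  classical
  have := Fintype.ofFinite X
  have := Fintype.ofFinite Y
  rw [Set.ncard_eq_toFinset_card' A, Set.ncard_eq_toFinset_card' B]
  apply Finset.card_mul_eq_card_mul E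
  · intro x hx
    rw [Set.mem_toFinset] at hx
    rw [← h1 x hx, Set.ncard_eq_toFinset_card']
    congr 1
    ext z
    simp [Finset.mem_bipartiteAbove]
  · intro z hz
    rw [Set.mem_toFinset] at hz
    rw [← h2 z hz, Set.ncard_eq_toFinset_card']
    congr 1
    ext x
    simp [Finset.mem_bipartiteBelow]

/-- The abstract counting argument. -/
theorem graph_false {G X : Type*} [Group G] [MulAction G X] [Finite X] [IsPreprimitive G X]
    {p a f1 K1 : ℕ} [Fact p.Prime] (hp3 : 3 ≤ p) (ha : a = 1 ∨ a = 2) (E : X → X → Prop)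
    (hE : ∀ (g : G) x y, E (g • x) (g • y) ↔ E x y) (β : X) (M : Subgroup G)
    (hMβ : M ≤ stabilizer G β) (hββ : ¬ E β β) (hN : {y | E β y}.ncard = a + p)
    (hR : {y | y ≠ β ∧ ¬ E β y}.ncard = K1) (hK1 : 2 * p ≤ K1) (hpK1 : ¬ p ∣ K1)
    (htrR : ∀ y, y ≠ β → ¬ E β y → ∀ z, z ≠ β → ¬ E β z → ∃ m ∈ M, m • y = z)
    (htrN : ∀ x y, E β x → E β y → x ≠ y → ∀ x' y', E β x' → E β y' → x' ≠ y' →
      ∃ m ∈ M, m • x = x' ∧ m • y = y')
    {P : Subgroup G} (hP : IsPGroup p P) (hPβ : P ≤ stabilizer G β)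
    (hfN : ∀ x, x ∈ fs P X → (fs P X ∩ {y | E x y}).ncard = a)
    (hfR : (fs P X ∩ {y | y ≠ β ∧ ¬ E β y}).ncard = f1) (hf1 : 3 ≤ f1 ∨ a = 1) : False := by
  have hp : p.Prime := Fact.out
  have hNx : ∀ x, {y | E x y}.ncard = a + p := by
    intro x
    obtain ⟨g, rfl⟩ := MulAction.exists_smul_eq G β x
    have : {y | E (g • β) y} = (fun y => g • y) '' {y | E β y} := by
      ext y
      simp only [Set.mem_ofPred_eq, Set.mem_image]
      constructor
      · intro h
        refine ⟨g⁻¹ • y, ?_, smul_inv_smul _ _⟩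
        rw [← hE g, smul_inv_smul]
        exact h
      · rintro ⟨z, hz, rfl⟩
        exact (hE g β z).2 hz
    rw [this, Set.ncard_image_of_injective _ (MulAction.injective g), hN]
  have hSx : ∀ x, {y | E y x}.ncard = {y | E y β}.ncard := by
    intro x
    obtain ⟨g, rfl⟩ := MulAction.exists_smul_eq G β x
    have : {y | E y (g • β)} = (fun y => g • y) '' {y | E y β} := by
      ext y
      simp only [Set.mem_ofPred_eq, Set.mem_image]
      constructor
      · intro h
        refine ⟨g⁻¹ • y, ?_, smul_inv_smul _ _⟩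
        rw [← hE g, smul_inv_smul]
        exact h
      · rintro ⟨z, hz, rfl⟩
        exact (hE g z β).2 hz
    rw [this, Set.ncard_image_of_injective _ (MulAction.injective g)]
  have hXpos : 0 < (Set.univ : Set X).ncard := by
    rw [Set.ncard_pos]
    exact ⟨β, trivial⟩
  -- symmetry
  have hS : {y | E y β}.ncard = a + p := by
    have h := double_count (Set.univ : Set X) (Set.univ : Set X) E (m := a + p)
      (n := {y | E y β}.ncard) (fun x _ => by simpa using hNx x) (fun z _ => by simpa using hSx z)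
    exact (Nat.eq_of_mul_eq_mul_left hXpos h).symm
  have hMsm : ∀ m ∈ M, m • β = β := fun m hm => hMβ hm
  have hSsub : {y | E y β} ⊆ {y | E β y} := by
    intro y hy
    by_contra hcon
    have hyβ : y ≠ β := by
      rintro rfl
      exact hββ hy
    have hsub : {y | y ≠ β ∧ ¬ E β y} ⊆ {y | E y β} := by
      rintro z ⟨hz1, hz2⟩
      obtain ⟨m, hm, rfl⟩ := htrR y hyβ hcon z hz1 hz2
      have h1 := (hE m y β).2 hy
      rw [hMsm m hm] at h1
      exact h1
    have h2 := Set.ncard_le_ncard hsub (Set.toFinite _)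
    rw [hR, hS] at h2
    omega
  have hSeq : {y | E y β} = {y | E β y} :=
    Set.eq_of_subset_of_ncard_le hSsub (by rw [hS, hN]) (Set.toFinite _)
  have hsymβ : ∀ y, E y β ↔ E β y := fun y => by
    have : y ∈ {y | E y β} ↔ y ∈ {y | E β y} := by rw [hSeq]
    exact this
  have hsym : ∀ x y, E x y ↔ E y x := by
    intro x y
    obtain ⟨g, rfl⟩ := MulAction.exists_smul_eq G β x
    have h1 : y = g • (g⁻¹ • y) := (smul_inv_smul _ _).symm
    rw [h1, hE, hE]
    exact (hsymβ _).symm
  have hirr : ∀ x, ¬ E x x := by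
    intro x
    obtain ⟨g, rfl⟩ := MulAction.exists_smul_eq G β x
    rw [hE]
    exact hββ
  have hcardX : Nat.card X = 1 + (a + p) + K1 := by
    have h1 : (Set.univ : Set X) = ({β} ∪ {y | E β y}) ∪ {y | y ≠ β ∧ ¬ E β y} := by
      ext y
      simp only [Set.mem_univ, Set.mem_union, Set.mem_singleton_iff, Set.mem_ofPred_eq, true_iff]
      tauto
    rw [← Set.ncard_univ, h1, Set.ncard_union_eq, Set.ncard_union_eq, Set.ncard_singleton, hN, hR]
    · rw [Set.disjoint_singleton_left]
      exact hββ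
    · rw [Set.disjoint_left]
      rintro y (hy | hy) ⟨h2, h3⟩
      · exact h2 hy
      · exact h3 hy
  -- no triangles
  have hno : ∀ x y, E β x → E β y → ¬ E x y := by
    intro x y hx hy hxy
    have hne : x ≠ y := by
      rintro rfl
      exact hirr x hxy
    have hall : ∀ x' y', E β x' → E β y' → x' ≠ y' → E x' y' := by
      intro x' y' hx' hy' hne'
      obtain ⟨m, hm, rfl, rfl⟩ := htrN x y hx hy hne x' y' hx' hy' hne'
      exact (hE m x y).2 hxy
    have hins : ∀ x, (insert x {y | E x y}).ncard = a + p + 1 := by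
      intro x
      rw [Set.ncard_insert_of_notMem (show x ∉ {y | E x y} from hirr x) (Set.toFinite _), hNx]
    obtain ⟨B, hBdef⟩ : ∃ B : Set X, B = insert β {y | E β y} := ⟨_, rfl⟩
    have hBc : B.ncard = a + p + 1 := by rw [hBdef]; exact hins β
    have hBx : ∀ x ∈ B, insert x {y | E x y} = B := by
      intro x hx
      rw [hBdef] at hx
      rcases hx with hx | hx
      · rw [hx, hBdef]
      · have hsub : B ⊆ insert x {y | E x y} := by
          intro y hy
          rw [hBdef] at hy
          rcases hy with hy | hy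
          · right
            rw [hy]
            exact (hsym _ _).1 hx
          · by_cases hxy' : y = x
            · left; exact hxy'
            · right
              exact hall x y hx hy (Ne.symm hxy')
        exact (Set.eq_of_subset_of_ncard_le hsub (by rw [hins, hBc]) (Set.toFinite _)).symm
    have hblock : IsBlock G B := by
      rw [isBlock_iff_smul_eq_of_nonempty]
      rintro g ⟨z, hz1, hz2⟩
      obtain ⟨x, hx, rfl⟩ := hz1
      have h1 := hBx x hx
      have h2 : insert (g • x) {y | E (g • x) y} = B := hBx _ hz2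
      calc g • B = g • insert x {y | E x y} := by rw [h1]
        _ = insert (g • x) {y | E (g • x) y} := by
          ext w
          rw [Set.mem_smul_set_iff_inv_smul_mem]
          simp only [Set.mem_insert_iff, Set.mem_ofPred_eq]
          rw [inv_smul_eq_iff]
          have h3 := hE g x (g⁻¹ • w)
          rw [smul_inv_smul] at h3
          rw [h3]
        _ = B := h2
    rcases IsPreprimitive.isTrivialBlock_of_isBlock hblock with h1 | h1
    · have h2 := Set.ncard_le_one_iff_subsingleton.2 h1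
      omega
    · rw [h1, Set.ncard_univ, hcardX] at hBc
      omega
  -- the parameter `μ`
  have hR1 : ∀ x, E β x → {z | z ∈ {y | y ≠ β ∧ ¬ E β y} ∧ E x z}.ncard = a + p - 1 := by
    intro x hx
    have : {z | z ∈ {y | y ≠ β ∧ ¬ E β y} ∧ E x z} = {y | E x y} \ {β} := by
      ext z
      simp only [Set.mem_ofPred_eq, Set.mem_diff, Set.mem_singleton_iff]
      constructor
      · rintro ⟨⟨h1, h2⟩, h3⟩
        exact ⟨h3, h1⟩
      · rintro ⟨h1, h2⟩
        exact ⟨⟨h2, fun h => hno x z hx h h1⟩, h1⟩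
    rw [this, Set.ncard_diff_singleton_of_mem (show β ∈ {y | E x y} from (hsym _ _).1 hx), hNx]
  have hRne : {y | y ≠ β ∧ ¬ E β y}.Nonempty := by
    rw [← Set.ncard_pos, hR]
    omega
  obtain ⟨z0, hz01, hz02⟩ := hRne
  set μ := {x | x ∈ {y | E β y} ∧ E x z0}.ncard with hμ
  have hμ' : ∀ z ∈ {y | y ≠ β ∧ ¬ E β y}, {x | x ∈ {y | E β y} ∧ E x z}.ncard = μ := by
    rintro z ⟨hz1, hz2⟩
    obtain ⟨m, hm, rfl⟩ := htrR z0 hz01 hz02 z hz1 hz2
    have : {x | x ∈ {y | E β y} ∧ E x (m • z0)} =
        (fun x => m • x) '' {x | x ∈ {y | E β y} ∧ E x z0} := by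
      ext x
      simp only [Set.mem_ofPred_eq, Set.mem_image]
      constructor
      · rintro ⟨h1, h2⟩
        refine ⟨m⁻¹ • x, ⟨?_, ?_⟩, smul_inv_smul _ _⟩
        · rw [← hE m, smul_inv_smul, hMsm m hm]
          exact h1
        · rw [← hE m, smul_inv_smul]
          exact h2
      · rintro ⟨y, ⟨h1, h2⟩, rfl⟩
        refine ⟨?_, (hE m y z0).2 h2⟩
        have := (hE m β y).2 h1
        rwa [hMsm m hm] at this
    rw [this, Set.ncard_image_of_injective _ (MulAction.injective m)]
  have hcount := double_count {y | E β y} {y | y ≠ β ∧ ¬ E β y} E hR1 hμ'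
  rw [hN, hR] at hcount
  rcases ha with rfl | rfl
  · -- `a = 1`
    have h1 : 1 + p - 1 = p := by omega
    rw [h1] at hcount
    have h2 : p ∣ K1 * μ := ⟨1 + p, by rw [← hcount, mul_comm]⟩
    rcases (Nat.Prime.dvd_mul hp).1 h2 with h3 | ⟨ν, h3⟩
    · exact hpK1 h3
    · rw [h3] at hcount
      have h4 : (1 + p) * p = (K1 * ν) * p := by
        rw [hcount]
        ring
      have h5 := Nat.eq_of_mul_eq_mul_right hp.pos h4
      have h6 : K1 ∣ 1 + p := ⟨ν, h5⟩
      have h7 := Nat.le_of_dvd (by omega) h6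
      omega
  · -- `a = 2`
    have hf3 : 3 ≤ f1 := by omega
    have hβΓ : β ∈ fs P X := hPβ
    obtain ⟨x1, x2, hx12, hx⟩ := Set.ncard_eq_two.1 (hfN β hβΓ)
    have hx1 : x1 ∈ fs P X ∧ E β x1 := by
      have : x1 ∈ fs P X ∩ {y | E β y} := by rw [hx]; simp
      exact this
    have hx2 : x2 ∈ fs P X ∧ E β x2 := by
      have : x2 ∈ fs P X ∩ {y | E β y} := by rw [hx]; simp
      exact this
    have hone : ∀ x, x ∈ fs P X → E β x → ((fs P X ∩ {y | E x y}) \ {β}).ncard = 1 := by
      intro x h1 h2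
      rw [Set.ncard_diff_singleton_of_mem
        (show β ∈ fs P X ∩ {y | E x y} from ⟨hβΓ, (hsym _ _).1 h2⟩), hfN x h1]
    obtain ⟨w1, hw1⟩ := Set.ncard_eq_one.1 (hone x1 hx1.1 hx1.2)
    obtain ⟨w2, hw2⟩ := Set.ncard_eq_one.1 (hone x2 hx2.1 hx2.2)
    have hex : ∃ z ∈ fs P X ∩ {y | y ≠ β ∧ ¬ E β y}, z ≠ w1 ∧ z ≠ w2 := by
      by_contra hcon
      push Not at hcon
      have hsub : fs P X ∩ {y | y ≠ β ∧ ¬ E β y} ⊆ {w1, w2} := by
        intro z hz
        by_cases h1 : z = w1
        · left; exact h1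
        · right
          exact hcon z hz h1
      have h1 := Set.ncard_le_ncard hsub (Set.toFinite _)
      have h2 := Set.ncard_insert_le w1 {w2}
      rw [Set.ncard_singleton] at h2
      omega
    obtain ⟨z, ⟨hz1, hz2⟩, hzw1, hzw2⟩ := hex
    have hC := ncard_modEq hP {x | x ∈ {y | E β y} ∧ E x z} (by
      rintro g hg x ⟨h1, h2⟩
      have hgβ : g • β = β := hPβ hg
      have hgz : g • z = z := hz1 hg
      refine ⟨?_, ?_⟩
      · have := (hE g β x).2 h1
        rwa [hgβ] at this
      · have := (hE g x z).2 h2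
        rwa [hgz] at this)
    have hempty : fs P X ∩ {x | x ∈ {y | E β y} ∧ E x z} = ∅ := by
      rw [Set.eq_empty_iff_forall_notMem]
      rintro x ⟨h1, h2, h3⟩
      have h4 : x ∈ ({x1, x2} : Set X) := by
        rw [← hx]
        exact ⟨h1, h2⟩
      have h5 : z ∈ (fs P X ∩ {y | E x y}) \ {β} := ⟨⟨hz1, h3⟩, hz2.1⟩
      rcases h4 with rfl | h4
      · rw [hw1] at h5
        exact hzw1 h5
      · rw [Set.mem_singleton_iff] at h4
        subst h4
        rw [hw2] at h5
        exact hzw2 h5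
    rw [hempty, Set.ncard_empty, hμ' z hz2] at hC
    obtain ⟨ν, hν⟩ := (Nat.modEq_zero_iff_dvd).1 hC
    rw [hν] at hcount
    have h1 : p ∣ (2 + p) * (2 + p - 1) := ⟨K1 * ν, by rw [hcount]; ring⟩
    rcases (Nat.Prime.dvd_mul hp).1 h1 with h2 | h2
    · have h3 : p ∣ 2 := (Nat.dvd_add_left dvd_rfl).1 h2
      have := Nat.le_of_dvd (by norm_num) h3
      omega
    · have h3 : 2 + p - 1 = 1 + p := by omega
      rw [h3] at h2
      have h4 : p ∣ 1 := (Nat.dvd_add_left dvd_rfl).1 h2
      have := Nat.le_of_dvd (by norm_num) h4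
      omega

end Cfsg.Agent.H401
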