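import Cfsg.Agent.H401.CaseA
import Cfsg.Agent.H401.B0
import Cfsg.Agent.H401.Graph

/-!
# Case B: a large block orbit
-/

set_option autoImplicit false
open Subgroup MulAction
open scoped Pointwise

namespace Cfsg.Agent.H401

universe u

section

variable {G : Type*} {X : Type u} [Group G] [MulAction G X] {p : ℕ}

theorem orbit_conj (g : G) (H : Subgroup G) (y : X) :
    (orbit (MulAut.conj g • H : Subgroup G) (g • y) : Set X) = (fun x => g • x) '' orbit H y := by
  ext z
  constructor
  · rintro ⟨⟨k, hk⟩, rfl⟩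
    rw [mem_pointwise_smul_iff_inv_smul_mem, ← map_inv, MulAut.smul_def, MulAut.conj_apply] at hk
    refine ⟨(g⁻¹ * k * g) • y, ⟨⟨g⁻¹ * k * g, by simpa using hk⟩, rfl⟩, ?_⟩
    change g • ((g⁻¹ * k * g) • y) = k • (g • y)
    rw [smul_smul, smul_smul]
    congr 1
    group
  · rintro ⟨_, ⟨⟨k, hk⟩, rfl⟩, rfl⟩
    refine ⟨⟨g * k * g⁻¹, ?_⟩, ?_⟩
    · rw [mem_pointwise_smul_iff_inv_smul_mem, ← map_inv, MulAut.smul_def, MulAut.conj_apply]
      simpa [mul_assoc] using hk
    · change (g * k * g⁻¹) • (g • y) = g • (k • y)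
      rw [smul_smul, smul_smul]
      congr 1
      group

/-- orbit sizes of the point stabilizers -/
noncomputable def oc (p : ℕ) (G : Type*) {X : Type*} [Group G] [MulAction G X] (x y : X) : ℕ :=
  (orbit (plus p (stabilizer G x)) y).ncard

theorem oc_smul (g : G) (x y : X) : oc p G (g • x) (g • y) = oc p G x y := by
  unfold oc
  have h : plus p (stabilizer G (g • x)) = MulAut.conj g • plus p (stabilizer G x) := by
    rw [smul_plus, stabilizer_smul']
  rw [h, orbit_conj, Set.ncard_image_of_injective _ (MulAction.injective g)]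

variable [Finite G] [Fact p.Prime]

omit [Fact p.Prime] [Finite G] in
theorem fs_subtype {P : Sylow p G} {M : Subgroup G} (h : (P : Subgroup G) ≤ M) :
    fs ((P.subtype h : Sylow p M) : Subgroup M) X = fs (P : Subgroup G) X := by
  ext x
  rw [mem_fs, mem_fs, Sylow.coe_subtype]
  constructor
  · intro h1 g hg
    exact h1 (show (⟨g, h hg⟩ : M) ∈ (P : Subgroup G).subgroupOf M from hg)
  · intro h1 g hg
    exact h1 hg

end

theorem numericB1 {p : ℕ} (hp : p.Prime) (hp3 : 3 ≤ p) {b a e R : ℕ} (hb : 0 < b)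
    (hae : a + e = p - 1) (hcrit : ¬ AltCrit p a) (hR : b * e ≤ R) (hR2 : R + 2 ≤ p) :
    b = 1 ∧ (a = 1 ∨ a = 2) ∧ (a = 2 → 7 ≤ p) ∧ p < 2 * e + 2 := by
  obtain ⟨h1, h2⟩ := not_altCrit hcrit
  have h7 : p = 3 ∨ p = 5 ∨ 7 ≤ p := by
    rcases Nat.lt_or_ge p 7 with h7 | h7
    · interval_cases p
      · left; rfl
      · exact absurd hp (by norm_num)
      · right; left; rfl
      · exact absurd hp (by norm_num)
    · right; right; exact h7
  have hb1 : b = 1 := by
    by_contra hb1
    have h3 : 2 * e ≤ b * e := Nat.mul_le_mul_right _ (by omega)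
    omega
  subst hb1
  rw [one_mul] at hR
  refine ⟨rfl, ?_, ?_, ?_⟩ <;> omega

variable {G : Type*} {X : Type u} [Group G] [Finite G] [MulAction G X] [Finite X] {p : ℕ}
  [Fact p.Prime]

theorem caseB [IsPreprimitive G X] (hp2 : p ≠ 2) {P : Sylow p G}
    (hPc : Nat.card P = p) {β : X}
    (hP : (P : Subgroup G) ≤ stabilizer G β) {ι : Type u} [Fintype ι] {f l : ℕ}
    (d : Dat p (P.subtype (le_plus hP)) β f l ι) (hc1 : ¬ ∀ i, d.c i = 1) : False := by
  classical
  have hp : p.Prime := Fact.out
  have hp3 : 3 ≤ p := by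
    have := hp.two_le
    omega
  have hMgen : PGen p (plus p (stabilizer G β)) := pGen_plus hP
  have hPc' := card_subtype hPc (le_plus hP)
  push Not at hc1
  obtain ⟨i0, hi0⟩ := hc1
  have hc0 : 2 ≤ d.c i0 := by
    have := d.c_pos i0
    omega
  have he0 := d.e_ge i0 hc0
  have hS : ∑ i, d.b i * d.e i + 3 ≤ 2 * p := by
    have h1 := d.sum_e
    have h2 := d.f_ge'
    omega
  have hsplit := Finset.add_sum_erase Finset.univ (fun i => d.b i * d.e i) (Finset.mem_univ i0)
  have hb0 : d.b i0 = 1 := by
    by_contra hb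
    have hb' := d.b_pos i0
    have h1 : 2 * d.e i0 ≤ d.b i0 * d.e i0 := Nat.mul_le_mul_right _ (by omega)
    omega
  rw [hb0, one_mul] at hsplit
  have hle : ∀ j, j ≠ i0 → d.b j * d.e j ≤ ∑ i ∈ Finset.univ.erase i0, d.b i * d.e i := by
    intro j hj
    exact Finset.single_le_sum (f := fun i => d.b i * d.e i) (fun _ _ => Nat.zero_le _)
      (Finset.mem_erase.2 ⟨hj, Finset.mem_univ j⟩)
  set R := ∑ i ∈ Finset.univ.erase i0, d.b i * d.e i with hRdef
  have hR : R + d.e i0 + 3 ≤ 2 * p := by omega
  have hc : ∀ j, j ≠ i0 → d.c j = 1 := by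
    intro j hj
    by_contra hcj
    have h1 := d.c_pos j
    have h2 := d.e_ge j (by omega)
    have h3 := hle j hj
    have h4 : d.e j ≤ d.b j * d.e j := Nat.le_mul_of_pos_left _ (d.b_pos j)
    omega
  have ha0 := d.he i0
  have hf1 : (p - 1) * (d.c i0 - 2) + 1 ≤ d.a i0 := by
    obtain ⟨k, hk⟩ : ∃ k, d.c i0 = k + 2 := ⟨d.c i0 - 2, by omega⟩
    rw [hk] at ha0 ⊢
    rw [Nat.add_sub_cancel]
    rw [mul_add] at ha0
    omega
  have hae : ∀ j, j ≠ i0 → d.a j + d.e j = p - 1 := by
    intro j hj
    have := d.he j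
    rw [hc j hj, mul_one] at this
    exact this
  have hejle : ∀ j, d.e j ≤ d.b j * d.e j := fun j => Nat.le_mul_of_pos_left _ (d.b_pos j)
  have hUcard : ∀ j, j ≠ i0 → Nat.card (plus p (stabilizer G β) ⧸ d.U j) = d.a j + p := by
    intro j hj
    rw [d.hc j, hc j hj, mul_one]
  by_cases hex : ∃ j, j ≠ i0 ∧ AltCrit p (d.a j)
  · obtain ⟨j, hj, hcrit⟩ := hex
    have hU : IsAltCo (P.subtype (le_plus hP)) (d.U j) (d.a j) :=
      ⟨d.coatom j, d.ha j, hUcard j hj, (d.bd j).1 (hc j hj), hcrit⟩
    refine hU.false_of_large hp2 hMgen hPc' (d.coatom i0) (d.ha i0) (d.hc i0) hc0 hf1 ?_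
    intro hc2
    have h1 := hle j hj
    have h2 := hejle j
    have h3 := hae j hj
    rw [hc2] at ha0
    omega
  · push Not at hex
    -- another orbit
    have hexj : ∃ j, j ≠ i0 := by
      by_contra hcon
      push Not at hcon
      have h1 := d.sum_c
      have h2 : ∑ i, d.b i * d.c i = d.b i0 * d.c i0 := by
        apply Finset.sum_eq_single i0
        · intro j _ hj
          exact absurd (hcon j) hj
        · intro h
          exact absurd (Finset.mem_univ _) h
      have h3 := d.c_lt i0
      rw [hb0, one_mul] at h2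
      omega
    obtain ⟨j0, hj0⟩ := hexj
    have hR2 : R + 2 ≤ p := by omega
    obtain ⟨hbj, haj, haj2, hej⟩ := numericB1 hp hp3 (d.b_pos j0) (hae j0 hj0) (hex j0 hj0)
      (hle j0 hj0) hR2
    have huniq : ∀ i, i = i0 ∨ i = j0 := by
      intro i
      by_contra hcon
      push Not at hcon
      obtain ⟨-, -, -, hei⟩ := numericB1 hp hp3 (d.b_pos i) (hae i hcon.1) (hex i hcon.1)
        (hle i hcon.1) hR2
      have h1 : d.b j0 * d.e j0 + d.b i * d.e i ≤ R := by
        have h2 := Finset.add_sum_erase (Finset.univ.erase i0) (fun i => d.b i * d.e i)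
          (Finset.mem_erase.2 ⟨hj0, Finset.mem_univ j0⟩)
        have h3 : d.b i * d.e i ≤ ∑ i ∈ (Finset.univ.erase i0).erase j0, d.b i * d.e i :=
          Finset.single_le_sum (f := fun i => d.b i * d.e i) (fun _ _ => Nat.zero_le _)
            (Finset.mem_erase.2 ⟨hcon.2, Finset.mem_erase.2 ⟨hcon.1, Finset.mem_univ i⟩⟩)
        omega
      have h4 := hejle j0
      have h5 := hejle i
      omega
    -- the data for the graph
    have hfsum : f = 1 + (d.a i0 + d.a j0) := by
      have h1 := d.sum_a
      have h2 : ∑ i, d.b i * d.a i = d.a i0 + d.a j0 := by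
        rw [← Finset.add_sum_erase Finset.univ (fun i => d.b i * d.a i) (Finset.mem_univ i0),
          ← Finset.add_sum_erase (Finset.univ.erase i0) (fun i => d.b i * d.a i)
            (Finset.mem_erase.2 ⟨hj0, Finset.mem_univ j0⟩)]
        have h3 : (Finset.univ.erase i0).erase j0 = ∅ := by
          ext i
          simp only [Finset.mem_erase, Finset.mem_univ, and_true, Finset.notMem_empty, iff_false]
          have := huniq i
          tauto
        rw [h3, Finset.sum_empty, add_zero, hb0, hbj, one_mul, one_mul]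
      omega
    have hmβ : ∀ m : plus p (stabilizer G β), m • β = β := fun m => plus_le _ m.2
    have hococ : ∀ i, ∀ y ∈ orbit (plus p (stabilizer G β)) (d.δ i),
        oc p G β y = d.b i * (d.a i + p * d.c i) := by
      intro i y hy
      unfold oc
      rw [orbit_eq_iff.2 hy]
      exact d.card_orbit i
    have hcj := hc j0 hj0
    have hoc0 : oc p G β β = 1 := by
      unfold oc
      have : (orbit (plus p (stabilizer G β)) β : Set X) = {β} := by
        ext y
        constructor
        · rintro ⟨m, rfl⟩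
          exact hmβ m
        · rintro rfl
          exact mem_orbit_self _
      rw [this, Set.ncard_singleton]
    have hp2c : p * 2 ≤ p * d.c i0 := Nat.mul_le_mul_left _ hc0
    have hKa : d.b i0 * (d.a i0 + p * d.c i0) = d.a i0 + p * d.c i0 := by rw [hb0, one_mul]
    have hkj : d.b j0 * (d.a j0 + p * d.c j0) = d.a j0 + p := by rw [hbj, hcj, one_mul, mul_one]
    have hcov : ∀ y, y ≠ β → y ∈ orbit (plus p (stabilizer G β)) (d.δ i0) ∨
        y ∈ orbit (plus p (stabilizer G β)) (d.δ j0) := by
      intro y hy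
      obtain ⟨i, hi⟩ := d.cover y hy
      rcases huniq i with rfl | rfl
      · left; exact hi
      · right; exact hi
    have hE0 : ∀ y, oc p G β y = d.a j0 + p ↔
        y ∈ orbit (plus p (stabilizer G β)) (d.δ j0) := by
      intro y
      constructor
      · intro h
        by_cases hy : y = β
        · rw [hy, hoc0] at h
          omega
        · rcases hcov y hy with h1 | h1
          · rw [hococ i0 y h1, hKa] at h
            omega
          · exact h1
      · intro h
        rw [hococ j0 y h, hkj]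
    have hE1 : ∀ y, (y ≠ β ∧ ¬ oc p G β y = d.a j0 + p) ↔
        y ∈ orbit (plus p (stabilizer G β)) (d.δ i0) := by
      intro y
      constructor
      · rintro ⟨h1, h2⟩
        rcases hcov y h1 with h3 | h3
        · exact h3
        · exact absurd ((hE0 y).2 h3) h2
      · intro h
        have h1 := hococ i0 y h
        rw [hKa] at h1
        refine ⟨?_, ?_⟩
        · rintro rfl
          rw [hoc0] at h1
          omega
        · rw [h1]
          omega
    have hSet0 : {y | oc p G β y = d.a j0 + p} =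
        (orbit (plus p (stabilizer G β)) (d.δ j0) : Set X) := by
      ext y
      exact hE0 y
    have hSet1 : {y | y ≠ β ∧ ¬ oc p G β y = d.a j0 + p} =
        (orbit (plus p (stabilizer G β)) (d.δ i0) : Set X) := by
      ext y
      exact hE1 y
    refine graph_false (G := G) (X := X) (p := p) (a := d.a j0) (f1 := d.a i0)
      (K1 := d.a i0 + p * d.c i0) hp3 haj (fun x y => oc p G x y = d.a j0 + p)
      (fun g x y => by rw [oc_smul]) β (plus p (stabilizer G β)) (plus_le _) ?_ ?_ ?_ ?_ ?_ ?_ ?_
      P.isPGroup' hP ?_ ?_ ?_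
    · simp only [hoc0]
      omega
    · rw [hSet0, d.card_orbit j0, hkj]
    · rw [hSet1, d.card_orbit i0, hKa]
    · omega
    · have hne : (fs ((P.subtype (le_plus hP) : Sylow p (plus p (stabilizer G β))) :
          Subgroup (plus p (stabilizer G β))) (plus p (stabilizer G β) ⧸ d.U i0)).Nonempty := by
        apply Set.nonempty_of_ncard_ne_zero
        rw [d.ha i0]
        omega
      obtain ⟨z, hz⟩ := hne
      have h1 := not_dvd_card_of_fixed _ hz
      rwa [d.hc i0] at h1
    · intro y hy1 hy2 z hz1 hz2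
      have h1 := (hE1 y).1 ⟨hy1, hy2⟩
      have h2 := (hE1 z).1 ⟨hz1, hz2⟩
      rw [← orbit_eq_iff] at h1
      rw [← h1] at h2
      obtain ⟨m, hm⟩ := h2
      exact ⟨m, m.2, hm⟩
    · intro x y hx hy hxy x' y' hx' hy' hxy'
      have hst := d.eq_of_b j0 hbj
      rw [hE0] at hx hy hx' hy'
      obtain ⟨m1, rfl⟩ := hx
      obtain ⟨m2, rfl⟩ := hy
      obtain ⟨m3, rfl⟩ := hx'
      obtain ⟨m4, rfl⟩ := hy'
      have key : ∀ m m' : plus p (stabilizer G β),
          ((m : plus p (stabilizer G β) ⧸ d.U j0) = m' ↔ m • d.δ j0 = m' • d.δ j0) := by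
        intro m m'
        rw [QuotientGroup.eq, hst, mem_stabilizer_iff, mul_smul, inv_smul_eq_iff, eq_comm]
      obtain ⟨m, hm1, hm2⟩ := two_trans (Z := plus p (stabilizer G β) ⧸ d.U j0) hp3 hPc' haj
        (d.ha j0) (hUcard j0 hj0) (m1 : plus p (stabilizer G β) ⧸ d.U j0) m2 m3 m4
        (fun h => hxy ((key _ _).1 h)) (fun h => hxy' ((key _ _).1 h))
      refine ⟨m, m.2, ?_, ?_⟩
      · have h1 : ((m * m1 : plus p (stabilizer G β)) : plus p (stabilizer G β) ⧸ d.U j0) = m3 :=
          hm1
        rw [key, mul_smul] at h1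
        exact h1
      · have h1 : ((m * m2 : plus p (stabilizer G β)) : plus p (stabilizer G β) ⧸ d.U j0) = m4 :=
          hm2
        rw [key, mul_smul] at h1
        exact h1
    · -- fixed points in `N x`
      intro x hx
      obtain ⟨g, rfl⟩ := MulAction.exists_smul_eq G β x
      have hQβ : ((g⁻¹ • P : Sylow p G) : Subgroup G) ≤ stabilizer G β := by
        rw [Sylow.coe_subgroup_smul, map_inv, ← Subgroup.subset_pointwise_smul_iff,
          ← stabilizer_smul']
        exact hx
      have h1 : fs (P : Subgroup G) X ∩ {y | oc p G (g • β) y = d.a j0 + p} =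
          (fun y => g • y) '' (fs ((g⁻¹ • P : Sylow p G) : Subgroup G) X ∩
            {y | oc p G β y = d.a j0 + p}) := by
        have hPg : (P : Subgroup G) = MulAut.conj g • ((g⁻¹ • P : Sylow p G) : Subgroup G) := by
          rw [Sylow.coe_subgroup_smul, map_inv, smul_inv_smul]
        ext y
        simp only [Set.mem_inter_iff, Set.mem_ofPred_eq, Set.mem_image]
        constructor
        · rintro ⟨h1, h2⟩
          refine ⟨g⁻¹ • y, ⟨?_, ?_⟩, smul_inv_smul _ _⟩
          · rw [← fs_smul _ g, smul_inv_smul, ← hPg]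
            exact h1
          · rw [← oc_smul g, smul_inv_smul]
            exact h2
        · rintro ⟨z, ⟨h1, h2⟩, rfl⟩
          refine ⟨?_, ?_⟩
          · rw [hPg, fs_smul]
            exact h1
          · rw [oc_smul]
            exact h2
      rw [h1, Set.ncard_image_of_injective _ (MulAction.injective g), hSet0,
        ← fs_subtype (le_plus hQβ)]
      obtain ⟨m, hm⟩ := MulAction.exists_smul_eq (plus p (stabilizer G β))
        (P.subtype (le_plus hP)) ((g⁻¹ • P : Sylow p G).subtype (le_plus hQβ))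
      rw [← hm, Sylow.coe_subgroup_smul, ncard_fs_smul _ _ _ (fun m x hx => mem_orbit_smul m hx),
        d.fix_orbit j0, hbj, one_mul]
    · rw [hSet1, ← fs_subtype (le_plus hP), d.fix_orbit i0, hb0, one_mul]
    · have h1 := d.f_ge
      rcases haj with h | h
      · right; exact h
      · left
        have := haj2 h
        omega

end Cfsg.Agent.H401
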