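import Mathlib
import Cfsg.Agent.H546.F4.Eig

/-!
# S5927: dihedral groups of order 8 (helper401)
-/

set_option autoImplicit false
set_option linter.unusedVariables false

namespace Cfsg.Agent.H401.E6Three

open Module
open Cfsg.Agent.H952.F4 (ev es)
open Cfsg.Agent.H546.F4Eig (mem_es mem_es_one mem_es_neg split_sq rho_mul rho_comm rho_sq)

section lin

variable {K V : Type*} [Field K] [AddCommGroup V] [Module K V] [FiniteDimensional K V]

/-- two commuting involutions on a subspace -/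
theorem four_lin (h2 : (2 : K) ≠ 0) (C S : V →ₗ[K] V) (W : Submodule K V) (hC : ∀ v ∈ W, C v ∈ W)
    (hS : ∀ v ∈ W, S v ∈ W) (hCC : ∀ v ∈ W, C (C v) = v) (hSS : ∀ v ∈ W, S (S v) = v)
    (hCS : ∀ v ∈ W, S (C v) = C (S v)) :
    finrank K ↥W = finrank K ↥(W ⊓ es C 1) + finrank K ↥(W ⊓ es C (-1)) ∧
    finrank K ↥(W ⊓ es C 1) = finrank K ↥(W ⊓ es C 1 ⊓ es S 1) + finrank K ↥(W ⊓ es C 1 ⊓ es S (-1)) ∧
    finrank K ↥(W ⊓ es C (-1)) = finrank K ↥(W ⊓ es C (-1) ⊓ es S 1) + finrank K ↥(W ⊓ es C (-1) ⊓ es S (-1)) ∧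
    finrank K ↥(W ⊓ es S 1) = finrank K ↥(W ⊓ es C 1 ⊓ es S 1) + finrank K ↥(W ⊓ es C (-1) ⊓ es S 1) ∧
    finrank K ↥(W ⊓ es (C * S) 1) = finrank K ↥(W ⊓ es C 1 ⊓ es S 1) + finrank K ↥(W ⊓ es C (-1) ⊓ es S (-1)) := by
  have hone : (1 : K) * 1 = 1 := one_mul 1
  have key : ∀ (T : V →ₗ[K] V) (X : Submodule K V), X ≤ W → (∀ v ∈ W, T v ∈ W) → (∀ v ∈ W, T (T v) = v) →
      (∀ v ∈ X, T v ∈ X) → finrank K ↥X = finrank K ↥(X ⊓ es T 1) + finrank K ↥(X ⊓ es T (-1)) := by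
    intro T X hX hT hTT hTX
    exact split_sq h2 one_ne_zero T X hTX (fun v hv => by rw [hTT v (hX hv), hone, one_smul])
  refine ⟨key C W le_rfl hC hCC hC, ?_, ?_, ?_, ?_⟩
  · refine key S _ inf_le_left hS hSS fun v hv => ?_
    rw [Submodule.mem_inf, mem_es_one] at hv ⊢
    exact ⟨hS v hv.1, by rw [← hCS v hv.1, hv.2]⟩
  · refine key S _ inf_le_left hS hSS fun v hv => ?_
    rw [Submodule.mem_inf, mem_es_neg] at hv ⊢
    exact ⟨hS v hv.1, by rw [← hCS v hv.1, hv.2, map_neg]⟩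
  · have h := key C (W ⊓ es S 1) inf_le_left hC hCC fun v hv => by
      rw [Submodule.mem_inf, mem_es_one] at hv ⊢
      exact ⟨hC v hv.1, by rw [hCS v hv.1, hv.2]⟩
    rw [h, inf_right_comm, inf_right_comm W (es S 1) (es C (-1))]
  · have h := key C (W ⊓ es (C * S) 1) inf_le_left hC hCC fun v hv => by
      rw [Submodule.mem_inf, mem_es_one] at hv ⊢
      refine ⟨hC v hv.1, ?_⟩
      have h1 : C (S v) = v := hv.2
      show C (S (C v)) = C v
      rw [hCS v hv.1, h1]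
    have e1 : W ⊓ es (C * S) 1 ⊓ es C 1 = W ⊓ es C 1 ⊓ es S 1 := by
      ext v
      simp only [Submodule.mem_inf, mem_es_one]
      constructor
      · rintro ⟨⟨h1, h2⟩, h3⟩
        have h2' : C (S v) = v := h2
        refine ⟨⟨h1, h3⟩, ?_⟩
        have h4 := congrArg C h2'
        rw [hCC _ (hS v h1), h3] at h4
        exact h4
      · rintro ⟨⟨h1, h2⟩, h3⟩
        refine ⟨⟨h1, ?_⟩, h2⟩
        show C (S v) = v
        rw [h3, h2]
    have e2 : W ⊓ es (C * S) 1 ⊓ es C (-1) = W ⊓ es C (-1) ⊓ es S (-1) := by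
      ext v
      simp only [Submodule.mem_inf, mem_es_one, mem_es_neg]
      constructor
      · rintro ⟨⟨h1, h2⟩, h3⟩
        have h2' : C (S v) = v := h2
        refine ⟨⟨h1, h3⟩, ?_⟩
        have h4 := congrArg C h2'
        rw [hCC _ (hS v h1), h3] at h4
        exact h4
      · rintro ⟨⟨h1, h2⟩, h3⟩
        refine ⟨⟨h1, ?_⟩, h2⟩
        show C (S v) = v
        rw [h3, map_neg, h2, neg_neg]
    rw [h, e1, e2]

end lin

variable {K V G : Type*} [Field K] [AddCommGroup V] [Module K V] [FiniteDimensional K V] [Group G]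

theorem y_comm {c s : G} (hc : c * c * (c * c) = 1) (hs : s * s = 1) (hsc : s * c * s = c⁻¹) :
    c * c * s = s * (c * c) ∧ s * c = c * (c * c * s) ∧ c * s * (c * s) = 1 := by
  have hss : s⁻¹ = s := inv_eq_of_mul_eq_one_right hs
  have hc2 : (c * c)⁻¹ = c * c := inv_eq_of_mul_eq_one_right hc
  have hci : c⁻¹ = c * (c * c) := by
    rw [inv_eq_iff_mul_eq_one]
    rw [← hc]; group
  have h1 : s * (c * c) * s = (c * c)⁻¹ := by
    have e : s * (c * c) * s = s * c * s⁻¹ * (s * c * s) := by group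
    rw [e, hss, hsc]; group
  have h3 : c * c * s = s * (c * c) := by
    calc c * c * s = (s * (c * c) * s) * s := by rw [h1, hc2]
      _ = s * (c * c) := by rw [mul_assoc, hs, mul_one]
  have h4 : s * c = c⁻¹ * s := by rw [← hsc, mul_assoc, hs, mul_one]
  refine ⟨h3, by rw [h4, hci]; group, ?_⟩
  calc c * s * (c * s) = c * (s * c * s) := by group
    _ = 1 := by rw [hsc, mul_inv_cancel]

/-- The dihedral group `⟨c, s⟩` of order 8: dimensions of the spaces of the linear characters. -/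
theorem d8 (h2 : (2 : K) ≠ 0) (ρ : Representation K G V) {c s : G} (hc : c * c * (c * c) = 1) (hs : s * s = 1)
    (hsc : s * c * s = c⁻¹) :
    ev (ρ (c * c)) 1 = ev (ρ c) 1 + ev (ρ c) (-1) ∧
    ev (ρ c) 1 = finrank K ↥(es (ρ c) 1 ⊓ es (ρ s) 1) + finrank K ↥(es (ρ c) 1 ⊓ es (ρ s) (-1)) ∧
    ev (ρ c) (-1) = finrank K ↥(es (ρ c) (-1) ⊓ es (ρ s) 1) + finrank K ↥(es (ρ c) (-1) ⊓ es (ρ s) (-1)) ∧
    finrank K ↥(es (ρ (c * c)) 1 ⊓ es (ρ s) 1) = finrank K ↥(es (ρ c) 1 ⊓ es (ρ s) 1) +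
      finrank K ↥(es (ρ c) (-1) ⊓ es (ρ s) 1) ∧
    finrank K ↥(es (ρ (c * c)) 1 ⊓ es (ρ (c * s)) 1) = finrank K ↥(es (ρ c) 1 ⊓ es (ρ s) 1) +
      finrank K ↥(es (ρ c) (-1) ⊓ es (ρ s) (-1)) := by
  obtain ⟨ys, sc, -⟩ := y_comm hc hs hsc
  have cc : ∀ v, ρ c (ρ c v) = ρ (c * c) v := fun v => (rho_mul ρ c c v).symm
  have ss : ∀ v, ρ s (ρ s v) = v := rho_sq ρ hs
  have ycc : ∀ v, ρ (c * c) (ρ c v) = ρ c (ρ (c * c) v) := rho_comm ρ (mul_assoc _ _ _)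
  have yss : ∀ v, ρ (c * c) (ρ s v) = ρ s (ρ (c * c) v) := rho_comm ρ ys
  have c1 : ∀ {v}, ρ c v = v → ρ (c * c) v = v := fun {v} h => by rw [rho_mul, h, h]
  have c2 : ∀ {v}, ρ c v = -v → ρ (c * c) v = v := fun {v} h => by rw [rho_mul, h, map_neg, h, neg_neg]
  obtain ⟨r1, r2, r3, r4, r5⟩ := four_lin h2 (ρ c) (ρ s) (es (ρ (c * c)) 1)
    (fun v hv => by rw [mem_es_one] at hv ⊢; rw [ycc, hv])
    (fun v hv => by rw [mem_es_one] at hv ⊢; rw [yss, hv])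
    (fun v hv => by rw [mem_es_one] at hv; rw [cc, hv])
    (fun v hv => ss v)
    (fun v hv => by
      rw [mem_es_one] at hv
      rw [← rho_mul, sc, rho_mul, rho_mul, yss, hv])
  have e1 : es (ρ (c * c)) 1 ⊓ es (ρ c) 1 = es (ρ c) 1 := inf_eq_right.2 fun v hv => by
    rw [mem_es_one] at hv ⊢
    exact c1 hv
  have e2 : es (ρ (c * c)) 1 ⊓ es (ρ c) (-1) = es (ρ c) (-1) := inf_eq_right.2 fun v hv => by
    rw [mem_es_neg] at hv
    rw [mem_es_one]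
    exact c2 hv
  rw [e1, e2] at r1
  rw [e1] at r2
  rw [e2] at r3
  rw [e1, e2] at r4 r5
  have e3 : (ρ c * ρ s : Module.End K V) = ρ (c * s) := (map_mul ρ c s).symm
  rw [e3] at r5
  exact ⟨r1, r2, r3, r4, r5⟩

end Cfsg.Agent.H401.E6Three
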