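import Mathlib
import Cfsg.Agent.H944.E6Tab
import Cfsg.Agent.H834.F4.Sh
import Cfsg.Agent.H952.F4.Jord

/-!
# S5927: the distinguished vector of an involution of type 11 (helper401)

`exists_e` : `y` an involution of `Zgrp K` with `ev (V K y) 1 = 11`: there is a singular vector `e` fixed by `y` such that
`cr e v = 0`, `y v = v` imply `v ∈ ⟨e⟩`.
-/

set_option autoImplicit false
set_option linter.unusedVariables false

namespace Cfsg.Agent.H401.E6Three

open Cfsg Cfsg.Lie Module
open Cfsg.Agent.ChevalleyStructure.E6Min.Tables Cfsg.Agent.ChevalleyStructure.E6Min.Basic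
  Cfsg.Agent.ChevalleyStructure.E6Min.Adjoint Cfsg.Agent.ChevalleyStructure.E6Min.Forms
open Cfsg.Agent.H952.F4 (ev es matRep sh cr tf)
open Cfsg.Agent.H163.E6 (V V')
open Cfsg.Agent.H834.F4 (Tm sh_apply cr_apply ext27 cr_single rows_ok ixs)
open Cfsg.Agent.BpExc.TorAll

universe u

/-! ### the combinatorial part -/

/-- value of the coordinate with code `x`, the three triples coded by numbers below 8 -/
def bv (X Y Z x : ℕ) : Bool :=
  match x / 9 with
  | 0 => xor (X.testBit (x / 3 % 3)) (Y.testBit (x % 3))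
  | 1 => xor (Y.testBit (x / 3 % 3)) (Z.testBit (x % 3))
  | _ => xor (Z.testBit (x / 3 % 3)) (X.testBit (x % 3))

def par3 (X : ℕ) : Bool := xor (xor (X.testBit 0) (X.testBit 1)) (X.testBit 2)

/-- number of zeros -/
def cnt (X Y Z : ℕ) : ℕ := (Finset.univ.filter fun x : I27 => bv X Y Z (code x) = false).card

def exLt (n : ℕ) (p : ℕ → Bool) : Bool := Nat.rec false (fun k acc => p k || acc) n

theorem exLt_spec {n : ℕ} {p : ℕ → Bool} (h : exLt n p = true) : ∃ k, k < n ∧ p k = true := by
  induction n with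
  | zero => exact absurd h (by simp [exLt])
  | succ n ih =>
    have h' : (p n || exLt n p) = true := h
    rw [Bool.or_eq_true] at h'
    rcases h' with h1 | h1
    · exact ⟨n, Nat.lt_succ_self n, h1⟩
    · obtain ⟨k, hk, hp⟩ := ih h1
      exact ⟨k, Nat.lt_succ_of_lt hk, hp⟩

theorem chk_all : allLt 8 (fun X => allLt 8 fun Y => allLt 8 fun Z =>
    !(par3 X == par3 Y) || !(par3 X == par3 Z) || !(cnt X Y Z == 11) ||
      exLt 27 fun k => !(bv X Y Z k) && allLt 27 fun j => (j == k) || bv X Y Z j || (relN k j == 2)) = true := by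
  decide +kernel

theorem exists_code : ∀ w : Fin 3 → ZMod 2, ∃ n : Fin 8, (∀ i : Fin 3, n.val.testBit i.val = decide (w i ≠ 0)) ∧
    par3 n.val = decide (w 0 + w 1 + w 2 ≠ 0) := by decide +kernel

theorem sub_ne : ∀ a b : ZMod 2, decide (a - b ≠ 0) = xor (decide (a ≠ 0)) (decide (b ≠ 0)) := by decide +kernel

/-- the eleven zeros: one coordinate and the ten coordinates in triads with it -/
theorem exists_center {b : I27 → ZMod 2} (hb : ∀ x y, rel x y = 2 → b x + b y + b (th x y) = 0)
    (h11 : (Finset.univ.filter fun x : I27 => b x = 0).card = 11) :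
    ∃ k, b k = 0 ∧ ∀ j, j ≠ k → b j = 0 → rel k j = 2 := by
  obtain ⟨X, hX, pX⟩ := exists_code fun i => H944.E6T.par b i.val
  obtain ⟨Y, hY, pY⟩ := exists_code fun i => H944.E6T.par b (3 + i.val)
  obtain ⟨Z, hZ, pZ⟩ := exists_code fun i => H944.E6T.par b (6 + i.val)
  have hP := H944.E6T.par_par hb
  have qX : par3 X.val = decide (H944.E6T.par b 9 ≠ 0) := by rw [pX, ← hP.x]; rfl
  have qY : par3 Y.val = decide (H944.E6T.par b 9 ≠ 0) := by rw [pY, ← hP.y]; rfl
  have qZ : par3 Z.val = decide (H944.E6T.par b 9 ≠ 0) := by rw [pZ, ← hP.z]; rfl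
  have hbv : ∀ x : I27, bv X.val Y.val Z.val (code x) = decide (b x ≠ 0) := by
    intro x
    obtain ⟨i, r, c⟩ := x
    have e1 : code (i, r, c) / 9 = i.val := by unfold code; simp; omega
    have e2 : code (i, r, c) / 3 % 3 = r.val := by unfold code; simp; omega
    have e3 : code (i, r, c) % 3 = c.val := by unfold code; simp; omega
    unfold bv
    rw [e1, e2, e3]
    have hi : i = 0 ∨ i = 1 ∨ i = 2 := (by decide : ∀ i : Fin 3, i = 0 ∨ i = 1 ∨ i = 2) i
    rcases hi with rfl | rfl | rfl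
    · show xor (X.val.testBit r.val) (Y.val.testBit c.val) = _
      rw [H944.E6T.b_zero hb, sub_ne, hX, hY]
    · show xor (Y.val.testBit r.val) (Z.val.testBit c.val) = _
      rw [H944.E6T.b_one hb, sub_ne, hY, hZ]
    · show xor (Z.val.testBit r.val) (X.val.testBit c.val) = _
      rw [H944.E6T.b_two hb, sub_ne, hZ, hX]
  have hcnt : cnt X.val Y.val Z.val = 11 := by
    rw [← h11]
    unfold cnt
    congr 1
    ext x
    rw [Finset.mem_filter, Finset.mem_filter, hbv]
    simp
  have h := allLt_spec (allLt_spec (allLt_spec chk_all _ X.isLt) _ Y.isLt) _ Z.isLt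
  simp only [qX, qY, qZ, hcnt, beq_self_eq_true, Bool.not_true, Bool.false_or] at h
  obtain ⟨k, hk, hk2⟩ := exLt_spec h
  rw [Bool.and_eq_true] at hk2
  refine ⟨dec k, ?_, ?_⟩
  · have h1 := hk2.1
    rw [← code_dec hk, hbv] at h1
    simpa using h1
  · intro j hj hbj
    have h2 := allLt_spec hk2.2 _ (code_lt j)
    rw [hbv] at h2
    have h3 : (code j == k) = false := by
      rw [beq_eq_false_iff_ne]
      intro h4
      exact hj (by rw [← h4, dec_code])
    rw [h3] at h2
    simp [hbj] at h2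
    unfold rel
    rw [code_dec hk]
    exact h2

/-! ### the vector -/

theorem mem_table : ∀ y γ : Fin 27, relN y.val γ.val = 2 → ∃ m : Fin 27, ∃ t ∈ Tm m.val,
    (t.2.1 = y.val ∧ t.2.2 = γ.val) ∨ (t.2.1 = γ.val ∧ t.2.2 = y.val) := by decide +kernel

variable {K : Type u} [Field K]

theorem sh_single (k : I27) : sh (Pi.single k 1 : I27 → K) = 0 := by
  apply ext27
  intro m hm
  rw [sh_apply _ hm, Pi.zero_apply]
  obtain ⟨hn, hr⟩ := rows_ok ⟨m, hm⟩
  apply List.sum_eq_zero
  intro z hz
  obtain ⟨t, ht, rfl⟩ := List.mem_map.1 hz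
  have h1 : t.2.1 ≠ t.2.2 := by
    intro h
    have h2 : [t.2.1, t.2.2].Nodup := by
      have := List.nodup_flatMap.1 hn
      exact this.1 t ht
    rw [h] at h2
    simp at h2
  have h3 : dec t.2.1 ≠ dec t.2.2 := fun h => h1 ((dec_eq_iff (hr t ht).2.1 (hr t ht).2.2).1 h)
  by_cases h4 : dec t.2.1 = k
  · have h5 : dec t.2.2 ≠ k := fun h => h3 (h4.trans h.symm)
    rw [Pi.single_eq_of_ne h5, mul_zero, mul_zero]
  · rw [Pi.single_eq_of_ne h4, zero_mul, mul_zero]

theorem eq_zero_of_cr {v : I27 → K} {k : I27} (h : cr (Pi.single k 1) v = 0) {j : I27} (hj : rel k j = 2) : v j = 0 := by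
  rw [rel_symm] at hj
  obtain ⟨m, t, ht, h1⟩ := mem_table ⟨code j, code_lt j⟩ ⟨code k, code_lt k⟩ hj
  have h2 := cr_single v m.isLt ht h1
  rw [dec_code, H952.F4.Jord.cr_comm, h, Pi.zero_apply, dec_code] at h2
  have h3 : (t.1 : K) ≠ 0 := by
    rcases ((rows_ok m).2 t ht).1 with h4 | h4
    · rw [h4, Int.cast_one]; exact one_ne_zero
    · rw [h4, Int.cast_neg, Int.cast_one]; exact neg_ne_zero.2 one_ne_zero
  exact (mul_eq_zero.1 h2.symm).resolve_left h3

/-- **[E]** -/
theorem exists_e [IsAlgClosed K] (p : ℕ) [Fact p.Prime] [CharP K p] (hK : HAlg p K) (hp : p ≠ 2)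
    (sh_act : ∀ (g : ↥(Zgrp K)) (x : I27 → K), sh (V K g x) = V' K g (sh x)) {y : ↥(Zgrp K)} (hy : y * y = 1)
    (h11 : ev (V K y) 1 = 11) : ∃ e : I27 → K, e ≠ 0 ∧ V K y e = e ∧ sh e = 0 ∧
      ∀ v, V K y v = v → cr e v = 0 → ∃ c : K, v = c • e := by
  classical
  have cr_act : ∀ (g : ↥(Zgrp K)) (x y : I27 → K), cr (V K g x) (V K g y) = V' K g (cr x y) := by
    intro g x y
    unfold cr
    rw [← map_add, sh_act, sh_act, sh_act, map_sub, map_sub]
  have h2p : (2 : ℕ).Coprime p := (Nat.coprime_primes Nat.prime_two Fact.out).2 fun h => hp h.symm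
  obtain ⟨g, d, hdV, -, hdm, htri⟩ := H944.E6T.exists_diag p hK (m := 2) (by norm_num) h2p
    (show y ^ 2 = 1 by rw [pow_two, hy])
  have h2 : (2 : K) ≠ 0 := by
    intro h0
    have h1 : p ∣ 2 := (CharP.cast_eq_zero_iff K p 2).1 (by exact_mod_cast h0)
    exact hp ((Nat.prime_dvd_prime_iff_eq Fact.out Nat.prime_two).1 h1)
  have hne : (-1 : Kˣ) ≠ 1 := by
    intro h
    have h3 : (-1 : K) = 1 := by
      have := congrArg (fun u : Kˣ => (u : K)) h
      simpa using this
    apply h2
    linear_combination -h3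
  have hpm : ∀ i, d i = 1 ∨ d i = -1 := by
    intro i
    have h3 : ((d i : Kˣ) : K) * (d i : K) = 1 := by
      rw [← Units.val_mul, ← pow_two, hdm i, Units.val_one]
    rcases mul_self_eq_one_iff.1 h3 with h4 | h4
    · left; exact Units.ext h4
    · right; exact Units.ext (by rw [h4]; simp)
  let b : I27 → ZMod 2 := fun i => if d i = 1 then 0 else 1
  have hb0 : ∀ i, b i = 0 ↔ d i = 1 := by
    intro i
    show (if d i = 1 then (0 : ZMod 2) else 1) = 0 ↔ _
    split_ifs with h
    · simp [h]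
    · simp [h]
  have hb : ∀ x y, rel x y = 2 → b x + b y + b (th x y) = 0 := by
    intro x y hxy
    have h3 := htri x y hxy
    show (if d x = 1 then (0 : ZMod 2) else 1) + (if d y = 1 then (0 : ZMod 2) else 1) +
      (if d (th x y) = 1 then (0 : ZMod 2) else 1) = 0
    rcases hpm x with hx | hx <;> rcases hpm y with hy' | hy' <;> rcases hpm (th x y) with hz | hz <;>
      rw [hx, hy', hz] at h3 ⊢ <;> simp [hne] at h3 ⊢ <;> decide
  -- the diagonal element
  set t := g * y * g⁻¹ with ht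
  have hVt : V K t = Matrix.toLin' (Matrix.diagonal fun i => (d i : K)) := by
    show Matrix.toLin' (((t : ↥(Zgrp K)) : GL I27 K) : Matrix I27 I27 K) = _
    rw [hdV]
  have hcard : (Finset.univ.filter fun x : I27 => b x = 0).card = 11 := by
    rw [← h11, ← H944.E6T.ev_conj (V K) g y, ← ht, H944.E6T.ev_diag (fun i => (d i : K)) 1 hVt]
    refine congrArg Finset.card (Finset.filter_congr fun i _ => ?_)
    rw [hb0]
    exact Units.val_eq_one.symm
  obtain ⟨k, hk, hkj⟩ := exists_center hb hcard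
  have hfix : ∀ v, V K y v = v → ∀ j, d j ≠ 1 → (V K g v) j = 0 := by
    intro v hv j hj
    have h3 : V K t (V K g v) = V K g v := by
      rw [ht, map_mul, map_mul, Module.End.mul_apply, Module.End.mul_apply, ← Module.End.mul_apply (V K g⁻¹), ← map_mul,
        inv_mul_cancel, map_one, Module.End.one_apply, hv]
    rw [hVt, Matrix.toLin'_apply] at h3
    have h4 := congrFun h3 j
    rw [Matrix.mulVec_diagonal] at h4
    rw [(hpm j).resolve_left hj, Units.val_neg, Units.val_one] at h4
    have h5 : (2 : K) * (V K g v) j = 0 := by linear_combination -h4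
    exact (mul_eq_zero.1 h5).resolve_left h2
  have hgi : ∀ v, V K g (V K g⁻¹ v) = v := fun v => by
    rw [← Module.End.mul_apply, ← map_mul, mul_inv_cancel, map_one, Module.End.one_apply]
  have hig : ∀ v, V K g⁻¹ (V K g v) = v := fun v => by
    rw [← Module.End.mul_apply, ← map_mul, inv_mul_cancel, map_one, Module.End.one_apply]
  refine ⟨V K g⁻¹ (Pi.single k 1), ?_, ?_, ?_, ?_⟩
  · intro h0
    have h3 := congrArg (V K g) h0
    rw [hgi, map_zero] at h3
    have h4 := congrFun h3 k
    rw [Pi.single_eq_same, Pi.zero_apply] at h4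
    exact one_ne_zero h4
  · have h3 : V K t (Pi.single k 1) = Pi.single k 1 := by
      rw [hVt, Matrix.toLin'_apply, Matrix.diagonal_mulVec_single, mul_one, (hb0 k).1 hk, Units.val_one]
    have h4 : y = g⁻¹ * t * g := by rw [ht]; group
    rw [h4, map_mul, map_mul, Module.End.mul_apply, Module.End.mul_apply, hgi, h3]
  · rw [sh_act, sh_single, map_zero]
  · intro v hv hcr
    have h3 : cr (Pi.single k 1) (V K g v) = 0 := by
      have h4 := cr_act g (V K g⁻¹ (Pi.single k 1)) v
      rw [hgi, hcr, map_zero] at h4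
      exact h4
    have h5 : V K g v = (V K g v k) • (Pi.single k 1 : I27 → K) := by
      funext j
      rw [Pi.smul_apply, smul_eq_mul]
      by_cases hj : j = k
      · rw [hj, Pi.single_eq_same, mul_one]
      · rw [Pi.single_eq_of_ne hj, mul_zero]
        by_cases hdj : d j = 1
        · exact eq_zero_of_cr h3 (hkj j hj ((hb0 j).2 hdj))
        · exact hfix v hv j hdj
    refine ⟨V K g v k, ?_⟩
    calc v = V K g⁻¹ (V K g v) := (hig v).symm
      _ = V K g⁻¹ ((V K g v k) • (Pi.single k 1 : I27 → K)) := by rw [← h5]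
      _ = _ := map_smul _ _ _

end Cfsg.Agent.H401.E6Three
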