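import Mathlib
import Cfsg.Agent.H401.E6Elev
import Cfsg.Agent.H401.E6Dih

/-!
# S5927: a dihedral group of order 8 with involutions of type 11 and `ev (V c) 1 = 5` does not exist (helper401)
-/

set_option autoImplicit false
set_option linter.unusedVariables false

namespace Cfsg.Agent.H401.E6Three

open Cfsg Cfsg.Lie Module
open Cfsg.Agent.ChevalleyStructure.E6Min.Tables Cfsg.Agent.ChevalleyStructure.E6Min.Basic
  Cfsg.Agent.ChevalleyStructure.E6Min.Adjoint
open Cfsg.Agent.H952.F4 (ev es matRep sh cr tf)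
open Cfsg.Agent.H163.E6 (V V')
open Cfsg.Agent.H546.F4Eig (mem_es mem_es_one mem_es_neg)
open Cfsg.Agent.H952.F4.Jord (cr_comm cr_self cr_add_left cr_add_right cr_smul_left cr_smul_right sh_add sh_smul)
open Cfsg.Agent.BpExc.TorAll

universe u

theorem finrank27 {K : Type*} [Field K] : finrank K (I27 → K) = 27 := by
  rw [Module.finrank_fintype_fun_eq_card]
  decide

/-- **K5** -/
theorem no_five {K : Type u} [Field K] [IsAlgClosed K] (p : ℕ) [Fact p.Prime] [CharP K p] (hK : HAlg p K) (hp : p ≠ 2)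
    (sh_act : ∀ (g : ↥(Zgrp K)) (x : I27 → K), sh (V K g x) = V' K g (sh x))
    (ev_dual : ∀ g : ↥(Zgrp K), ev (V' K g) 1 = ev (V K g) 1) {c s : ↥(Zgrp K)} (hc : c * c * (c * c) = 1)
    (hs : s * s = 1) (hsc : s * c * s = c⁻¹) (ey : ev (V K (c * c)) 1 = 11) (es1 : ev (V K s) 1 = 11)
    (es2 : ev (V K (c * c * s)) 1 = 11) (es3 : ev (V K (c * s)) 1 = 11) (es4 : ev (V K (c * c * (c * s))) 1 = 11)
    (ec : ev (V K c) 1 = 5) : False := by
  have h2 : (2 : K) ≠ 0 := by
    intro h0
    have h1 : p ∣ 2 := (CharP.cast_eq_zero_iff K p 2).1 (by exact_mod_cast h0)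
    exact hp ((Nat.prime_dvd_prime_iff_eq Fact.out Nat.prime_two).1 h1)
  have cr_act : ∀ (g : ↥(Zgrp K)) (x y : I27 → K), cr (V K g x) (V K g y) = V' K g (cr x y) := by
    intro g x y
    unfold cr
    rw [← map_add, sh_act, sh_act, sh_act, map_sub, map_sub]
  obtain ⟨ys, sc, cs2⟩ := y_comm hc hs hsc
  have ycs : c * c * (c * s) = c * s * (c * c) := by
    rw [mul_assoc c s (c * c), ← ys]; group
  -- dimensions
  have dims : ∀ ρ : Representation K ↥(Zgrp K) (I27 → K), (∀ g, ev (ρ g) 1 = ev (V K g) 1) →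
      finrank K ↥(es (ρ c) 1 ⊓ es (ρ s) 1) = 0 ∧ finrank K ↥(es (ρ c) 1 ⊓ es (ρ s) (-1)) = 5 ∧
      finrank K ↥(es (ρ c) (-1) ⊓ es (ρ s) 1) = 3 ∧ finrank K ↥(es (ρ c) (-1) ⊓ es (ρ s) (-1)) = 3 := by
    intro ρ hρ
    have f1 := H546.F4Eig.four h2 ρ hc hs ys
    have f2 := H546.F4Eig.four h2 ρ hc cs2 ycs
    rw [finrank27, hρ, hρ, hρ, ey, es1, es2] at f1
    rw [finrank27, hρ, hρ, hρ, ey, es3, es4] at f2
    obtain ⟨r1, r2, r3, r4, r5⟩ := d8 h2 ρ hc hs hsc
    rw [hρ, hρ, ey, ec] at r1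
    rw [hρ, ec] at r2
    omega
  obtain ⟨d1, d2, d3, d4⟩ := dims (V K) fun g => rfl
  obtain ⟨d1', -, -, -⟩ := dims (V' K) ev_dual
  have hfix : ∀ v, V K c v = v → V K s v = v → v = 0 := by
    intro v h1 h3
    have h4 : v ∈ es (V K c) 1 ⊓ es (V K s) 1 := ⟨mem_es_one.2 h1, mem_es_one.2 h3⟩
    rw [Submodule.finrank_eq_zero.1 d1, Submodule.mem_bot] at h4
    exact h4
  have hfix' : ∀ v, V' K c v = v → V' K s v = v → v = 0 := by
    intro v h1 h3
    have h4 : v ∈ es (V' K c) 1 ⊓ es (V' K s) 1 := ⟨mem_es_one.2 h1, mem_es_one.2 h3⟩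
    rw [Submodule.finrank_eq_zero.1 d1', Submodule.mem_bot] at h4
    exact h4
  obtain ⟨e, he0, hye, hshe, hker⟩ := exists_e p hK hp sh_act hc ey
  have cc : ∀ v, V K c (V K c v) = V K (c * c) v := fun v => by rw [map_mul]; rfl
  have ss : ∀ v, V K s (V K s v) = v := fun v => by
    rw [← Module.End.mul_apply, ← map_mul, hs, map_one]; rfl
  have scv : ∀ v, V K (c * c) v = v → V K s (V K c v) = V K c (V K s v) := by
    intro v hv
    have h1 : V K s (V K c v) = V K (s * c) v := by rw [map_mul]; rfl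
    rw [h1, sc, ys]
    rw [map_mul, map_mul, Module.End.mul_apply, Module.End.mul_apply, hv]
  -- the spaces of the characters
  have hsp : ∀ μ ν : K, μ * μ = 1 → ν * ν = 1 → ∀ x y, V K c x = μ • x → V K s x = ν • x → V K c y = μ • y →
      V K s y = ν • y → cr x y = 0 := by
    intro μ ν hμ hν x y h1 h3 h4 h5
    apply hfix'
    · rw [← cr_act, h1, h4, cr_smul_left, cr_smul_right, smul_smul, hμ, one_smul]
    · rw [← cr_act, h3, h5, cr_smul_left, cr_smul_right, smul_smul, hν, one_smul]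
  have hy : ∀ μ : K, μ * μ = 1 → ∀ x, V K c x = μ • x → V K (c * c) x = x := by
    intro μ hμ x h1
    rw [← cc, h1, map_smul, h1, smul_smul, hμ, one_smul]
  have hdead : ∀ μ ν : K, μ * μ = 1 → ν * ν = 1 → V K c e = μ • e → V K s e = ν • e →
      2 ≤ finrank K ↥(es (V K c) μ ⊓ es (V K s) ν) → False := by
    intro μ ν hμ hν h1 h3 h4
    have h5 : es (V K c) μ ⊓ es (V K s) ν ≤ Submodule.span K {e} := by
      intro x hx
      obtain ⟨hx1, hx2⟩ := hx
      rw [SetLike.mem_coe, mem_es] at hx1 hx2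
      obtain ⟨k, hk⟩ := hker x (hy μ hμ x hx1) (hsp μ ν hμ hν e x h1 h3 hx1 hx2)
      rw [hk]
      exact Submodule.smul_mem _ _ (Submodule.mem_span_singleton_self e)
    have h6 := Submodule.finrank_mono h5
    rw [finrank_span_singleton he0] at h6
    omega
  have hone : (1 : K) * 1 = 1 := one_mul 1
  have hneg : (-1 : K) * -1 = 1 := by ring
  -- decomposition of `e`
  set a := e + V K c e with ha
  set b := e - V K c e with hb
  have hcce : V K c (V K c e) = e := by rw [cc, hye]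
  have ca : V K c a = a := by rw [ha, map_add, hcce, add_comm]
  have cb : V K c b = -b := by rw [hb, map_sub, hcce, neg_sub]
  have ya : V K (c * c) a = a := by rw [← cc, ca, ca]
  have yb : V K (c * c) b = b := by rw [← cc, cb, map_neg, cb, neg_neg]
  have sa : V K s a = -a := by
    have h3 : a + V K s a = 0 := by
      apply hfix
      · rw [map_add, ca, ← scv a ya, ca]
      · rw [map_add, ss, add_comm]
    rw [eq_neg_iff_add_eq_zero, add_comm]
    exact h3
  set b1 := b + V K s b with hb1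
  set b2 := b - V K s b with hb2
  have cb1 : V K c b1 = -b1 := by rw [hb1, map_add, ← scv b yb, cb, map_neg, neg_add]
  have cb2 : V K c b2 = -b2 := by rw [hb2, map_sub, ← scv b yb, cb, map_neg]; abel
  have sb1 : V K s b1 = b1 := by rw [hb1, map_add, ss, add_comm]
  have sb2 : V K s b2 = -b2 := by rw [hb2, map_sub, ss, neg_sub]
  have hsum : (4 : K) • e = (2 : K) • a + b1 + b2 := by
    rw [hb1, hb2, ha, hb]
    module
  have m1 : ∀ x : I27 → K, -x = (-1 : K) • x := fun x => by rw [neg_one_smul]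
  have caa : cr a a = 0 := hsp 1 (-1) hone hneg a a (by rw [ca, one_smul]) (by rw [sa, m1]) (by rw [ca, one_smul])
    (by rw [sa, m1])
  have cb11 : cr b1 b1 = 0 := hsp (-1) 1 hneg hone b1 b1 (by rw [cb1, m1]) (by rw [sb1, one_smul]) (by rw [cb1, m1])
    (by rw [sb1, one_smul])
  have cb22 : cr b2 b2 = 0 := hsp (-1) (-1) hneg hneg b2 b2 (by rw [cb2, m1]) (by rw [sb2, m1]) (by rw [cb2, m1])
    (by rw [sb2, m1])
  have hcre : cr e e = 0 := by rw [cr_self, hshe, smul_zero]
  -- the mixed terms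
  have hcr : cr ((4 : K) • e) ((4 : K) • e) = 0 := by
    rw [cr_smul_left, cr_smul_right, hcre, smul_zero, smul_zero]
  have hA : cr a b1 + cr a b2 + (1 / 2 : K) • cr b1 b2 = 0 := by
    rw [hsum] at hcr
    simp only [cr_add_left, cr_add_right, cr_smul_left, cr_smul_right, caa, cb11, cb22, smul_zero, add_zero,
      zero_add, cr_comm b1 a, cr_comm b2 a, cr_comm b2 b1] at hcr
    have h4 : (4 : K) ≠ 0 := by
      have : (4 : K) = 2 * 2 := by norm_num
      rw [this]
      exact mul_ne_zero h2 h2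
    have h5 : (4 : K) • (cr a b1 + cr a b2 + (1 / 2 : K) • cr b1 b2) = 0 := by
      have h6 : (4 : K) * (1 / 2) = 2 := by
        field_simp
        norm_num
      rw [smul_add, smul_add, smul_smul, h6]
      rw [← hcr]
      module
    exact (smul_eq_zero.1 h5).resolve_left h4
  have cm : ∀ x : I27 → K, V' K c (-x) = -V' K c x := fun x => map_neg _ _
  have t1 : V' K c (cr a b1) = -cr a b1 := by
    rw [← cr_act, ca, cb1, m1, cr_smul_right, neg_one_smul]
  have t2 : V' K c (cr a b2) = -cr a b2 := by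
    rw [← cr_act, ca, cb2, m1, cr_smul_right, neg_one_smul]
  have t3 : V' K c (cr b1 b2) = cr b1 b2 := by
    rw [← cr_act, cb1, cb2, m1, m1, cr_smul_left, cr_smul_right, smul_smul, hneg, one_smul]
  have u1 : V' K s (cr a b1) = -cr a b1 := by
    rw [← cr_act, sa, sb1, m1, cr_smul_left, neg_one_smul]
  have u2 : V' K s (cr a b2) = cr a b2 := by
    rw [← cr_act, sa, sb2, m1, m1, cr_smul_left, cr_smul_right, smul_smul, hneg, one_smul]
  have hB := congrArg (V' K c) hA
  rw [map_add, map_add, map_smul, t1, t2, t3, map_zero] at hB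
  have hC : cr a b1 + cr a b2 = 0 := by
    have h5 : (2 : K) • (cr a b1 + cr a b2) = 0 := by
      linear_combination (norm := module) hA - hB
    exact (smul_eq_zero.1 h5).resolve_left h2
  have hD : cr b1 b2 = 0 := by
    rw [hC, zero_add] at hA
    exact (smul_eq_zero.1 hA).resolve_left (by
      intro h
      have : (2 : K) * (1 / 2) = 1 := by field_simp
      rw [h, mul_zero] at this
      exact zero_ne_one this)
  have hE := congrArg (V' K s) hC
  rw [map_add, u1, u2, map_zero] at hE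
  have hF : cr a b2 = 0 := by
    have h5 : (2 : K) • cr a b2 = 0 := by
      linear_combination (norm := module) hC + hE
    exact (smul_eq_zero.1 h5).resolve_left h2
  have hG : cr a b1 = 0 := by
    rw [hF, add_zero] at hC
    exact hC
  have h4 : (4 : K) ≠ 0 := by
    have : (4 : K) = 2 * 2 := by norm_num
    rw [this]
    exact mul_ne_zero h2 h2
  -- the components are multiples of `e`
  have hcomp : ∀ x, cr ((4 : K) • e) x = 0 → cr e x = 0 := by
    intro x hx
    rw [cr_smul_left] at hx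
    exact (smul_eq_zero.1 hx).resolve_left h4
  obtain ⟨k0, hk0⟩ := hker a ya (hcomp a (by
    rw [hsum, cr_add_left, cr_add_left, cr_smul_left, caa, cr_comm b1 a, hG, cr_comm b2 a, hF, smul_zero, add_zero,
      add_zero]))
  obtain ⟨k1, hk1⟩ := hker b1 (by rw [← cc, cb1, map_neg, cb1, neg_neg]) (hcomp b1 (by
    rw [hsum, cr_add_left, cr_add_left, cr_smul_left, hG, cb11, cr_comm b2 b1, hD, smul_zero, add_zero, add_zero]))
  obtain ⟨k2, hk2⟩ := hker b2 (by rw [← cc, cb2, map_neg, cb2, neg_neg]) (hcomp b2 (by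
    rw [hsum, cr_add_left, cr_add_left, cr_smul_left, hF, hD, cb22, smul_zero, add_zero, add_zero]))
  have hres : ∀ (k : K) (x : I27 → K), x = k • e → k ≠ 0 → ∀ g : ↥(Zgrp K), ∀ μ : K, V K g x = μ • x →
      V K g e = μ • e := by
    intro k x hx hk g μ hg
    have h5 : e = k⁻¹ • x := by rw [hx, smul_smul, inv_mul_cancel₀ hk, one_smul]
    rw [h5, map_smul, hg, smul_comm]
  by_cases z0 : k0 = 0
  · by_cases z1 : k1 = 0
    · by_cases z2 : k2 = 0
      · rw [z0, zero_smul] at hk0
        rw [z1, zero_smul] at hk1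
        rw [z2, zero_smul] at hk2
        rw [hk0, hk1, hk2, smul_zero, add_zero, add_zero] at hsum
        exact he0 ((smul_eq_zero.1 hsum).resolve_left h4)
      · exact hdead (-1) (-1) hneg hneg (hres k2 b2 hk2 z2 c (-1) (by rw [cb2, m1]))
          (hres k2 b2 hk2 z2 s (-1) (by rw [sb2, m1])) (by rw [d4]; norm_num)
    · exact hdead (-1) 1 hneg hone (hres k1 b1 hk1 z1 c (-1) (by rw [cb1, m1]))
        (hres k1 b1 hk1 z1 s 1 (by rw [sb1, one_smul])) (by rw [d3]; norm_num)
  · exact hdead 1 (-1) hone hneg (hres k0 a hk0 z0 c 1 (by rw [ca, one_smul]))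
      (hres k0 a hk0 z0 s (-1) (by rw [sa, m1])) (by rw [d2]; norm_num)

end Cfsg.Agent.H401.E6Three
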