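import Mathlib
import Cfsg.Agent.H401.E6Grp
import Cfsg.Agent.H401.E6KFive
import Cfsg.Agent.H882.E6Five
import Cfsg.Agent.H505.E6Three.Trace

/-!
# S5927, `n = 6`, `p = 3`: the pattern `f₂ = 11`, `f₄ = 9` (helper401)
-/

set_option autoImplicit false
set_option linter.unusedVariables false

namespace Cfsg.Agent.H401.E6Three

open Cfsg Cfsg.Lie Module
open Cfsg.Agent.ChevalleyStructure.E6Min.Tables Cfsg.Agent.ChevalleyStructure.E6Min.Basic
  Cfsg.Agent.ChevalleyStructure.E6Min.Adjoint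
open Cfsg.Agent.H952.F4 (ev es matRep sh cr tf v0 v1 c3 z5)
open Cfsg.Agent.H163.E6 (V V' TS)
open Cfsg.Agent.H546.F4Eig (mem_es mem_es_one mem_es_neg)
open Cfsg.Agent.H952.F4.Jord (cr_comm cr_self cr_add_left cr_add_right cr_smul_left cr_smul_right sh_add sh_smul)
open Cfsg.Agent.H505.E6Three (A6 zz w0 w1 cc d3 U D)

universe u

theorem zz_eq : zz = iota z5 := by decide +kernel
theorem w0_eq : w0 = iota v0 := by decide +kernel
theorem w1_eq : w1 = iota v1 := by decide +kernel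
theorem cc_eq : cc = c6 := by decide +kernel

section trace
variable {K V : Type*} [Field K] [AddCommGroup V] [Module K V] [CharP K 3] [FiniteDimensional K V]

theorem trace_five' (ρ : Representation K A6 V) (hd : finrank K V = 27) :
    LinearMap.trace K V (ρ zz) + LinearMap.trace K V (ρ (zz ^ 2)) = (ev (ρ zz) 1 : K) := by
  have h3 := H505.E6Three.three_eq K
  let S : Module.End K V := -∑ i : Fin 5, ρ (zz ^ (i : ℕ))
  have hS : ∀ v, S v = -∑ i : Fin 5, ρ (zz ^ (i : ℕ)) v := by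
    intro v
    change -((∑ i : Fin 5, ρ (zz ^ (i : ℕ))) v) = _
    rw [LinearMap.sum_apply]
  have hz : ∀ i : Fin 5, zz * zz ^ (i : ℕ) = zz ^ ((i + 1 : Fin 5) : ℕ) := by decide +kernel
  have hp : LinearMap.IsProj (es (ρ zz) 1) S := by
    constructor
    · intro v
      rw [es, Module.End.mem_eigenspace_iff, one_smul, hS, map_neg, map_sum]
      congr 1
      simp only [← H505.E6Three.rmul, hz]
      exact Equiv.sum_comp (Equiv.addRight (1 : Fin 5)) fun i => ρ (zz ^ (i : ℕ)) v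
    · intro v hv
      rw [es, Module.End.mem_eigenspace_iff, one_smul] at hv
      have h1 : ∀ k : ℕ, ρ (zz ^ k) v = v := by
        intro k
        induction k with
        | zero => rw [pow_zero, H505.E6Three.rone]
        | succ k ih => rw [pow_succ, H505.E6Three.rmul, hv, ih]
      rw [hS, Finset.sum_congr rfl fun i _ => h1 _, Finset.sum_const, Finset.card_univ, Fintype.card_fin,
        ← Nat.cast_smul_eq_nsmul K, ← neg_smul]
      rw [show (-((5 : ℕ) : K)) = 1 by push_cast; linear_combination (-2 : K) * h3, one_smul]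
  have ht := hp.trace
  have e1 : LinearMap.trace K V S = -∑ i : Fin 5, LinearMap.trace K V (ρ (zz ^ (i : ℕ))) := by
    change LinearMap.trace K V (-∑ i : Fin 5, ρ (zz ^ (i : ℕ))) = _
    rw [map_neg, map_sum]
  have e2 : finrank K ↥(es (ρ zz) 1) = ev (ρ zz) 1 := rfl
  rw [e1, e2, Fin.sum_univ_five] at ht
  have e0 : LinearMap.trace K V (ρ (zz ^ ((0 : Fin 5) : ℕ))) = 0 := by
    change LinearMap.trace K V (ρ (zz ^ 0)) = 0
    rw [pow_zero, map_one, LinearMap.trace_one, hd]
    push_cast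
    linear_combination (9 : K) * h3
  have q1 : LinearMap.trace K V (ρ (zz ^ ((1 : Fin 5) : ℕ))) = LinearMap.trace K V (ρ zz) := by
    change LinearMap.trace K V (ρ (zz ^ 1)) = _
    rw [pow_one]
  have q2 : LinearMap.trace K V (ρ (zz ^ ((2 : Fin 5) : ℕ))) = LinearMap.trace K V (ρ (zz ^ 2)) := rfl
  have q3 : LinearMap.trace K V (ρ (zz ^ ((3 : Fin 5) : ℕ))) = LinearMap.trace K V (ρ (zz ^ 2)) :=
    H505.E6Three.tr_zz_inv2 ρ
  have q4 : LinearMap.trace K V (ρ (zz ^ ((4 : Fin 5) : ℕ))) = LinearMap.trace K V (ρ zz) := H505.E6Three.tr_zz_inv ρ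
  rw [e0, q1, q2, q3, q4] at ht
  linear_combination ht + (LinearMap.trace K V (ρ zz) + LinearMap.trace K V (ρ (zz ^ 2))) * h3

/-- the trace of `H505.E6Three.P ρ(c)`, order 4 elements of trace 1 -/
theorem trace_P_cc' (ρ : Representation K A6 V) (hd : finrank K V = 27)
    (h4 : ∀ g : A6, g * g ≠ 1 → g ^ 4 = 1 → LinearMap.trace K V (ρ g) = 1) :
    LinearMap.trace K V (H505.E6Three.P ρ * ρ cc) = 2 + (ev (ρ zz) 1 : K) := by
  have h3 := H505.E6Three.three_eq K
  have h1 : H505.E6Three.P ρ * ρ cc = ∑ i, ∑ b, ρ (D i b * cc) := by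
    rw [H505.E6Three.P, Finset.sum_mul]
    refine Finset.sum_congr rfl fun i _ => ?_
    rw [Finset.sum_mul]
    exact Finset.sum_congr rfl fun b _ => (map_mul _ _ _).symm
  have h2 := trace_five' ρ hd
  rw [h1, map_sum, Fin.sum_univ_five]
  simp only [Fintype.sum_bool, map_add]
  rw [h4 (D 0 true * cc) (by decide +kernel) (by decide +kernel),
    h4 (D 0 false * cc) (by decide +kernel) (by decide +kernel),
    show D 1 false * cc = (w1 * cc * zz * cc) * zz ^ 2 * (w1 * cc * zz * cc)⁻¹ by decide +kernel,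
    show D 2 false * cc = (cc⁻¹ * zz * d3 * cc⁻¹) * zz * (cc⁻¹ * zz * d3 * cc⁻¹)⁻¹ by decide +kernel,
    show D 3 false * cc = (d3⁻¹ * zz * zz * cc) * zz * (d3⁻¹ * zz * zz * cc)⁻¹ by decide +kernel,
    show D 4 false * cc = (zz * d3⁻¹ * cc) * zz ^ 2 * (zz * d3⁻¹ * cc)⁻¹ by decide +kernel,
    show D 1 true * cc = (cc * zz * cc * d3) * zz ^ 2 * (cc * zz * cc * d3)⁻¹ by decide +kernel,
    show D 2 true * cc = (zz * d3 * zz * cc⁻¹) * zz * (zz * d3 * zz * cc⁻¹)⁻¹ by decide +kernel,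
    show D 3 true * cc = (zz * d3 * cc) * zz * (zz * d3 * cc)⁻¹ by decide +kernel,
    show D 4 true * cc = (w1 * zz * cc⁻¹) * zz ^ 2 * (w1 * zz * cc⁻¹)⁻¹ by decide +kernel]
  simp only [H505.E6Three.tr_conj]
  linear_combination 4 * h2 + (ev (ρ zz) 1 : K) * h3

/-- `f₅ = 5` is impossible -/
theorem no_nine_five (ρ : Representation K A6 V) (hd : finrank K V = 27) (h2 : ev (ρ w0) 1 = 11) (h5 : ev (ρ zz) 1 = 5)
    (h4 : ∀ g : A6, g * g ≠ 1 → g ^ 4 = 1 → LinearMap.trace K V (ρ g) = 1) : False := by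
  have h3 := H505.E6Three.three_eq K
  have two_ne : (2 : K) ≠ 0 := by
    intro h
    have : (1 : K) = 0 := by linear_combination h3 - h
    exact one_ne_zero this
  have five_ne : ((5 : ℕ) : K) ≠ 0 := by
    intro h
    push_cast at h
    have : (1 : K) = 0 := by linear_combination 2 * h3 - h
    exact one_ne_zero this
  have hd1 := H952.F4.Eig.dihedral two_ne ρ (z := zz) (s := w0) (m := 5) (by decide) five_ne (by decide +kernel)
    (by decide +kernel) (by decide +kernel) (Or.inl rfl)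
  rw [hd, h2, h5] at hd1
  have hU : U ρ = ⊥ := Submodule.finrank_eq_zero.1 (by unfold U; omega)
  have hP : H505.E6Three.P ρ * ρ cc = 0 := by
    refine LinearMap.ext fun v => ?_
    have h6 := H505.E6Three.P_mem ρ (ρ cc v)
    rw [hU, Submodule.mem_bot] at h6
    exact h6
  have h7 := trace_P_cc' ρ hd h4
  rw [hP, map_zero, h5] at h7
  push_cast at h7
  have : (1 : K) = 0 := by linear_combination (-2 : K) * h3 - h7
  exact one_ne_zero this

end trace

section vec

variable {E : Type u} [Field E]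

theorem sh_comb (a b c : E) (x y z : I27 → E) : sh (a • x + b • y + c • z) =
    (a * a) • sh x + (b * b) • sh y + (c * c) • sh z + (a * b) • cr x y + (a * c) • cr x z + (b * c) • cr y z := by
  rw [sh_add, sh_add, sh_smul, sh_smul, sh_smul, cr_add_left, cr_smul_left, cr_smul_left, cr_smul_left, cr_smul_right,
    cr_smul_right, cr_smul_right]
  module

/-- a submodule stable under generators of a finite group is stable -/
theorem stable_of_gen {G V : Type*} [Group G] [Finite G] [AddCommGroup V] [Module E V] (ρ : Representation E G V)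
    (W : Submodule E V) {x y : G} (hxy : Subgroup.closure {x, y} = ⊤) (hx : ∀ w ∈ W, ρ x w ∈ W)
    (hy : ∀ w ∈ W, ρ y w ∈ W) (g : G) : ∀ w ∈ W, ρ g w ∈ W := by
  have hmul : ∀ (a b : G) (w : V), ρ (a * b) w = ρ a (ρ b w) := fun a b w => by rw [map_mul]; rfl
  have hpow : ∀ (k : G), (∀ w ∈ W, ρ k w ∈ W) → ∀ (n : ℕ), ∀ w ∈ W, ρ (k ^ n) w ∈ W := by
    intro k hk n
    induction n with
    | zero => intro w hw; rw [pow_zero, map_one]; exact hw
    | succ n ih => intro w hw; rw [pow_succ, hmul]; exact ih _ (hk w hw)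
  have hg : g ∈ Subgroup.closure {x, y} := by rw [hxy]; trivial
  induction hg using Subgroup.closure_induction with
  | mem k hk =>
    rcases hk with rfl | rfl
    · exact hx
    · exact hy
  | one => intro w hw; rw [map_one]; exact hw
  | mul a b _ _ ha hb => intro w hw; rw [hmul]; exact ha _ (hb w hw)
  | inv k _ hk =>
    intro w hw
    have h := hpow k hk (orderOf k - 1) w hw
    rwa [show k ^ (orderOf k - 1) = k⁻¹ by
      rw [eq_inv_iff_mul_eq_one, ← pow_succ, Nat.sub_add_cancel (orderOf_pos k), pow_orderOf_eq_one]] at h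

/-- a vector fixed by generators is fixed -/
theorem fixed_of_gen {G V : Type*} [Group G] [AddCommGroup V] [Module E V] (ρ : Representation E G V)
    {x y : G} (hxy : Subgroup.closure {x, y} = ⊤) {w : V} (hx : ρ x w = w) (hy : ρ y w = w) (g : G) : ρ g w = w := by
  have hmul : ∀ (a b : G) (w : V), ρ (a * b) w = ρ a (ρ b w) := fun a b w => by rw [map_mul]; rfl
  have hg : g ∈ Subgroup.closure {x, y} := by rw [hxy]; trivial
  induction hg using Subgroup.closure_induction with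
  | mem k hk =>
    rcases hk with rfl | rfl
    · exact hx
    · exact hy
  | one => rw [map_one]; rfl
  | mul a b _ _ ha hb => rw [hmul, hb, ha]
  | inv k _ hk =>
    nth_rewrite 1 [← hk]
    rw [← hmul, inv_mul_cancel, map_one]
    rfl

/-- **K6** -/
theorem k_nine [CharP E 3] (sh_act : ∀ (g : ↥(Zgrp E)) (x : I27 → E), sh (V E g x) = V' E g (sh x))
    (ev_dual : ∀ g : ↥(Zgrp E), ev (V' E g) 1 = ev (V E g) 1) {t : E} (ht : t * t = t + 1) (ψ : A6 →* ↥(Zgrp E))
    (hi' : Representation.invariants (MonoidHom.comp (V' E) ψ) = ⊥)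
    (h2 : ∀ g : A6, g ≠ 1 → g * g = 1 → ev (V E (ψ g)) 1 = 11) (h4 : ev (V E (ψ c6)) 1 = 9)
    (h5 : ev (V E (ψ (iota z5))) 1 = 7)
    (h4' : ∀ g : A6, g * g ≠ 1 → g ^ 4 = 1 → LinearMap.trace E _ (V' E (ψ g)) = 1) :
    ∃ W : Submodule E (I27 → E), finrank E ↥W = 3 ∧ TS W ∧ ∀ a, ∀ w ∈ W, V E (ψ a) w ∈ W := by
  have h3 := H505.E6Three.three_eq E
  have two_ne : (2 : E) ≠ 0 := by
    intro h
    have : (1 : E) = 0 := by linear_combination h3 - h
    exact one_ne_zero this
  have five_ne : (5 : E) ≠ 0 := by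
    intro h
    have : (1 : E) = 0 := by linear_combination 2 * h3 - h
    exact one_ne_zero this
  have five_ne' : ((5 : ℕ) : E) ≠ 0 := by exact_mod_cast five_ne
  let ρ : Representation E A6 (I27 → E) := MonoidHom.comp (V E) ψ
  let ρ' : Representation E A6 (I27 → E) := MonoidHom.comp (V' E) ψ
  let ρ5 : Representation E ↥(alternatingGroup (Fin 5)) (I27 → E) := MonoidHom.comp ρ iota
  have hρ : ∀ a, ρ a = V E (ψ a) := fun a => rfl
  have hρ' : ∀ a, ρ' a = V' E (ψ a) := fun a => rfl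
  have h5ρ : ∀ a, ρ5 a = ρ (iota a) := fun a => rfl
  have rmul : ∀ (a b : A6) (w : I27 → E), ρ (a * b) w = ρ a (ρ b w) := fun a b w => by rw [map_mul]; rfl
  have shρ : ∀ (a : A6) (x : I27 → E), sh (ρ a x) = ρ' a (sh x) := fun a x => sh_act (ψ a) x
  have e2 : ∀ g : A6, g ≠ 1 → g * g = 1 → ev (ρ g) 1 = 11 := h2
  have e4 : ev (ρ c6) 1 = 9 := h4
  have e5 : ev (ρ (iota z5)) 1 = 7 := h5
  have e2' : ∀ g : A6, g ≠ 1 → g * g = 1 → ev (ρ' g) 1 = 11 := fun g h h' => by rw [hρ', ev_dual]; exact h2 g h h'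
  have e5' : ev (ρ' (iota z5)) 1 = 7 := by rw [hρ', ev_dual]; exact h5
  have v0n : iota v0 ≠ 1 := by decide +kernel
  have v0s : iota v0 * iota v0 = 1 := by decide +kernel
  have v1n : iota v1 ≠ 1 := by decide +kernel
  have z5s : iota z5 ^ 5 = 1 := by decide +kernel
  have inv5 : iota v0 * iota z5 * (iota v0)⁻¹ = (iota z5)⁻¹ := by decide +kernel
  -- the dihedral groups
  have m2 : ev (ρ (iota v0)) (-1) = 16 := by
    have h := H952.F4.Eig.ev_neg two_ne (ρ (iota v0))
    have e : ρ (iota v0) * ρ (iota v0) = 1 := by rw [← map_mul, v0s, map_one]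
    rw [e, H882.E6Five.ev_one_one, e2 _ v0n v0s] at h
    omega
  have d1 := H952.F4.Eig.dihedral two_ne ρ (z := iota z5) (s := iota v0) (m := 5) (by decide) five_ne' z5s v0s inv5
    (Or.inr rfl)
  have d2 := H952.F4.Eig.dihedral two_ne ρ' (z := iota z5) (s := iota v0) (m := 5) (by decide) five_ne' z5s v0s inv5
    (Or.inl rfl)
  rw [finrank27, m2, e5] at d1
  rw [finrank27, e2' _ v0n v0s, e5'] at d2
  have hX5 : 5 ≤ finrank E ↥(es (ρ5 z5) 1 ⊓ es (ρ5 v0) (-1)) := by
    rw [h5ρ, h5ρ]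
    omega
  have hY1 : finrank E ↥(U ρ') ≤ 1 := by
    unfold U
    rw [zz_eq, w0_eq]
    omega
  -- the eigenspaces of `sop`
  have hmem : ∀ {v : I27 → E}, v ∈ es (ρ5 z5) 1 ⊓ es (ρ5 v0) (-1) ↔ ρ5 z5 v = v ∧ ρ5 v0 v = -v := by
    intro v
    rw [Submodule.mem_inf, mem_es, mem_es, one_smul, neg_smul, one_smul]
  obtain ⟨t', ht', hU⟩ : ∃ t' : E, t' * t' = t' + 1 ∧
      3 ≤ finrank E ↥(es (ρ5 z5) 1 ⊓ es (ρ5 v0) (-1) ⊓ es (H882.E6Five.sop ρ5) (2 * t' - 1)) := by
    have h := H882.E6Five.split (H882.E6Five.sop ρ5) (es (ρ5 z5) 1 ⊓ es (ρ5 v0) (-1)) (fun v hv => by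
      rw [hmem] at hv ⊢
      exact ⟨(H882.E6Five.sop_mem hv.1 hv.2).1, (H882.E6Five.sop_mem hv.1 hv.2).2.1⟩) (2 * t - 1) (fun v hv => by
      rw [hmem] at hv
      rw [(H882.E6Five.sop_mem hv.1 hv.2).2.2]
      congr 1
      linear_combination (-4 : E) * ht)
    by_cases h3 : 3 ≤ finrank E ↥(es (ρ5 z5) 1 ⊓ es (ρ5 v0) (-1) ⊓ es (H882.E6Five.sop ρ5) (2 * t - 1))
    · exact ⟨t, ht, h3⟩
    · refine ⟨1 - t, by linear_combination ht, ?_⟩
      rw [show 2 * (1 - t) - 1 = -(2 * t - 1) by ring]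
      omega
  -- the map `κ`
  have four1 := H546.F4Eig.four two_ne ρ (a := iota v0) (b := iota v1) v0s v1_sq (by decide +kernel)
  have four2 := H546.F4Eig.four two_ne ρ (a := iota v0) (b := c6 * iota v1) v0s (by decide +kernel) (by decide +kernel)
  rw [finrank27, e2 _ v0n v0s, e2 _ v1n v1_sq, e2 _ (by decide +kernel) (by decide +kernel)] at four1
  rw [finrank27, e2 _ v0n v0s, e2 _ (by decide +kernel) (by decide +kernel),
    e2 _ (by decide +kernel) (by decide +kernel)] at four2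
  obtain ⟨r1, r2, r3, r4, r5⟩ := d8 two_ne ρ c6_four v1_sq v1_c6
  rw [c6_sq, e2 _ v0n v0s, e4] at r1
  rw [e4] at r2
  rw [c6_sq] at r4 r5
  have hB : finrank E ↥(es (ρ c6) (-1) ⊓ es (ρ (iota v1)) (-1)) = 1 := by omega
  obtain ⟨u, hu, hu0, hκ⟩ : ∃ u ∈ es (ρ5 z5) 1 ⊓ es (ρ5 v0) (-1) ⊓ es (H882.E6Five.sop ρ5) (2 * t' - 1), u ≠ 0 ∧
      ρ (iota c3) (ρ (iota c3) (u + ρ (iota v1) u)) - ρ c6 (ρ (iota c3) (ρ (iota c3) (u + ρ (iota v1) u))) = 0 := by
    let κ : (I27 → E) →ₗ[E] (I27 → E) := (LinearMap.id - ρ c6) ∘ₗ ρ (iota c3) ∘ₗ ρ (iota c3) ∘ₗ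
      (LinearMap.id + ρ (iota v1))
    have hκ : ∀ x, κ x = ρ (iota c3) (ρ (iota c3) (x + ρ (iota v1) x)) -
      ρ c6 (ρ (iota c3) (ρ (iota c3) (x + ρ (iota v1) x))) := fun x => rfl
    have hr : ∀ x ∈ es (ρ5 z5) 1 ⊓ es (ρ5 v0) (-1) ⊓ es (H882.E6Five.sop ρ5) (2 * t' - 1),
        κ x ∈ es (ρ c6) (-1) ⊓ es (ρ (iota v1)) (-1) := by
      intro x hx
      by_cases hx0 : x = 0
      · rw [hx0, map_zero]; exact Submodule.zero_mem _
      obtain ⟨hx1, hx2⟩ := hmem.1 hx.1
      have hx3 : H882.E6Five.sop ρ5 x = (2 * t' - 1) • x := mem_es.1 hx.2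
      obtain ⟨X, -, hX0, hxX, ⟨a0, a1, a2⟩, ⟨b0, b1, b2⟩, ⟨c0, c1, c2⟩, -, -, -⟩ :=
        H882.E6Five.axes two_ne ρ5 hx0 hx1 hx2 hx3
      rw [h5ρ] at a0 a1 a2 b0 b1 b2 c0 c1 c2
      have hy : ρ (iota c3) (ρ (iota c3) (x + ρ (iota v1) x)) = (2 : E) • X 0 := by
        have e : x + ρ (iota v1) x = (2 : E) • X 1 := by
          rw [hxX, map_add, map_smul, b1, b2]
          module
        rw [e, map_smul, map_smul, c1, c2]
      have hcv : ρ (iota v0) (X 0) = ρ c6 (ρ c6 (X 0)) := by rw [← c6_sq, rmul]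
      have hv1c : ρ (iota v1) (ρ c6 (X 0)) = -ρ c6 (X 0) := by
        have e1 : iota v1 * c6 = c6 * (c6 * (c6 * iota v1)) := by decide +kernel
        rw [← rmul, e1, rmul, rmul, rmul, b0, map_neg, map_neg, map_neg, ← rmul c6 c6 (X 0), c6_sq, a0]
      rw [hκ, hy, map_smul, ← smul_sub]
      refine Submodule.smul_mem _ _ ?_
      rw [Submodule.mem_inf, mem_es_neg, mem_es_neg]
      constructor
      · rw [map_sub, ← hcv, a0]; abel
      · rw [map_sub, b0, hv1c]; abel
    let f : ↥(es (ρ5 z5) 1 ⊓ es (ρ5 v0) (-1) ⊓ es (H882.E6Five.sop ρ5) (2 * t' - 1)) →ₗ[E]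
        ↥(es (ρ c6) (-1) ⊓ es (ρ (iota v1)) (-1)) := κ.restrict hr
    have hrk := LinearMap.finrank_range_add_finrank_ker f
    have hrl := Submodule.finrank_le (LinearMap.range f)
    obtain ⟨⟨x, hx⟩, hxk, hx0⟩ : ∃ x ∈ LinearMap.ker f, x ≠ 0 := by
      apply Submodule.exists_mem_ne_zero_of_ne_bot
      intro h
      rw [h, finrank_bot] at hrk
      omega
    refine ⟨x, hx, fun h => hx0 (Subtype.ext h), ?_⟩
    rw [← hκ]
    exact congrArg Subtype.val (LinearMap.mem_ker.1 hxk)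
  -- the vectors `X`
  obtain ⟨hu1, hu2⟩ := hmem.1 hu.1
  have hu3 : H882.E6Five.sop ρ5 u = (2 * t' - 1) • u := mem_es.1 hu.2
  obtain ⟨X, -, hX0, hxX, ⟨a0, a1, a2⟩, ⟨b0, b1, b2⟩, ⟨c0, c1, c2⟩, z0, z1, z2⟩ :=
    H882.E6Five.axes two_ne ρ5 hu0 hu1 hu2 hu3
  have hli := H882.E6Five.linInd two_ne hX0 ⟨a0, a1, a2⟩ ⟨b0, b1, b2⟩
  rw [h5ρ] at a0 a1 a2 b0 b1 b2 c0 c1 c2 z0 z1 z2 hu1 hu2
  have s0 : ρ c6 (X 0) = X 0 := by
    have e : u + ρ (iota v1) u = (2 : E) • X 1 := by
      rw [hxX, map_add, map_smul, b1, b2]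
      module
    rw [e, map_smul, map_smul, map_smul, c1, c2, ← smul_sub] at hκ
    exact (sub_eq_zero.1 ((smul_eq_zero.1 hκ).resolve_left two_ne)).symm
  have s1 : ρ c6 (X 1) = X 2 := by
    rw [← c0, ← rmul, c6_c3, rmul, rmul, rmul, rmul, s0, s0, s0, c0, c1]
  have s2 : ρ c6 (X 2) = -X 1 := by
    rw [← c1, ← c0, ← rmul, ← rmul, mul_assoc, c6_c3', rmul, rmul, b0, map_neg, map_neg, s0]
  have neg2 : ∀ {x y : I27 → E}, (2 : E) • x = y → x = -y := by
    intro x y h
    rw [← h, ← neg_smul, show (-(2 : E)) = 1 by linear_combination -h3, one_smul]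
  have zc : ∀ a b c a' b' c' : E, a' = -(a * (t' - 1) + b * t' - c) → b' = -(-a * t' + b + c * (t' - 1)) →
      c' = -(a + b * (t' - 1) + c * t') →
      ρ (iota z5) (a • X 0 + b • X 1 + c • X 2) = a' • X 0 + b' • X 1 + c' • X 2 := by
    rintro a b c _ _ _ rfl rfl rfl
    rw [map_add, map_add, map_smul, map_smul, map_smul, neg2 z0, neg2 z1, neg2 z2]
    module
  -- the invariant vector
  have hq : sh (X 0) + sh (X 1) + sh (X 2) = 0 := by
    have hc : ρ' c6 (sh (X 0) + sh (X 1) + sh (X 2)) = sh (X 0) + sh (X 1) + sh (X 2) := by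
      rw [map_add, map_add, ← shρ, ← shρ, ← shρ, s0, s1, s2, show sh (-X 1) = sh (X 1) by
        rw [← neg_one_smul E, sh_smul]; norm_num]
      abel
    have hz : ρ' (iota z5) (sh (X 0) + sh (X 1) + sh (X 2)) = sh (X 0) + sh (X 1) + sh (X 2) := by
      have k0 : ρ (iota z5) (X 0) = (-(t' - 1)) • X 0 + t' • X 1 + (-1 : E) • X 2 := by
        rw [neg2 z0]; module
      have k1 : ρ (iota z5) (X 1) = (-t') • X 0 + (-1 : E) • X 1 + (-(t' - 1)) • X 2 := by
        rw [neg2 z1]; module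
      have k2 : ρ (iota z5) (X 2) = (1 : E) • X 0 + (-(t' - 1)) • X 1 + (-t') • X 2 := by
        rw [neg2 z2]; module
      rw [map_add, map_add, ← shρ, ← shρ, ← shρ, k0, k1, k2, sh_comb, sh_comb, sh_comb]
      match_scalars
      · linear_combination (2 : E) * ht' + h3
      · linear_combination (2 : E) * ht' + h3
      · linear_combination (2 : E) * ht' + h3
      · linear_combination (-1 : E) * ht'
      · linear_combination (1 : E) * ht'
      · linear_combination (1 : E) * ht'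
    have hmem' : sh (X 0) + sh (X 1) + sh (X 2) ∈ Representation.invariants ρ' := by
      rw [Representation.mem_invariants]
      intro g
      exact fixed_of_gen ρ' closure_six hz hc g
    rw [show Representation.invariants ρ' = ⊥ from hi', Submodule.mem_bot] at hmem'
    exact hmem'
  -- the vector `p`
  have hshu : sh u = 0 := by
    by_contra hp0
    have hpe : sh u = sh (X 1) + (t' * t') • sh (X 2) + t' • cr (X 1) (X 2) := by
      rw [hxX, sh_add, sh_smul, cr_smul_right, pow_two]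
    have hpU : sh u ∈ U ρ' := by
      rw [H505.E6Three.mem_U, zz_eq, w0_eq, ← shρ, ← shρ, hu1, hu2, ← neg_one_smul E u, sh_smul]
      norm_num
    have hline : ∀ v, ∃ c : E, (H505.E6Three.P ρ' * ρ' cc) v = c • sh u := by
      intro v
      have h6 := H505.E6Three.P_mem ρ' (ρ' cc v)
      obtain ⟨⟨w, hw⟩, hw1⟩ := finrank_le_one_iff.1 hY1
      obtain ⟨c, hc⟩ := hw1 ⟨_, h6⟩
      obtain ⟨d, hd⟩ := hw1 ⟨_, hpU⟩
      have hc' : c • w = H505.E6Three.P ρ' (ρ' cc v) := congrArg Subtype.val hc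
      have hd' : d • w = sh u := congrArg Subtype.val hd
      have hd0 : d ≠ 0 := by
        rintro rfl
        rw [zero_smul] at hd'
        exact hp0 hd'.symm
      refine ⟨c * d⁻¹, ?_⟩
      rw [mul_smul, ← hd', ← mul_smul d⁻¹, inv_mul_cancel₀ hd0, one_smul, hc']
      rfl
    have hz0' : ρ' (zz ^ ((0 : Fin 5) : ℕ)) = 1 := by
      change ρ' (zz ^ 0) = 1
      rw [pow_zero, map_one]
    have hT : (H505.E6Three.P ρ' * ρ' cc) (sh u) = (1 : E) • sh u := by
      have y0 : ρ cc u = (0 : E) • X 0 + (-t') • X 1 + (1 : E) • X 2 := by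
        rw [cc_eq, hxX, map_add, map_smul, s1, s2]
        module
      have q0 : ρ (zz ^ 0) (ρ cc u) = (0 : E) • X 0 + (-t') • X 1 + (1 : E) • X 2 := by
        rw [pow_zero, map_one]; exact y0
      have q1 : ρ (zz ^ 1) (ρ cc u) = (t' - 1) • X 0 + (1 : E) • X 1 + (1 - t') • X 2 := by
        rw [pow_succ' zz 0, rmul, q0, zz_eq]
        exact zc _ _ _ _ _ _ (by linear_combination (-1 : E) * ht' - h3) (by ring) (by linear_combination (-1 : E) * ht')
      have q2 : ρ (zz ^ 2) (ρ cc u) = (-(t' + 1)) • X 0 + (-(t' + 1)) • X 1 + t' • X 2 := by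
        rw [pow_succ' zz 1, rmul, q1, zz_eq]
        exact zc _ _ _ _ _ _ (by linear_combination ht') (by linear_combination (-2 : E) * ht' - h3)
          (by linear_combination (-1 : E) * ht' + (t' - 1) * h3)
      have q3 : ρ (zz ^ 3) (ρ cc u) = (t' + 1) • X 0 + (-(t' + 1)) • X 1 + t' • X 2 := by
        rw [pow_succ' zz 2, rmul, q2, zz_eq]
        exact zc _ _ _ _ _ _ (by linear_combination (-2 : E) * ht' - t' * h3) (by linear_combination (2 : E) * ht')
          (by ring)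
      have q4 : ρ (zz ^ 4) (ρ cc u) = (1 - t') • X 0 + (1 : E) • X 1 + (1 - t') • X 2 := by
        rw [pow_succ' zz 3, rmul, q3, zz_eq]
        exact zc _ _ _ _ _ _ (by linear_combination (-t') * h3) (by linear_combination (-t') * h3)
          (by linear_combination h3)
      have hw : ρ w0 (ρ cc u) = -ρ cc u := by
        rw [← rmul, show w0 * cc = cc * iota v0 by decide +kernel, rmul, hu2, map_neg]
      have hD : ∀ (i : Fin 5) (b : Bool), ρ' (D i b) (sh (ρ cc u)) = sh (ρ (zz ^ (i : ℕ)) (ρ cc u)) := by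
        intro i b
        cases b
        · change ρ' (zz ^ (i : ℕ) * 1) _ = _
          rw [mul_one]
          exact (shρ _ _).symm
        · change ρ' (zz ^ (i : ℕ) * w0) _ = _
          rw [← shρ, rmul, hw, map_neg, ← neg_one_smul E, sh_smul]
          norm_num
      have hP : H505.E6Three.P ρ' (sh (ρ cc u)) = (2 : E) • ∑ i : Fin 5, sh (ρ (zz ^ (i : ℕ)) (ρ cc u)) := by
        rw [H505.E6Three.P_apply, Finset.smul_sum]
        refine Finset.sum_congr rfl fun i _ => ?_
        rw [Fintype.sum_bool, hD, hD, two_smul]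
      have p0 : ρ (zz ^ ((0 : Fin 5) : ℕ)) (ρ cc u) = _ := q0
      have p1 : ρ (zz ^ ((1 : Fin 5) : ℕ)) (ρ cc u) = _ := q1
      have p2 : ρ (zz ^ ((2 : Fin 5) : ℕ)) (ρ cc u) = _ := q2
      have p3 : ρ (zz ^ ((3 : Fin 5) : ℕ)) (ρ cc u) = _ := q3
      have p4 : ρ (zz ^ ((4 : Fin 5) : ℕ)) (ρ cc u) = _ := q4
      rw [Module.End.mul_apply, ← shρ, hP, Fin.sum_univ_five, p0, p1, p2, p3, p4, sh_comb, sh_comb, sh_comb, sh_comb,
        sh_comb, one_smul, hpe]
      have hq0 : sh (X 0) = -sh (X 1) - sh (X 2) := by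
        rw [← sub_eq_zero, ← hq]
        abel
      rw [hq0]
      match_scalars
      all_goals first
        | ring1
        | linear_combination (-2 : E) * ht' + (2 * t' - 1) * h3
        | linear_combination (-1 : E) * ht' - (3 * t' + 1) * h3
        | linear_combination (-4 : E) * ht' - 5 * t' * h3
    have h7 := H952.F4.Spec.trace_of_line hp0 _ hline hT
    rw [trace_P_cc' ρ' finrank27 h4', zz_eq, e5'] at h7
    push_cast at h7
    have : (1 : E) = 0 := by linear_combination h7 * 2 - 5 * h3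
    exact one_ne_zero this
  -- conclusion
  have hshg : ∀ (g : A6) (v : I27 → E), sh v = 0 → sh (ρ g v) = 0 := by
    intro g v hv
    rw [shρ, hv, map_zero]
  refine ⟨Submodule.span E (Set.range X), by rw [finrank_span_eq_card hli, Fintype.card_fin], ?_, ?_⟩
  · have k1 : sh (X 1 + t' • X 2) = 0 := by rw [← hxX]; exact hshu
    have k2 : sh (X 1 - t' • X 2) = 0 := by
      have := hshg (iota v1) _ k1
      rwa [map_add, map_smul, b1, b2, smul_neg, ← sub_eq_add_neg] at this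
    have k3 : sh (X 2 + t' • X 0) = 0 := by
      have := hshg (iota c3) _ k1
      rwa [map_add, map_smul, c1, c2] at this
    have k4 : sh (X 2 - t' • X 0) = 0 := by
      have := hshg (iota c3) _ k2
      rwa [map_sub, map_smul, c1, c2] at this
    have k5 : sh (X 0 + t' • X 1) = 0 := by
      have := hshg (iota c3) _ k3
      rwa [map_add, map_smul, c0, c2] at this
    have k6 : sh (X 0 - t' • X 1) = 0 := by
      have := hshg (iota c3) _ k4
      rwa [map_sub, map_smul, c0, c2] at this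
    exact H882.E6Five.ts_span two_ne five_ne ht' k1 k2 k3 k4 k5 k6
  · have hX : ∀ i, X i ∈ Submodule.span E (Set.range X) := fun i => Submodule.subset_span ⟨i, rfl⟩
    have hstep : ∀ (k : A6), (∀ i, ρ k (X i) ∈ Submodule.span E (Set.range X)) →
        ∀ w ∈ Submodule.span E (Set.range X), ρ k w ∈ Submodule.span E (Set.range X) := by
      intro k hk w hw
      induction hw using Submodule.span_induction with
      | mem x hx =>
        obtain ⟨i, rfl⟩ := hx
        exact hk i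
      | zero => rw [map_zero]; exact Submodule.zero_mem _
      | add x y _ _ hx hy => rw [map_add]; exact Submodule.add_mem _ hx hy
      | smul a x _ hx => rw [map_smul]; exact Submodule.smul_mem _ _ hx
    intro a w hw
    refine stable_of_gen ρ _ closure_six ?_ ?_ a w hw
    · intro w hw
      exact H882.E6Five.span_stable two_ne (ρ := ρ5) ⟨c0, c1, c2⟩ z0 z1 z2 z5 w hw
    · refine hstep c6 ?_
      intro i
      fin_cases i
      · exact s0.symm ▸ hX 0
      · exact s1.symm ▸ hX 2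
      · exact s2.symm ▸ Submodule.neg_mem _ (hX 1)

end vec

end Cfsg.Agent.H401.E6Three
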