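import Cfsg.Agent.H401.E6KFive
import Cfsg.Agent.H401.E6KNine
import Cfsg.Agent.H505.E6Three.Final
import Cfsg.Agent.H882.E6FiveW

/-!
# S5927, S5928: `A₆` in characteristic 3 (helper401, helper505; plan helper905)
-/

set_option autoImplicit false
set_option linter.unusedVariables false

namespace Cfsg.Agent.H401.E6Three

open Cfsg Cfsg.Lie Module
open Cfsg.Agent.ChevalleyStructure.E6Min.Tables Cfsg.Agent.ChevalleyStructure.E6Min.Basic
  Cfsg.Agent.ChevalleyStructure.E6Min.Adjoint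
open Cfsg.Agent.H952.F4 (ev es matRep sh cr tf v0 v1 c3 z5)
open Cfsg.Agent.H163.E6
open Cfsg.Agent.H505.E6Three (A6)

universe u

variable {F : Type u} [Field F] [Finite F]

theorem pow4 {G : Type*} [Group G] (g : G) : g * g * (g * g) = g ^ 4 := by
  simp only [pow_succ, pow_zero, one_mul, mul_assoc]
theorem pow5 {G : Type*} [Group G] (g : G) : g * g * (g * g) * g = g ^ 5 := by
  simp only [pow_succ, pow_zero, one_mul, mul_assoc]

/-- elements of order 4 are real -/
theorem real_four (g : A6) (h1 : g * g ≠ 1) (h2 : g ^ 4 = 1) : ∃ k, k * g * k⁻¹ = g⁻¹ := by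
  obtain ⟨h, rfl⟩ := cj4 g (by rw [pow4, h2]) h1
  refine ⟨h * iota v1 * h⁻¹, ?_⟩
  have e : iota v1 * c6 * (iota v1)⁻¹ = c6⁻¹ := by
    rw [← v1_c6]
    congr 1
    exact inv_eq_of_mul_eq_one_right v1_sq
  calc h * iota v1 * h⁻¹ * (h * c6 * h⁻¹) * (h * iota v1 * h⁻¹)⁻¹ = h * (iota v1 * c6 * (iota v1)⁻¹) * h⁻¹ := by group
    _ = (h * c6 * h⁻¹)⁻¹ := by rw [e]; group

/-- the pattern -/
theorem pattern [CharP F 3] (ψ : A6 →* ↥(Zgrp F)) (hinj : Function.Injective ψ)
    (h1 : Representation.invariants (MonoidHom.comp (V F) ψ) = ⊥)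
    (h2 : Representation.invariants (MonoidHom.comp (V' F) ψ) = ⊥) :
    (∀ g : A6, g ≠ 1 → g * g = 1 → ev (V F (ψ g)) 1 = 11) ∧ ev (V F (ψ c6)) 1 = 9 ∧ ev (V F (ψ (iota z5))) 1 = 7 := by
  have : Fact (Nat.Prime 3) := ⟨Nat.prime_three⟩
  have T : Tab 3 F := Tor.tab 3
  have hne : ∀ a, a ≠ 1 → ψ a ≠ 1 := fun a ha h => ha (hinj (h.trans (map_one ψ).symm))
  have hevd : ∀ g : ↥(Zgrp F), ev (V' F g) 1 = ev (V F g) 1 := fun g => by
    rw [Act.ev_dual g one_ne_zero, inv_one]
  let ρ : Representation F A6 (I27 → F) := MonoidHom.comp (V F) ψ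
  let ρ' : Representation F A6 (I27 → F) := MonoidHom.comp (V' F) ψ
  have hρ : ∀ a, ρ a = V F (ψ a) := fun a => rfl
  -- classes
  have e2 : ∀ g : A6, g ≠ 1 → g * g = 1 → ev (ρ g) 1 = ev (ρ (iota v0)) 1 := by
    intro g hg hgg
    obtain ⟨h, rfl⟩ := cj2 g hgg hg
    exact H944.E6T.ev_conj ρ h _ 1
  have e4 : ∀ g : A6, g * g ≠ 1 → g ^ 4 = 1 → ev (ρ g) 1 = ev (ρ c6) 1 := by
    intro g hg hgg
    obtain ⟨h, rfl⟩ := cj4 g (by rw [pow4, hgg]) hg
    exact H944.E6T.ev_conj ρ h _ 1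
  have e55 : ev (ρ (iota z5 * iota z5)) 1 = ev (ρ (iota z5)) 1 := by
    have hmul : ∀ (a b : A6) (w : I27 → F), ρ (a * b) w = ρ a (ρ b w) := fun a b w => by rw [map_mul]; rfl
    have e : es (ρ (iota z5 * iota z5)) 1 = es (ρ (iota z5)) 1 := by
      ext v
      rw [H546.F4Eig.mem_es_one, H546.F4Eig.mem_es_one]
      constructor
      · intro h
        have e1 : iota z5 = (iota z5 * iota z5) * ((iota z5 * iota z5) * (iota z5 * iota z5)) := by decide +kernel
        calc ρ (iota z5) v = ρ ((iota z5 * iota z5) * ((iota z5 * iota z5) * (iota z5 * iota z5))) v :=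
              congrArg (fun g => ρ g v) e1
          _ = v := by rw [hmul (iota z5 * iota z5) ((iota z5 * iota z5) * (iota z5 * iota z5)),
                hmul (iota z5 * iota z5) (iota z5 * iota z5), h, h, h]
      · intro h
        rw [hmul, h, h]
    exact congrArg (fun W : Submodule F (I27 → F) => finrank F ↥W) e
  have e5 : ∀ g : A6, g ≠ 1 → g ^ 5 = 1 → ev (ρ g) 1 = ev (ρ (iota z5)) 1 := by
    intro g hg hgg
    obtain ⟨h, rfl | rfl⟩ := cj5 g (by rw [pow5, hgg]) hg
    · exact H944.E6T.ev_conj ρ h _ 1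
    · rw [H944.E6T.ev_conj ρ h _ 1, e55]
  -- Scott
  have hdb := H882.E6Five.dual_bot (fun g x y => Act.tf_act g x y) ψ h2
  have hsc : ∀ {x y : A6}, Subgroup.closure {x, y} = ⊤ → ev (ρ x) 1 + ev (ρ y) 1 + ev (ρ (x * y)) 1 ≤ 27 := by
    intro x y hxy
    have h := H952.F4.Scott.scott ρ hxy
    have e1 : ρ.invariants = ⊥ := h1
    have e2 : ρ.dual.invariants = ⊥ := hdb
    rw [e1, e2, finrank_bot, finrank_bot, finrank27] at h
    exact h
  have S1 : ev (ρ (iota v0)) 1 + ev (ρ (iota z5)) 1 + ev (ρ (iota z5)) 1 ≤ 27 := by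
    obtain ⟨x, y, hg, hx, hy, hxy⟩ := H952.F4.Gen.gen6a
    have h := hsc hg
    rw [e2 x (H505.E6Three.ne_of_ct (m := {2, 2}) (by decide) _ hx) ?_, e5 y (H505.E6Three.ne_of_ct (m := {5}) (by decide) _ hy)
      (H505.E6Three.pow_of_ct _ hy), e5 (x * y) (H505.E6Three.ne_of_ct (m := {5}) (by decide) _ hxy)
      (H505.E6Three.pow_of_ct _ hxy)] at h
    · exact h
    · have h3 := Equiv.Perm.lcm_cycleType (x : Equiv.Perm (Fin 6))
      rw [hx] at h3
      apply Subtype.ext
      change (x : Equiv.Perm (Fin 6)) * (x : Equiv.Perm (Fin 6)) = 1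
      rw [← pow_two, ← orderOf_dvd_iff_pow_eq_one, ← h3]
      decide
  have S2 : ev (ρ (iota v0)) 1 + ev (ρ c6) 1 + ev (ρ (iota z5)) 1 ≤ 27 := by
    have h := hsc closure_245
    rw [e2 _ x_ne x_sq, e5 _ xy_ne xy_five] at h
    exact h
  have f2 := T.two (by norm_num) (ψ (iota v0)) (hne _ (by decide +kernel)) (by rw [← map_mul, show iota v0 * iota v0 = 1 by decide +kernel, map_one])
  have c64 : c6 ^ 4 = 1 := by decide +kernel
  have tfour : ∀ g : A6, g * g ≠ 1 → g ^ 4 = 1 → _ := fun g hg hgg =>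
    T.four_real (by norm_num) (ψ g) (fun h => hne _ hg (by rw [map_mul, h])) (by rw [← map_pow, hgg, map_one])
      (by obtain ⟨k, hk⟩ := real_four g hg hgg
          exact ⟨ψ k, by rw [← map_mul, ← map_inv, ← map_mul, hk, map_inv]⟩)
  have f4 := tfour c6 c6_ne c64
  have f5 := T.five (by norm_num) (ψ (iota z5)) (hne _ (by decide +kernel)) (by rw [← map_pow, show iota z5 ^ 5 = 1 by decide +kernel, map_one])
    ⟨ψ (iota v0), by rw [← map_mul, ← map_inv, ← map_mul, show iota v0 * iota z5 * (iota v0)⁻¹ = (iota z5)⁻¹ by decide +kernel,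
      map_inv]⟩
  rw [← map_mul, c6_sq] at f4
  simp only [← hρ] at f2 f4 f5 ⊢
  have hd27 : finrank F (I27 → F) = 27 := finrank27
  rcases f2 with ⟨f2, -⟩ | ⟨f2, -⟩
  · -- `f₂ = 15`: K7
    exfalso
    have g5 : ev (ρ (iota z5)) 1 = 5 := by omega
    have g4 : ev (ρ c6) 1 = 7 := by omega
    refine H505.E6Three.Hyp.false (ρ := ρ) (ρ' := ρ') (B := LinearMap.mk₂ F (fun x y => tf x y)
      (fun x x' y => H952.F4.Jord.tf_add_left x x' y) (fun c x y => H952.F4.Jord.tf_smul_left c x y)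
      (fun x y y' => H952.F4.Jord.tf_add_right x y y') (fun c x y => H952.F4.Jord.tf_smul_right c x y)) ?_
    refine ⟨fun g v w => Act.tf_act (ψ g) v w, fun v hv => H952.F4.Jord.tf_nondeg hv, fun w hw =>
      H952.F4.Jord.tf_nondeg fun v => by rw [H952.F4.Jord.tf_comm]; exact hw v, hd27, h1, h2, ?_, ?_, ?_, ?_⟩
    · intro g hg hgg
      rw [e2 g hg hgg, f2]
    · intro g hg hgg
      rw [e4 g hg hgg, g4]
    · intro g hg hgg
      have h := tfour g hg hgg
      have h' : ev (V F (ψ g)) 1 = 7 := (e4 g hg hgg).trans g4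
      rcases h with h | h | h | h | h
      · omega
      · omega
      · omega
      · exact h.2.2.2.1
      · omega
    · intro g hg hgg
      rw [e5 g hg hgg, g5]
  · have hall : ∀ g : A6, g ≠ 1 → g * g = 1 → ev (ρ g) 1 = 11 := fun g hg hgg => by rw [e2 g hg hgg, f2]
    have g4 : ev (ρ c6) 1 = 9 ∨ ev (ρ c6) 1 = 5 := by omega
    rcases g4 with g4 | g4
    · refine ⟨hall, g4, ?_⟩
      have g5 : ev (ρ (iota z5)) 1 = 7 ∨ ev (ρ (iota z5)) 1 = 5 := by omega
      rcases g5 with g5 | g5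
      · exact g5
      · exfalso
        refine no_nine_five ρ hd27 (by rw [w0_eq]; exact f2) (by rw [zz_eq]; exact g5) ?_
        intro g hg hgg
        have h := tfour g hg hgg
        have h' : ev (V F (ψ g)) 1 = 9 := (e4 g hg hgg).trans g4
        have hs : ev (V F (ψ g * ψ g)) 1 = 11 := by
          rw [← map_mul]
          exact hall _ hg (by rw [pow4, hgg])
        have h3 := H505.E6Three.three_eq F
        rcases h with h | h | h | h | h
        · omega
        · change LinearMap.trace F _ (V F (ψ g)) = 1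
          rw [h.2.2.2.1]
          linear_combination (2 : F) * h3
        · omega
        · omega
        · omega
    · -- K5
      exfalso
      let K := AlgebraicClosure F
      have hch : CharP K 3 := charP_of_injective_algebraMap (algebraMap F K).injective 3
      let ι := H65.E6Emb.emb (algebraMap F K)
      refine no_five 3 (Cfsg.Agent.H944.RootVals.hAlg_closure 3 F) (by norm_num) Act.sh_act (fun g => by
        rw [Act.ev_dual g one_ne_zero, inv_one]) (c := ι (ψ c6)) (s := ι (ψ (iota v1))) ?_ ?_ ?_ ?_ ?_ ?_ ?_ ?_ ?_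
      · simp only [← map_mul]
        rw [c6_four, map_one, map_one]
      · rw [← map_mul ι, ← map_mul ψ, v1_sq, map_one, map_one]
      · simp only [← map_mul]
        rw [v1_c6, map_inv, map_inv]
      · simp only [← map_mul]
        rw [H65.E6Emb.ev_V_one]
        exact hall _ (by decide +kernel) (by decide +kernel)
      · rw [H65.E6Emb.ev_V_one]
        exact hall _ (by decide +kernel) (by decide +kernel)
      · simp only [← map_mul]
        rw [H65.E6Emb.ev_V_one]
        exact hall _ (by decide +kernel) (by decide +kernel)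
      · simp only [← map_mul]
        rw [H65.E6Emb.ev_V_one]
        exact hall _ (by decide +kernel) (by decide +kernel)
      · simp only [← map_mul]
        rw [H65.E6Emb.ev_V_one]
        exact hall _ (by decide +kernel) (by decide +kernel)
      · rw [H65.E6Emb.ev_V_one]
        exact g4

/-- the trace on `V'` -/
theorem trace_dual [CharP F 3] {x : ↥(Zgrp F)} (hx : x * x ≠ 1) (hx4 : x ^ 4 = 1) (hr : ∃ g, g * x * g⁻¹ = x⁻¹)
    (h11 : ev (V F (x * x)) 1 = 11) (h9 : ev (V F x) 1 = 9) : LinearMap.trace F _ (V' F x) = 1 := by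
  have : Fact (Nat.Prime 3) := ⟨Nat.prime_three⟩
  have hevd : ∀ g : ↥(Zgrp F), ev (V' F g) 1 = ev (V F g) 1 := fun g => by
    rw [Act.ev_dual g one_ne_zero, inv_one]
  have gz1 : Act.gz (1 : ↥(Zgrp F)) = 1 := by
    have h := Act.gz_mul (1 : ↥(Zgrp F)) 1
    rw [mul_one] at h
    exact left_eq_mul.1 h
  have h := (Tor.tab 3 : Tab 3 F).four_real (by norm_num) (Act.gz x) ?_ ?_ ?_
  · rw [← Act.gz_mul, Act.V_gz, Act.V_gz, hevd, hevd, h11, h9] at h
    have h3 := H505.E6Three.three_eq F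
    rcases h with h | h | h | h | h
    · omega
    · rw [h.2.2.2.1]
      linear_combination (2 : F) * h3
    · omega
    · omega
    · omega
  · intro h
    apply hx
    rw [← Act.gz_mul] at h
    rw [← Act.gz_gz (x * x), h, gz1]
  · rw [← pow4, ← Act.gz_mul, ← Act.gz_mul, pow4, hx4, gz1]
  · obtain ⟨g, hg⟩ := hr
    refine ⟨Act.gz g, ?_⟩
    have hinv : ∀ y : ↥(Zgrp F), (Act.gz y)⁻¹ = Act.gz y⁻¹ := fun y => by
      rw [inv_eq_iff_mul_eq_one, ← Act.gz_mul, mul_inv_cancel, gz1]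
    rw [hinv, hinv, ← Act.gz_mul, ← Act.gz_mul, hg]

end Cfsg.Agent.H401.E6Three

namespace Cfsg.Agent.H163.E6.Cases

open Cfsg Cfsg.Lie Module
open Cfsg.Agent.ChevalleyStructure.E6Min.Tables Cfsg.Agent.ChevalleyStructure.E6Min.Basic
  Cfsg.Agent.ChevalleyStructure.E6Min.Adjoint
open Cfsg.Agent.H952.F4 (ev es matRep sh cr tf v0 v1 c3 z5)
open Cfsg.Agent.H401.E6Three
open Cfsg.Agent.H882.E6Five (inv_ext inv_ext' exists_root)

universe u

variable {F : Type u} [Field F] [Finite F] {H : Subgroup ↥(chevE6.group F)}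

/-- `A₆` in characteristic 3 -/
theorem six_three [CharP F 3] {φ : ↥(alternatingGroup (Fin 6)) →* ↥(chevE6.group F)} (hS : Sit H 6 φ)
    {ψ : ↥(alternatingGroup (Fin 6)) →* ↥(Zgrp F)} (hψ : Lift φ ψ) : False := by
  have : Fact (Nat.Prime 3) := ⟨Nat.prime_three⟩
  obtain ⟨h1, h2⟩ := hS.no_fixed ψ hψ
  have hinj : Function.Injective ψ := fun a b hab => hS.inj (by rw [← hψ a, ← hψ b, hab])
  obtain ⟨p2, p4, p5⟩ := pattern ψ hinj h1 h2
  have p4' : ∀ g : ↥(alternatingGroup (Fin 6)), g * g ≠ 1 → g ^ 4 = 1 → ev (V F (ψ g)) 1 = 9 := by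
    intro g hg hgg
    obtain ⟨h, rfl⟩ := cj4 g (by rw [pow4, hgg]) hg
    exact (H944.E6T.ev_conj (MonoidHom.comp (V F) ψ : Representation F ↥(alternatingGroup (Fin 6)) (I27 → F)) h _
      1).trans p4
  have ptr : ∀ g : ↥(alternatingGroup (Fin 6)), g * g ≠ 1 → g ^ 4 = 1 → LinearMap.trace F _ (V' F (ψ g)) = 1 := by
    intro g hg hgg
    refine trace_dual ?_ ?_ ?_ ?_ (p4' g hg hgg)
    · intro h
      apply hg
      apply hinj
      rw [map_mul, h, map_one]
    · rw [← map_pow, hgg, map_one]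
    · obtain ⟨k, hk⟩ := real_four g hg hgg
      exact ⟨ψ k, by rw [← map_mul, ← map_inv, ← map_mul, hk, map_inv]⟩
    · rw [← map_mul]
      exact p2 _ hg (by rw [pow4, hgg])
  by_cases hr : ∃ t : F, t * t = t + 1
  · obtain ⟨t, ht⟩ := hr
    obtain ⟨W, hW3, hW, hst⟩ := k_nine Act.sh_act (fun g => by rw [Act.ev_dual g one_ne_zero, inv_one]) ht ψ h2 p2 p4 p5
      ptr
    refine hS.no_three (Or.inl (by norm_num)) (V F) (Or.inl rfl) W ?_ hW3 hW
    rintro g ⟨a, ha⟩ w hw
    obtain ⟨c, hc⟩ := eq_smul_of_ad (g := g) (h := ψ a) (ha.symm.trans (hψ a).symm)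
    rw [V_apply, hc, Matrix.smul_mulVec]
    exact W.smul_mem _ (hst a w hw)
  · rcases exists_root F 3 with h | ⟨E, _, _, _, f, hE, t, ht⟩
    · exact hr h
    · push Not at hr
      obtain ⟨W, hW3, hW, hst⟩ := k_nine Act.sh_act (fun g => by rw [Act.ev_dual g one_ne_zero, inv_one]) ht
        ((H65.E6Emb.emb f).comp ψ) (inv_ext' f _ (H65.E6Emb.V_emb f) ψ h2)
        (fun g hg hgg => by
          rw [MonoidHom.comp_apply, H65.E6Emb.ev_V_one]
          exact p2 g hg hgg)
        (by rw [MonoidHom.comp_apply, H65.E6Emb.ev_V_one]; exact p4)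
        (by rw [MonoidHom.comp_apply, H65.E6Emb.ev_V_one]; exact p5)
        (fun g hg hgg => by rw [MonoidHom.comp_apply, H65.E6Emb.trace_V', ptr g hg hgg, map_one])
      refine hS.no_three_ext (Or.inl (by norm_num)) hr E f hE (V E) (Or.inl rfl) W ?_ hW3 hW
      rintro g ⟨a, ha⟩ w hw
      obtain ⟨c, hc⟩ := eq_smul_of_ad (g := g) (h := ψ a) (ha.symm.trans (hψ a).symm)
      have hc' : (((H65.E6Emb.emb f g : ↥(Zgrp E)) : GL I27 E) : Matrix I27 I27 E) =
          f c • (((H65.E6Emb.emb f (ψ a) : ↥(Zgrp E)) : GL I27 E) : Matrix I27 I27 E) := by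
        rw [H65.E6Emb.coe_emb, H65.E6Emb.coe_emb, hc]
        ext i j
        rw [Matrix.map_apply, Matrix.smul_apply, Matrix.smul_apply, Matrix.map_apply, smul_eq_mul, smul_eq_mul,
          map_mul]
      rw [V_apply, hc', Matrix.smul_mulVec]
      exact W.smul_mem _ (hst a w hw)

end Cfsg.Agent.H163.E6.Cases
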