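import Cfsg.Agent.H401.L4

/-!
# The linear space case
-/

set_option autoImplicit false
open Subgroup MulAction
open scoped Pointwise

namespace Cfsg.Agent.H401

variable {G X : Type*} [Group G] [Finite G] [MulAction G X] [Finite X] {p : ℕ} [Fact p.Prime]

/-- The subgroup generated by the Sylow subgroups fixing both points. -/
def DD (p : ℕ) (G : Type*) {X : Type*} [Group G] [MulAction G X] (γ δ : X) : Subgroup G :=
  plus p (stabilizer G γ ⊓ stabilizer G δ)

omit [Finite G] [Finite X] [Fact p.Prime] in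
theorem DD_comm (γ δ : X) : DD p G γ δ = DD p G δ γ := by
  unfold DD
  rw [inf_comm]

omit [Finite G] [Finite X] [Fact p.Prime] in
theorem DD_smul (g : G) (γ δ : X) : DD p G (g • γ) (g • δ) = MulAut.conj g • DD p G γ δ := by
  unfold DD
  rw [smul_plus, stabilizer_smul', stabilizer_smul', smul_inf]

omit [Finite G] [Finite X] [Fact p.Prime] in
theorem DD_le_left (γ δ : X) : DD p G γ δ ≤ stabilizer G γ := (plus_le _).trans inf_le_left

omit [Finite G] [Finite X] [Fact p.Prime] in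
theorem DD_le_right (γ δ : X) : DD p G γ δ ≤ stabilizer G δ := (plus_le _).trans inf_le_right

/-- The linear space property at a point. -/
structure LS (p : ℕ) (G : Type*) {X : Type*} [Group G] [MulAction G X] (l : ℕ) (β : X) :
    Prop where
  conj : ∀ ω, ω ≠ β → ∀ ω', ω' ≠ β → ∃ g : G, DD p G β ω' = MulAut.conj g • DD p G β ω
  norm : ∀ ω, ω ≠ β → ∀ Q : Sylow p G, (Q : Subgroup G) ≤ stabilizer G β →
    (Q : Subgroup G) ≤ normalizer (DD p G β ω : Set G) → (Q : Subgroup G) ≤ stabilizer G ω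
  cnt : ∀ ω, ω ≠ β → (fs (DD p G β ω) X \ {β}).ncard = l

omit [Finite G] [Finite X] [Fact p.Prime] in
theorem LS.smul {l : ℕ} {β : X} (h : LS p G l β) (g : G) : LS p G l (g • β) := by
  have hred : ∀ ω : X, ω ≠ g • β → g⁻¹ • ω ≠ β := by
    intro ω hω h1
    apply hω
    rw [← h1, smul_inv_smul]
  have hD : ∀ ω : X, DD p G (g • β) ω = MulAut.conj g • DD p G β (g⁻¹ • ω) := by
    intro ω
    rw [← DD_smul, smul_inv_smul]
  constructor
  · intro ω hω ω' hω'
    obtain ⟨k, hk⟩ := h.conj _ (hred ω hω) _ (hred ω' hω')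
    refine ⟨g * k * g⁻¹, ?_⟩
    rw [hD, hD, hk, smul_smul, smul_smul, ← map_mul, ← map_mul]
    congr 2
    group
  · intro ω hω Q hQ hQ'
    have h1 : ((g⁻¹ • Q : Sylow p G) : Subgroup G) ≤ stabilizer G β := by
      rw [Sylow.coe_subgroup_smul, map_inv, ← Subgroup.subset_pointwise_smul_iff,
        ← stabilizer_smul']
      exact hQ
    have h2 : ((g⁻¹ • Q : Sylow p G) : Subgroup G) ≤
        normalizer (DD p G β (g⁻¹ • ω) : Set G) := by
      intro x hx
      rw [Sylow.coe_subgroup_smul, mem_pointwise_smul_iff_inv_smul_mem, ← map_inv, inv_inv,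
        MulAut.smul_def, MulAut.conj_apply] at hx
      have h3 := hQ' hx
      rw [mem_normalizer_iff_smul, hD, smul_smul, ← map_mul] at h3
      rw [mem_normalizer_iff_smul]
      have h4 : MulAut.conj g • (MulAut.conj x • DD p G β (g⁻¹ • ω)) =
          MulAut.conj g • DD p G β (g⁻¹ • ω) := by
        rw [smul_smul, ← map_mul]
        rw [← h3]
        congr 2
        group
      exact smul_left_cancel _ h4
    have h3 := h.norm _ (hred ω hω) _ h1 h2
    rw [Sylow.coe_subgroup_smul, map_inv, ← Subgroup.subset_pointwise_smul_iff,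
        ← stabilizer_smul', smul_inv_smul] at h3
    exact h3
  · intro ω hω
    have h1 : fs (DD p G (g • β) ω) X \ {g • β} =
        (fun x => g • x) '' (fs (DD p G β (g⁻¹ • ω)) X \ {β}) := by
      ext x
      simp only [Set.mem_diff, Set.mem_singleton_iff, Set.mem_image]
      constructor
      · rintro ⟨hx1, hx2⟩
        refine ⟨g⁻¹ • x, ⟨?_, hred x hx2⟩, smul_inv_smul _ _⟩
        rw [← fs_smul _ g, ← hD, smul_inv_smul]
        exact hx1
      · rintro ⟨y, ⟨hy1, hy2⟩, rfl⟩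
        refine ⟨?_, fun h => hy2 (smul_left_cancel g h)⟩
        rw [hD, fs_smul]
        exact hy1
    rw [h1, Set.ncard_image_of_injective _ (MulAction.injective g)]
    exact h.cnt _ (hred ω hω)

omit [Finite X] [Fact p.Prime] in
/-- A point of a line determines the line. -/
theorem LS.eq {l : ℕ} {β : X} (h : LS p G l β) {ω ω' : X} (hω : ω ≠ β) (hω' : ω' ≠ β)
    (h1 : ω' ∈ fs (DD p G β ω) X) : DD p G β ω' = DD p G β ω := by
  obtain ⟨g, hg⟩ := h.conj ω hω ω' hω'
  have h2 : DD p G β ω ≤ DD p G β ω' := by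
    have h3 : plus p (DD p G β ω) = DD p G β ω := plus_plus _
    rw [← h3]
    apply plus_mono
    exact le_inf (DD_le_left _ _) h1
  exact (eq_of_smul_le hg h2).symm

theorem ls_false [IsPretransitive G X] {P : Sylow p G} (hP : Nat.card P = p) {f l : ℕ}
    (hf : (fs (P : Subgroup G) X).ncard = f) (hX : Nat.card X = f + p * l) (hl : 2 ≤ l)
    (hfp : p + 1 ≤ f) {β : X} (hβ : LS p G l β) : False := by
  have hLS : ∀ γ : X, LS p G l γ := by
    intro γ
    obtain ⟨g, rfl⟩ := MulAction.exists_smul_eq G β γ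
    exact hβ.smul g
  have hpp : p.Prime := Fact.out
  set Γ := fs (P : Subgroup G) X with hΓ
  have hcompl : Γᶜ.ncard = p * l := by
    have := Set.ncard_add_ncard_compl Γ
    omega
  -- (c)
  have hc : ∀ γ ∈ Γ, ∀ δ, δ ∉ Γ → ∀ γ' ∈ Γ, γ' ∈ fs (DD p G γ δ) X → γ' = γ := by
    intro γ hγ δ hδ γ' hγ' h1
    by_contra hne
    have hδγ : δ ≠ γ := fun h => hδ (h ▸ hγ)
    have h2 := (hLS γ).eq hδγ hne h1
    apply hδ
    refine le_trans ?_ (DD_le_right (p := p) γ δ)
    rw [← h2]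
    exact le_plus (le_inf hγ hγ')
  -- orbits of P
  have horb : ∀ x, x ∉ Γ → (orbit (P : Subgroup G) x).ncard = p := fun x hx =>
    ncard_orbit_eq hP hx
  have hgen : ∀ g ∈ (P : Subgroup G), g ≠ 1 → zpowers g = (P : Subgroup G) := fun g hg hg1 =>
    zpowers_eq hP hg hg1
  have hfixone : ∀ g ∈ (P : Subgroup G), ∀ x, x ∉ Γ → g • x = x → g = 1 := by
    intro g hg x hx hgx
    by_contra hg1
    apply hx
    rw [hΓ, ← hgen g hg hg1, fs_zpowers]
    exact hgx
  have hΓinv : ∀ g ∈ (P : Subgroup G), ∀ x, x ∉ Γ → g • x ∉ Γ := by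
    intro g hg x hx h1
    have h2 : g⁻¹ • (g • x) = g • x := h1 (inv_mem hg)
    rw [inv_smul_smul] at h2
    rw [← h2] at h1
    exact hx h1
  -- (d)
  have hd : ∀ γ ∈ Γ, ∀ δ, δ ∉ Γ → ∀ y, y ≠ γ → y ∈ fs (DD p G γ δ) X →
      ∀ g ∈ (P : Subgroup G), g • y ∈ fs (DD p G γ δ) X → g = 1 := by
    intro γ hγ δ hδ y hyγ hy g hg hgy
    have hδγ : δ ≠ γ := fun h => hδ (h ▸ hγ)
    have hyΓ : y ∉ Γ := fun h => hyγ (hc γ hγ δ hδ y h hy)
    by_contra hg1
    have hgγ : g • γ = γ := hγ hg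
    have hgyγ : g • y ≠ γ := by
      intro h
      rw [← hgγ] at h
      exact hyγ (smul_left_cancel g h)
    have h1 := (hLS γ).eq hδγ hyγ hy
    have h2 := (hLS γ).eq hδγ hgyγ hgy
    have h3 : MulAut.conj g • DD p G γ y = DD p G γ y := by
      rw [← DD_smul, hgγ, h2, h1]
    have h4 : (P : Subgroup G) ≤ normalizer (DD p G γ y : Set G) := by
      rw [← hgen g hg hg1, zpowers_le, mem_normalizer_iff_smul]
      exact h3
    exact hyΓ ((hLS γ).norm y hyγ P hγ h4)
  -- (e)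
  have he : ∀ γ ∈ Γ, ∀ δ, δ ∉ Γ → ∀ x, x ∉ Γ →
      ∃ y, y ≠ γ ∧ y ∈ fs (DD p G γ δ) X ∧ y ∈ orbit (P : Subgroup G) x := by
    intro γ hγ δ hδ x hx
    have hδγ : δ ≠ γ := fun h => hδ (h ▸ hγ)
    let L := fs (DD p G γ δ) X \ {γ}
    have hLΓ : ∀ y ∈ L, y ∉ Γ := fun y hy h => hy.2 (hc γ hγ δ hδ y h hy.1)
    let F : ↥(P : Subgroup G) × ↥L → (Γᶜ : Set X) := fun q =>
      ⟨(q.1 : G) • (q.2 : X), hΓinv q.1 q.1.2 q.2 (hLΓ q.2 q.2.2)⟩
    have hFinj : Function.Injective F := by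
      rintro ⟨g, y⟩ ⟨g', y'⟩ hF
      have h1 : (g : G) • (y : X) = (g' : G) • (y' : X) := congrArg Subtype.val hF
      have h2 : ((g' : G)⁻¹ * (g : G)) • (y : X) = y' := by
        rw [mul_smul, h1, inv_smul_smul]
      have h3 : ((g' : G)⁻¹ * (g : G)) = 1 := by
        apply hd γ hγ δ hδ y y.2.2 y.2.1 _ (mul_mem (inv_mem g'.2) g.2)
        rw [h2]
        exact y'.2.1
      have h4 : g = g' := by
        apply Subtype.ext
        rw [inv_mul_eq_one] at h3
        exact h3.symm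
      subst h4
      have h5 : y = y' := by
        apply Subtype.ext
        rw [← h2, inv_mul_cancel, one_smul]
      rw [h5]
    have hcard : Nat.card (Γᶜ : Set X) ≤ Nat.card (↥(P : Subgroup G) × ↥L) := by
      rw [Nat.card_prod, Nat.card_coe_set_eq, Nat.card_coe_set_eq, hcompl, (hLS γ).cnt δ hδγ]
      exact le_of_eq (congrArg (· * l) hP.symm)
    have hbij := hFinj.bijective_of_nat_card_le hcard
    obtain ⟨⟨g, y⟩, hgy⟩ := hbij.2 ⟨x, hx⟩
    have h1 : (g : G) • (y : X) = x := congrArg Subtype.val hgy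
    refine ⟨y, y.2.2, y.2.1, ⟨g⁻¹, ?_⟩⟩
    rw [← h1]
    exact inv_smul_smul (g : G) (y : X)
  -- (f)
  have hne1 : (Γᶜ).Nonempty := by
    rw [← Set.ncard_pos, hcompl]
    exact Nat.mul_pos hpp.pos (by omega)
  obtain ⟨δ, hδ⟩ := hne1
  have hx0 : ∃ x0, x0 ∉ Γ ∧ x0 ∉ orbit (P : Subgroup G) δ := by
    by_contra hcon
    push Not at hcon
    have h1 : Γᶜ ⊆ orbit (P : Subgroup G) δ := fun x hx => hcon x hx
    have h2 := Set.ncard_le_ncard h1 (Set.toFinite _)
    rw [hcompl, horb δ hδ] at h2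
    have h3 : p * 2 ≤ p * l := Nat.mul_le_mul_left _ hl
    have := hpp.pos
    omega
  obtain ⟨x0, hx0, hx0δ⟩ := hx0
  choose y hy1 hy2 hy3 using fun γ : Γ => he γ γ.2 δ hδ x0 hx0
  have hyinj : Function.Injective
      (fun γ : Γ => (⟨y γ, hy3 γ⟩ : orbit (P : Subgroup G) x0)) := by
    intro γ γ' hγγ'
    have h0 : y γ = y γ' := congrArg Subtype.val hγγ'
    have hyδ : y γ ≠ δ := by
      intro h
      apply hx0δ
      have h1 := hy3 γ
      rw [h] at h1
      exact mem_orbit_symm.1 h1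
    have key : ∀ γ : Γ, y γ ≠ δ → DD p G δ (y γ) = DD p G (γ : X) δ := by
      intro γ hyδ
      have hγδ : (γ : X) ≠ δ := fun h => hδ (h ▸ γ.2)
      have h1 : y γ ∈ fs (DD p G δ (γ : X)) X := by
        rw [DD_comm]
        exact hy2 γ
      have := (hLS δ).eq hγδ hyδ h1
      rw [this, DD_comm]
    have h1 := key γ hyδ
    have h2 := key γ' (h0 ▸ hyδ)
    rw [← h0, h1] at h2
    apply Subtype.ext
    symm
    apply hc γ γ.2 δ hδ γ' γ'.2
    rw [h2]
    exact DD_le_left _ _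
  have hfinal := Nat.card_le_card_of_injective _ hyinj
  rw [Nat.card_coe_set_eq, Nat.card_coe_set_eq, hf, horb x0 hx0] at hfinal
  omega

end Cfsg.Agent.H401
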