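import Cfsg.Agent.H401.HP

/-!
# The local step
-/

set_option autoImplicit false
open Subgroup MulAction
open scoped Pointwise

namespace Cfsg.Agent.H401

universe u

/-- The main bound for coset actions. -/
def FS (p : ℕ) {G : Type*} [Group G] (K : Subgroup G) : Prop :=
  ∀ P : Sylow p G, (2 * p - 1) * (fs (P : Subgroup G) (G ⧸ K)).ncard ≤
    (p - 1) * Nat.card (G ⧸ K)

theorem FS.orbit {M X : Type*} [Group M] [MulAction M X] {p : ℕ} {y : X}
    (h : FS p (stabilizer M y)) (P : Sylow p M) :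
    (2 * p - 1) * (fs (P : Subgroup M) X ∩ orbit M y).ncard ≤ (p - 1) * (orbit M y).ncard := by
  rw [← ncard_fs_orbit, ← card_quot_orbit]
  exact h P

/-- Points fixed by all the `p`-subgroups normalizing `R`. -/
def FF (p : ℕ) {G : Type*} [Group G] (R : Subgroup G) (X : Type*) [MulAction G X] : Set X :=
  {x | ∀ T : Subgroup G, IsPGroup p T → T ≤ normalizer (R : Set G) → T ≤ stabilizer G x}

section

variable {G X : Type*} [Group G] [MulAction G X] {p : ℕ}

theorem FF_smul (R : Subgroup G) (g : G) (x : X) (h : g • x ∈ FF p (MulAut.conj g • R) X) :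
    x ∈ FF p R X := by
  intro T hT hTR
  have h1 := h (MulAut.conj g • T) (hT.map _) (by
    intro y hy
    rw [mem_pointwise_smul_iff_inv_smul_mem] at hy
    have h2 := hTR hy
    rw [mem_normalizer_iff_smul] at h2 ⊢
    have h3 : y = g * (g⁻¹ * y * g) * g⁻¹ := by group
    have h4 : (MulAut.conj g)⁻¹ • y = g⁻¹ * y * g := by
      rw [← map_inv, MulAut.smul_def, MulAut.conj_apply, inv_inv]
    rw [h4] at h2
    rw [h3, map_mul, map_mul, mul_smul, mul_smul, map_inv, inv_smul_smul, h2])
  rw [stabilizer_smul', Subgroup.pointwise_smul_le_pointwise_smul_iff] at h1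
  exact h1

theorem card_conj (g : G) (V : Subgroup G) :
    Nat.card (MulAut.conj g • V : Subgroup G) = Nat.card V :=
  (Nat.card_congr (Subgroup.equivSMul (MulAut.conj g) V).toEquiv).symm

end

theorem local_step {p : ℕ} [Fact p.Prime] {G : Type u} {X : Type*} [Group G] [Finite G]
    [MulAction G X] [Finite X] [IsPretransitive G X] [FaithfulSMul G X]
    (IH : ∀ (G' : Type u) [Group G'] [Finite G'], Nat.card G' < Nat.card G → PGen p G' →
      ∀ K : Subgroup G', K ≠ ⊤ → FS p K)
    (P : Sylow p G) {r : ℕ} (hr : 1 < r)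
    (hmax : ∀ x : X, x ∉ fs (P : Subgroup G) X →
      Nat.card ((P : Subgroup G) ⊓ stabilizer G x : Subgroup G) ≤ r)
    (hne : (fs (P : Subgroup G) X).Nonempty) {δ : X} (hδ : δ ∉ fs (P : Subgroup G) X)
    {R : Subgroup G} (hR : R = (P : Subgroup G) ⊓ stabilizer G δ) (hRr : Nat.card R = r) :
    p * (fs (P : Subgroup G) X \ FF p R X).ncard ≤
      (p - 1) * (fs R X \ fs (P : Subgroup G) X).ncard ∧
    (fs (P : Subgroup G) X \ FF p R X).Nonempty := by
  classical
  have hp : p.Prime := Fact.out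
  have hRδ : R ≤ stabilizer G δ := by rw [hR]; exact inf_le_right
  have hRP : R ≤ (P : Subgroup G) := by rw [hR]; exact inf_le_left
  have hRp : IsPGroup p R := P.isPGroup'.to_le hRP
  have hRlt : R < (P : Subgroup G) := by
    refine lt_of_le_of_ne hRP ?_
    intro h
    apply hδ
    rw [mem_fs, ← h]
    exact hRδ
  -- every Sylow subgroup satisfies the maximality
  have hmax' : ∀ Q : Sylow p G, ∀ x : X, x ∉ fs (Q : Subgroup G) X →
      Nat.card ((Q : Subgroup G) ⊓ stabilizer G x : Subgroup G) ≤ r := by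
    intro Q x hx
    obtain ⟨k, rfl⟩ := MulAction.exists_smul_eq G P Q
    rw [Sylow.coe_subgroup_smul] at hx ⊢
    have h1 : k⁻¹ • x ∉ fs (P : Subgroup G) X := by
      intro h
      apply hx
      have := (fs_smul (P : Subgroup G) k (k⁻¹ • x)).2 h
      rwa [smul_inv_smul] at this
    have h2 : MulAut.conj k • (P : Subgroup G) ⊓ stabilizer G x =
        MulAut.conj k • ((P : Subgroup G) ⊓ stabilizer G (k⁻¹ • x)) := by
      rw [smul_inf, ← stabilizer_smul', smul_inv_smul]
    rw [h2, card_conj]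
    exact hmax _ h1
  -- the normalizer is proper
  set V : Subgroup G := normalizer (R : Set G) with hV
  have hVne : V ≠ ⊤ := by
    intro h
    have hRn : R.Normal := normalizer_eq_top_iff.1 h
    have h1 : R ≤ ⊥ := by
      intro g hg
      rw [mem_bot]
      apply FaithfulSMul.eq_of_smul_eq_smul (α := X)
      intro x
      obtain ⟨k, rfl⟩ := MulAction.exists_smul_eq G δ x
      rw [one_smul]
      have h2 : k⁻¹ * g * k ∈ R := by
        have := hRn.conj_mem g hg k⁻¹
        rwa [inv_inv] at this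
      have h3 : (k⁻¹ * g * k) • δ = δ := hRδ h2
      rw [mul_smul, mul_smul, inv_smul_eq_iff] at h3
      exact h3
    rw [le_bot_iff] at h1
    rw [h1, Subgroup.card_bot] at hRr
    omega
  have hVcard : Nat.card V < Nat.card G := by
    have h1 := Subgroup.card_le_card_group V
    rcases h1.eq_or_lt with h2 | h2
    · exact absurd (Subgroup.card_eq_iff_eq_top V |>.1 h2) hVne
    · exact h2
  -- a Sylow subgroup of `V`
  set T0 : Subgroup G := (P : Subgroup G) ⊓ V with hT0
  have hT0card : r < Nat.card T0 := by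
    rw [← hRr]
    exact exists_normalizing_gt P.isPGroup' hRlt
  have hT0p : IsPGroup p T0 := P.isPGroup'.to_le inf_le_left
  have hT0V : T0 ≤ V := inf_le_right
  obtain ⟨S, hS⟩ : ∃ S : Sylow p V, T0.subgroupOf V ≤ S :=
    (hT0p.comap_of_injective V.subtype (subtype_injective V)).exists_le_sylow
  set Sg : Subgroup G := (S : Subgroup V).map V.subtype with hSg
  have hSgp : IsPGroup p Sg := S.isPGroup'.map _
  have hSgV : Sg ≤ V := map_subtype_le _
  have hT0Sg : T0 ≤ Sg := by
    have : (T0.subgroupOf V).map V.subtype = T0 := by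
      rw [subgroupOf_map_subtype, inf_eq_left.2 hT0V]
    rw [← this]
    exact map_mono hS
  obtain ⟨Ps, hPs⟩ := hSgp.exists_le_sylow
  have hcardfs : (fs (Ps : Subgroup G) X).ncard = (fs (P : Subgroup G) X).ncard := by
    obtain ⟨k, rfl⟩ := MulAction.exists_smul_eq G P Ps
    rw [Sylow.coe_subgroup_smul, ncard_fs_smul']
  have hsub1 : fs (Ps : Subgroup G) X ⊆ fs Sg X := fun x hx => hPs.trans hx
  have hsub2 : fs Sg X ⊆ fs (P : Subgroup G) X := by
    intro x hx
    by_contra hxP
    have h1 := hmax x hxP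
    have h2 : T0 ≤ (P : Subgroup G) ⊓ stabilizer G x := le_inf inf_le_left (hT0Sg.trans hx)
    have h3 := Subgroup.card_le_of_le h2
    omega
  have hPsP : fs (Ps : Subgroup G) X = fs (P : Subgroup G) X :=
    Set.eq_of_subset_of_ncard_le (hsub1.trans hsub2) hcardfs.ge (Set.toFinite _)
  have hSgP : fs Sg X = fs (P : Subgroup G) X :=
    subset_antisymm hsub2 (hPsP ▸ hsub1)
  -- the subgroup generated by the Sylow subgroups of `V`
  obtain ⟨W, hW⟩ : ∃ W : Subgroup V, W = plus p (⊤ : Subgroup V) := ⟨_, rfl⟩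
  have hWgen : PGen p W := by
    rw [hW]
    exact pGen_plus (P := S) le_top
  have hSW : ∀ S' : Sylow p V, (S' : Subgroup V) ≤ W := by
    intro S'
    rw [hW]
    exact le_plus le_top
  have hWcard : Nat.card W < Nat.card G :=
    lt_of_le_of_lt (Subgroup.card_le_card_group W) hVcard
  have hfsW : fs ((S.subtype (hSW S) : Sylow p W) : Subgroup W) X = fs (P : Subgroup G) X := by
    rw [fs_subtype (G := V) (hSW S), ← hSgP, hSg, fs_map_subtype]
  have hFF : ∀ x : X, stabilizer W x = ⊤ ↔ x ∈ FF p R X := by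
    intro x
    constructor
    · intro h T hT hTV t ht
      obtain ⟨S2, hS2⟩ := (hT.comap_of_injective V.subtype (subtype_injective V)).exists_le_sylow
      have h1 : (⟨t, hTV ht⟩ : V) ∈ W := hSW S2 (hS2 ht)
      have h2 : (⟨⟨t, hTV ht⟩, h1⟩ : W) ∈ stabilizer W x := by rw [h]; trivial
      exact h2
    · intro h
      rw [eq_top_iff]
      rintro ⟨w, hw⟩ _
      have h1 : W ≤ stabilizer V x := by
        rw [hW, plus_le_iff]
        intro Q _ q hq
        have h2 := h ((Q : Subgroup V).map V.subtype) (Q.isPGroup'.map _) (map_subtype_le _)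
          ⟨q, hq, rfl⟩
        exact h2
      exact h1 hw
  -- the sum over the orbits of `W`
  have hVR : ∀ v : V, ∀ x ∈ fs R X, v • x ∈ fs R X := by
    intro v x hx
    have h1 : MulAut.conj (v : G) • R = R := mem_normalizer_iff_smul.1 v.2
    have h2 := (fs_smul R (v : G) x).2 hx
    rw [h1] at h2
    exact h2
  set Y : Set X := fs R X \ FF p R X with hY
  have hYinv : ∀ w : W, ∀ y ∈ Y, w • y ∈ Y := by
    rintro w y ⟨hy1, hy2⟩
    refine ⟨hVR w y hy1, ?_⟩
    intro h
    apply hy2
    rw [← hFF] at h ⊢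
    have h1 : w⁻¹ ∈ stabilizer W (w • y) := by rw [h]; trivial
    rw [mem_stabilizer_iff, inv_smul_smul] at h1
    rw [h1, h]
  have hsum := sum_orbits (M := W) (A := fs ((S.subtype (hSW S) : Sylow p W) : Subgroup W) X)
    hYinv (c1 := 2 * p - 1) (c2 := p - 1) (by
      rintro y ⟨hy1, hy2⟩
      apply FS.orbit
      apply IH W hWcard hWgen
      intro h
      exact hy2 ((hFF y).1 h))
  rw [hfsW] at hsum
  have hPR : fs (P : Subgroup G) X ⊆ fs R X := fun x hx => hRP.trans hx
  have hFFP : ∀ x, x ∈ FF p R X → x ∈ fs (P : Subgroup G) X := by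
    intro x hx
    rw [← hSgP]
    exact hx Sg hSgp hSgV
  have e1 : fs (P : Subgroup G) X ∩ Y = fs (P : Subgroup G) X \ FF p R X := by
    ext x
    simp only [hY, Set.mem_inter_iff, Set.mem_diff]
    constructor
    · rintro ⟨h1, h2, h3⟩
      exact ⟨h1, h3⟩
    · rintro ⟨h1, h3⟩
      exact ⟨h1, hPR h1, h3⟩
  have e2 : Y = (fs (P : Subgroup G) X \ FF p R X) ∪ (fs R X \ fs (P : Subgroup G) X) := by
    ext x
    simp only [hY, Set.mem_union, Set.mem_diff]
    constructor
    · rintro ⟨h1, h2⟩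
      by_cases h3 : x ∈ fs (P : Subgroup G) X
      · left; exact ⟨h3, h2⟩
      · right; exact ⟨h1, h3⟩
    · rintro (⟨h1, h2⟩ | ⟨h1, h2⟩)
      · exact ⟨hPR h1, h2⟩
      · exact ⟨h1, fun h => h2 (hFFP x h)⟩
  have e3 : Y.ncard = (fs (P : Subgroup G) X \ FF p R X).ncard +
      (fs R X \ fs (P : Subgroup G) X).ncard := by
    rw [e2, Set.ncard_union_eq _ (Set.toFinite _) (Set.toFinite _)]
    rw [Set.disjoint_left]
    rintro x ⟨h1, h2⟩ ⟨h3, h4⟩
    exact h4 h1
  rw [e1, e3] at hsum
  refine ⟨?_, ?_⟩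
  · obtain ⟨q, rfl⟩ : ∃ q, p = q + 1 := ⟨p - 1, by have := hp.pos; omega⟩
    have h1 : 2 * (q + 1) - 1 = (q + 1) + q := by omega
    rw [h1, Nat.add_sub_cancel, add_mul, mul_add] at hsum
    rw [Nat.add_sub_cancel]
    omega
  · -- a point of `Γ` moved by `W`
    obtain ⟨γ, hγ⟩ := hne
    obtain ⟨g, hg⟩ := MulAction.exists_smul_eq G γ δ
    have hPδ : ((g • P : Sylow p G) : Subgroup G) ≤ stabilizer G δ := by
      rw [Sylow.coe_subgroup_smul, ← hg, stabilizer_smul']
      exact Subgroup.pointwise_smul_le_pointwise_smul_iff.2 hγ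
    obtain ⟨Q, hQ⟩ : ∃ Q : Sylow p (stabilizer G δ), R.subgroupOf (stabilizer G δ) ≤ Q :=
      (hRp.comap_of_injective (stabilizer G δ).subtype
        (subtype_injective (stabilizer G δ))).exists_le_sylow
    obtain ⟨Q', hQ'⟩ := exists_sylow_map hPδ Q
    have hRQ' : R ≤ (Q' : Subgroup G) := by
      have : (R.subgroupOf (stabilizer G δ)).map (stabilizer G δ).subtype = R := by
        rw [subgroupOf_map_subtype, inf_eq_left.2 hRδ]
      rw [hQ', ← this]
      exact map_mono hQ
    have hQ'δ : (Q' : Subgroup G) ≤ stabilizer G δ := by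
      rw [hQ']
      exact map_subtype_le _
    have hRQlt : R < (Q' : Subgroup G) := by
      refine lt_of_le_of_ne hRQ' ?_
      intro h
      have h1 : Nat.card Q' = Nat.card P := Nat.card_congr (Sylow.equiv Q' P).toEquiv
      have h2 : Nat.card R = Nat.card (P : Subgroup G) := by rw [h]; exact h1
      exact absurd (Subgroup.eq_of_le_of_card_ge hRP h2.ge) hRlt.ne
    set R2 : Subgroup G := (Q' : Subgroup G) ⊓ V with hR2
    have hR2card : r < Nat.card R2 := by
      rw [← hRr]
      exact exists_normalizing_gt Q'.isPGroup' hRQlt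
    have hR2p : IsPGroup p R2 := Q'.isPGroup'.to_le inf_le_left
    obtain ⟨S2, hS2⟩ := (hR2p.comap_of_injective V.subtype (subtype_injective V)).exists_le_sylow
    obtain ⟨w, hw⟩ := MulAction.exists_smul_eq W (S2.subtype (hSW S2)) (S.subtype (hSW S))
    -- conjugating `R2` into `Sg`
    have hconj : ∀ x ∈ R2, ((w : V) : G) * x * ((w : V) : G)⁻¹ ∈ Sg := by
      intro x hx
      have hxV : x ∈ V := hx.2
      have h1 : (⟨x, hxV⟩ : V) ∈ (S2 : Subgroup V) := hS2 hx
      have h2 : (⟨⟨x, hxV⟩, hSW S2 h1⟩ : W) ∈ ((S2.subtype (hSW S2) : Sylow p W) : Subgroup W) := by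
        rw [Sylow.coe_subtype, mem_subgroupOf]
        exact h1
      have h3 : w * ⟨⟨x, hxV⟩, hSW S2 h1⟩ * w⁻¹ ∈
          ((S.subtype (hSW S) : Sylow p W) : Subgroup W) := by
        rw [← hw, Sylow.coe_subgroup_smul, mem_pointwise_smul_iff_inv_smul_mem, ← map_inv,
          MulAut.smul_def, MulAut.conj_apply, inv_inv]
        have : w⁻¹ * (w * ⟨⟨x, hxV⟩, hSW S2 h1⟩ * w⁻¹) * w = ⟨⟨x, hxV⟩, hSW S2 h1⟩ := by group
        rw [this]
        exact h2
      rw [Sylow.coe_subtype, mem_subgroupOf] at h3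
      exact ⟨_, h3, rfl⟩
    have hle1 : MulAut.conj ((w : V) : G) • R2 ≤ Sg := by
      rintro _ ⟨x, hx, rfl⟩
      exact hconj x hx
    have hle2 : MulAut.conj ((w : V) : G) • R2 ≤ stabilizer G (((w : V) : G) • δ) := by
      rw [stabilizer_smul', Subgroup.pointwise_smul_le_pointwise_smul_iff]
      exact inf_le_left.trans hQ'δ
    refine ⟨((w : V) : G) • δ, ?_, ?_⟩
    · by_contra hx
      rw [← hPsP] at hx
      have h1 := hmax' Ps _ hx
      have h2 := Subgroup.card_le_of_le (le_inf (hle1.trans hPs) hle2)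
      rw [card_conj] at h2
      omega
    · intro h
      have h1 : stabilizer W (((w : V) : G) • δ) = ⊤ := (hFF _).2 h
      have h2 : w⁻¹ ∈ stabilizer W (((w : V) : G) • δ) := by rw [h1]; trivial
      have h3 : w⁻¹ • (((w : V) : G) • δ) = δ := inv_smul_smul w δ
      rw [mem_stabilizer_iff, h3] at h2
      rw [← h2] at h
      exact hδ (hFFP _ h)

end Cfsg.Agent.H401
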