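import Cfsg.Agent.H401.Subsets
import Cfsg.Agent.H401.Thirteen

/-!
# Orbits and fixed points
-/

set_option autoImplicit false
open Subgroup MulAction
open scoped Pointwise

namespace Cfsg.Agent.H401

universe u

section

variable {M X : Type*} [Group M] [MulAction M X]

theorem ncard_fs_orbit (y : X) (H : Subgroup M) :
    (fs H (M ⧸ stabilizer M y)).ncard = (fs H X ∩ orbit M y).ncard := by
  let e : M ⧸ stabilizer M y → X := ofQuotientStabilizer M y
  have he : Function.Injective e := injective_ofQuotientStabilizer M y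
  have hsm : ∀ (m : M) (q : M ⧸ stabilizer M y), e (m • q) = m • e q := fun m q =>
    ofQuotientStabilizer_smul M y m q
  have : fs H X ∩ orbit M y = e '' fs H (M ⧸ stabilizer M y) := by
    ext z
    constructor
    · rintro ⟨hz, m, rfl⟩
      refine ⟨(m : M ⧸ stabilizer M y), ?_, ofQuotientStabilizer_mk M y m⟩
      intro h hh
      apply he
      rw [hsm]
      have : e (m : M ⧸ stabilizer M y) = m • y := ofQuotientStabilizer_mk M y m
      rw [this]
      exact hz hh
    · rintro ⟨q, hq, rfl⟩
      refine ⟨?_, ?_⟩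
      · intro h hh
        rw [mem_stabilizer_iff, ← hsm]
        congr 1
        exact hq hh
      · obtain ⟨m, rfl⟩ := QuotientGroup.mk_surjective q
        exact ⟨m, (ofQuotientStabilizer_mk M y m).symm⟩
  rw [this, Set.ncard_image_of_injective _ he]

theorem card_quot_orbit (y : X) : Nat.card (M ⧸ stabilizer M y) = (orbit M y).ncard := by
  rw [← Nat.card_coe_set_eq, Nat.card_congr (orbitEquivQuotientStabilizer M y)]

/-- Summing an inequality over the orbits in an invariant set. -/
theorem sum_orbits [Finite X] {A Y : Set X} (hY : ∀ m : M, ∀ y ∈ Y, m • y ∈ Y) {c1 c2 : ℕ}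
    (h : ∀ y ∈ Y, c1 * (A ∩ orbit M y).ncard ≤ c2 * (orbit M y).ncard) :
    c1 * (A ∩ Y).ncard ≤ c2 * Y.ncard := by
  classical
  have : Fintype (orbitRel.Quotient M X) := Fintype.ofFinite _
  rw [ncard_eq_sum (fun x => (Quotient.mk _ x : orbitRel.Quotient M X)) (A ∩ Y),
    ncard_eq_sum (fun x => (Quotient.mk _ x : orbitRel.Quotient M X)) Y,
    Finset.mul_sum, Finset.mul_sum]
  apply Finset.sum_le_sum
  intro ω _
  rcases (Y ∩ {x | (Quotient.mk _ x : orbitRel.Quotient M X) = ω}).eq_empty_or_nonempty with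
    h0 | ⟨y, hy, hyω⟩
  · have : A ∩ Y ∩ {x | (Quotient.mk _ x : orbitRel.Quotient M X) = ω} = ∅ := by
      rw [Set.inter_assoc, h0, Set.inter_empty]
    rw [this, Set.ncard_empty, mul_zero]
    exact Nat.zero_le _
  · have hfib : {x : X | (Quotient.mk _ x : orbitRel.Quotient M X) = ω} = orbit M y := by
      ext x
      rw [← hyω]
      simp only [Set.mem_ofPred_eq]
      rw [Quotient.eq]
      exact orbitRel_apply
    have hsub : orbit M y ⊆ Y := by
      rintro _ ⟨m, rfl⟩
      exact hY m y hy
    rw [hfib, Set.inter_assoc, Set.inter_eq_right.2 hsub]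
    exact h y hy

/-- A subset on which a group acts semiregularly. -/
theorem card_dvd_ncard [Finite X] {P : Subgroup M} {S : Set X}
    (hS : ∀ m ∈ P, ∀ x ∈ S, m • x ∈ S) (h : ∀ x ∈ S, P ⊓ stabilizer M x = ⊥) :
    Nat.card P ∣ S.ncard := by
  let A : SubMulAction P X :=
    { carrier := S
      smul_mem' := fun g x hx => hS g g.2 x hx }
  have hst : ∀ b : A, stabilizer P b = ⊥ := by
    intro b
    rw [eq_bot_iff]
    intro g hg
    have h1 : (g : M) • (b : X) = b := congrArg Subtype.val hg
    have h2 : (g : M) ∈ P ⊓ stabilizer M (b : X) := ⟨g.2, h1⟩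
    rw [h _ b.2, mem_bot] at h2
    rw [mem_bot]
    exact Subtype.ext h2
  have e := selfEquivOrbitsQuotientProd hst
  have h1 : Nat.card A = S.ncard := Nat.card_coe_set_eq S
  rw [← h1, Nat.card_congr e, Nat.card_prod]
  exact dvd_mul_left _ _

end

section Norm

variable {G : Type*} [Group G] [Finite G] {p : ℕ} [Fact p.Prime]

/-- Normalizers grow in `p`-groups. -/
theorem exists_normalizing_gt {P R : Subgroup G} (hP : IsPGroup p P) (hR : R < P) :
    Nat.card R < Nat.card (P ⊓ normalizer (R : Set G) : Subgroup G) := by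
  have hnil := hP.isNilpotent
  have hlt : R.subgroupOf P < ⊤ := by
    rw [lt_top_iff_ne_top]
    intro h
    rw [subgroupOf_eq_top] at h
    exact absurd hR (not_lt_of_ge h)
  have h1 := normalizerCondition_of_isNilpotent (G := P) _ hlt
  obtain ⟨x, hx, hx'⟩ := SetLike.exists_of_lt h1
  have h2 : R ≤ P ⊓ normalizer (R : Set G) := le_inf hR.le le_normalizer
  have h3 : (x : G) ∈ P ⊓ normalizer (R : Set G) := by
    refine ⟨x.2, ?_⟩
    rw [mem_normalizer_iff] at hx
    refine mem_normalizer_iff.2 ?_
    intro r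
    constructor
    · intro hr
      have h4 := (hx ⟨r, hR.le hr⟩).1 (by rw [mem_subgroupOf]; exact hr)
      rw [mem_subgroupOf] at h4
      simpa using h4
    · intro hr
      have hrP : r ∈ P := by
        have h5 := P.mul_mem (P.mul_mem (P.inv_mem x.2) (hR.le hr)) x.2
        have : (x : G)⁻¹ * ((x : G) * r * (x : G)⁻¹) * x = r := by group
        rwa [this] at h5
      have h4 := (hx ⟨r, hrP⟩).2 (by
        rw [mem_subgroupOf]
        simpa using hr)
      rw [mem_subgroupOf] at h4
      exact h4
  by_contra hcon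
  rw [not_lt] at hcon
  have h4 := Subgroup.eq_of_le_of_card_ge h2 hcon
  apply hx'
  rw [mem_subgroupOf, h4]
  exact h3

end Norm

end Cfsg.Agent.H401
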