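import Mathlib

/-!
# Subgroups generated by Sylow subgroups

`plus p H` is the subgroup generated by the Sylow `p`-subgroups of `G` contained in `H`.
`PGen p G` says that `G` is generated by its Sylow `p`-subgroups.
-/

set_option autoImplicit false
open Subgroup MulAction
open scoped Pointwise

namespace Cfsg.Agent.H401

variable {G : Type*} [Group G] {p : ℕ}

/-- The subgroup generated by the Sylow `p`-subgroups of `G` contained in `H`. -/
def plus (p : ℕ) (H : Subgroup G) : Subgroup G :=
  Subgroup.closure {g | ∃ Q : Sylow p G, (Q : Subgroup G) ≤ H ∧ g ∈ (Q : Subgroup G)}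

theorem plus_le_iff {H K : Subgroup G} :
    plus p H ≤ K ↔ ∀ Q : Sylow p G, (Q : Subgroup G) ≤ H → (Q : Subgroup G) ≤ K := by
  unfold plus
  rw [closure_le]
  constructor
  · intro h Q hQ g hg
    exact h ⟨Q, hQ, hg⟩
  · rintro h g ⟨Q, hQ, hg⟩
    exact h Q hQ hg

theorem plus_le (H : Subgroup G) : plus p H ≤ H := plus_le_iff.2 fun _ h => h

theorem le_plus {H : Subgroup G} {Q : Sylow p G} (h : (Q : Subgroup G) ≤ H) :
    (Q : Subgroup G) ≤ plus p H := fun _ hg => subset_closure ⟨Q, h, hg⟩

theorem plus_mono {H K : Subgroup G} (h : H ≤ K) : plus p H ≤ plus p K :=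
  plus_le_iff.2 fun _ hQ => le_plus (hQ.trans h)

theorem sylow_le_plus_iff {H : Subgroup G} {Q : Sylow p G} :
    (Q : Subgroup G) ≤ plus p H ↔ (Q : Subgroup G) ≤ H :=
  ⟨fun h => h.trans (plus_le H), le_plus⟩

theorem plus_plus (H : Subgroup G) : plus p (plus p H) = plus p H :=
  le_antisymm (plus_le _) (plus_le_iff.2 fun _ hQ => le_plus (le_plus hQ))

theorem le_plus_iff_of_plus_le {H K : Subgroup G} : plus p H ≤ K ↔ plus p H ≤ plus p K := by
  constructor
  · intro h
    rw [← plus_plus H]
    exact plus_mono h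
  · intro h
    exact h.trans (plus_le K)

theorem smul_plus_le (g : G) (H : Subgroup G) :
    MulAut.conj g • plus p H ≤ plus p (MulAut.conj g • H) := by
  rw [Subgroup.pointwise_smul_subset_iff, plus_le_iff]
  intro Q hQ
  rw [← Subgroup.pointwise_smul_subset_iff]
  have : MulAut.conj g • (Q : Subgroup G) = ((g • Q : Sylow p G) : Subgroup G) := by
    rw [Sylow.coe_subgroup_smul]
  rw [this]
  apply le_plus
  rw [← this]
  exact Subgroup.pointwise_smul_le_pointwise_smul_iff.2 hQ

theorem smul_plus (g : G) (H : Subgroup G) :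
    MulAut.conj g • plus p H = plus p (MulAut.conj g • H) := by
  apply le_antisymm (smul_plus_le g H)
  have h := smul_plus_le (p := p) g⁻¹ (MulAut.conj g • H)
  rw [map_inv, inv_smul_smul] at h
  rwa [← Subgroup.subset_pointwise_smul_iff] at h

theorem conj_smul_eq_map (g : G) (H : Subgroup G) :
    MulAut.conj g • H = H.map (MulAut.conj g).toMonoidHom := rfl

theorem mem_normalizer_iff_smul {H : Subgroup G} {g : G} :
    g ∈ Subgroup.normalizer (H : Set G) ↔ MulAut.conj g • H = H := by
  rw [mem_normalizer_iff_map_conj_eq]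
  rfl

theorem smul_eq_of_mem {H : Subgroup G} {g : G} (hg : g ∈ H) : MulAut.conj g • H = H :=
  mem_normalizer_iff_smul.1 (le_normalizer hg)

theorem le_normalizer_plus (H : Subgroup G) : H ≤ normalizer (plus p H : Set G) := by
  intro h hh
  rw [mem_normalizer_iff_smul, smul_plus, smul_eq_of_mem hh]

/-- `G` is generated by its Sylow `p`-subgroups. -/
def PGen (p : ℕ) (G : Type*) [Group G] : Prop := plus p (⊤ : Subgroup G) = ⊤

theorem PGen.eq_top (hG : PGen p G) {H : Subgroup G} (h : ∀ Q : Sylow p G, (Q : Subgroup G) ≤ H) :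
    H = ⊤ := by
  rw [eq_top_iff, ← (show plus p (⊤ : Subgroup G) = ⊤ from hG), plus_le_iff]
  exact fun Q _ => h Q

section Fin
variable [Finite G] [Fact p.Prime]

theorem PGen.eq_top_of_normal (hG : PGen p G) {H : Subgroup G} (hn : H.Normal) {P : Sylow p G}
    (hP : (P : Subgroup G) ≤ H) : H = ⊤ := by
  apply hG.eq_top
  intro Q
  obtain ⟨g, rfl⟩ := MulAction.exists_smul_eq G P Q
  rw [Sylow.coe_subgroup_smul, Subgroup.pointwise_smul_subset_iff, ← map_inv]
  intro x hx
  rw [mem_pointwise_smul_iff_inv_smul_mem, ← map_inv, inv_inv]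
  simpa [MulAut.smul_def] using hn.conj_mem x (hP hx) g

theorem normalizer_plus_eq (hG : PGen p G) {H : Subgroup G} (hH : IsCoatom H) {P : Sylow p G}
    (hP : (P : Subgroup G) ≤ H) : normalizer (plus p H : Set G) = H := by
  rcases (le_normalizer_plus (p := p) H).eq_or_lt with h | h
  · exact h.symm
  · exfalso
    have h1 := hH.2 _ h
    rw [normalizer_eq_top_iff] at h1
    have h2 := hG.eq_top_of_normal h1 (le_plus hP)
    have h3 := plus_le (p := p) H
    rw [h2, top_le_iff] at h3
    exact hH.1 h3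

theorem mem_of_smul_plus_eq (hG : PGen p G) {H : Subgroup G} (hH : IsCoatom H) {P : Sylow p G}
    (hP : (P : Subgroup G) ≤ H) {g : G} (h : MulAut.conj g • plus p H = plus p H) : g ∈ H := by
  rw [← normalizer_plus_eq hG hH hP, mem_normalizer_iff_smul]
  exact h

theorem eq_of_plus_eq (hG : PGen p G) {H K : Subgroup G} (hH : IsCoatom H) (hK : IsCoatom K)
    {P : Sylow p G} (hP : (P : Subgroup G) ≤ H) (h : plus p H = plus p K) : H = K := by
  rw [← normalizer_plus_eq hG hH hP, h, normalizer_plus_eq hG hK (P := P)]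
  rw [← sylow_le_plus_iff, ← h, sylow_le_plus_iff]
  exact hP

omit [Fact p.Prime] in
theorem eq_of_smul_le {H K : Subgroup G} {g : G} (hK : K = MulAut.conj g • H) (h : H ≤ K) :
    H = K := by
  apply Subgroup.eq_of_le_of_card_ge h
  rw [hK]
  exact le_of_eq (Nat.card_congr (Subgroup.equivSMul (MulAut.conj g) H).toEquiv).symm

/-- The set of points fixed by `H`. -/
def fs (H : Subgroup G) (X : Type*) [MulAction G X] : Set X := {x | H ≤ stabilizer G x}

omit [Finite G] in
theorem mem_fs {H : Subgroup G} {X : Type*} [MulAction G X] {x : X} :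
    x ∈ fs H X ↔ H ≤ stabilizer G x := Iff.rfl

omit [Finite G] in
theorem fs_eq_fixedPoints (H : Subgroup G) (X : Type*) [MulAction G X] :
    fs H X = fixedPoints H X := by
  ext x
  simp only [mem_fs, mem_fixedPoints, Subtype.forall]
  rfl

omit [Finite G] in
theorem stabilizer_smul' {X : Type*} [MulAction G X] (g : G) (x : X) :
    stabilizer G (g • x) = MulAut.conj g • stabilizer G x :=
  stabilizer_smul_eq_stabilizer_map_conj g x

theorem eq_of_plus_le {X : Type*} [MulAction G X] [IsPreprimitive G X] [Nontrivial X]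
    (hG : PGen p G) {P : Sylow p G} {β γ : X} (hP : (P : Subgroup G) ≤ stabilizer G β)
    (h : plus p (stabilizer G β) ≤ stabilizer G γ) : γ = β := by
  obtain ⟨g, hg⟩ := MulAction.exists_smul_eq G β γ
  have hco : IsCoatom (stabilizer G β) := IsPreprimitive.isCoatom_stabilizer_of_isPreprimitive _ _
  have h1 : plus p (stabilizer G γ) = MulAut.conj g • plus p (stabilizer G β) := by
    rw [smul_plus, ← stabilizer_smul', hg]
  have h2 := eq_of_smul_le h1 (le_plus_iff_of_plus_le.1 h)
  have h3 := mem_of_smul_plus_eq hG hco hP (g := g) (by rw [← h1, h2])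
  rw [← hg]
  exact h3

end Fin

end Cfsg.Agent.H401
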