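import Mathlib
import Cfsg.Agent.H952.S7.Defs2

/-!
# S5927, S5928: the threefold cover of `A₇`, characteristic 2: the Hecke operator (helper401, box B1 of helper952)

* `fam_ext` : a family is determined by its vector number 0;
* `hm_fam`, `hm_fix`, `hm_eD` : the image of a family under the Hecke operator;
* `hfix` : a family whose vector number 0 is killed by `eD` is fixed by the Hecke operator.
-/

set_option autoImplicit false
set_option linter.unusedSectionVars false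

namespace Cfsg.Agent.H401.S7B1

open Cfsg Cfsg.Lie Module
open Cfsg.Agent.ChevalleyStructure.E6Min.Tables
open Cfsg.Agent.H952.S7

universe u

/-! ### tables -/

/-- inverse of `sp` -/
def spi : Fin 21 → Fin 21 :=
  ![0, 5, 1, 2, 3, 4, 10, 6, 7, 8, 9, 15, 11, 12, 13, 14, 20, 16, 17, 18, 19]

/-- inverse of `tp` -/
def tpi : Fin 21 → Fin 21 :=
  ![1, 6, 11, 16, 19, 15, 0, 2, 3, 4, 5, 7, 12, 13, 14, 10, 8, 17, 18, 9, 20]

/-- `ω ^ nt p` -/
def wt : Fin 21 → KF := fun p => KF.mk (([1, 2, 3] : List ℕ).getD (nt p) 0)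

/-- `ω ^ (- nt p)` -/
def wt' : Fin 21 → KF := fun p => KF.mk (([1, 3, 2] : List ℕ).getD (nt p) 0)

def aS (c : Fin 21 → KF) : Fin 21 → KF := fun q => c (spi q)
def aT (c : Fin 21 → KF) : Fin 21 → KF := fun q => c (tpi q) * wt (tpi q)
def aS' (c : Fin 21 → KF) : Fin 21 → KF := fun q => c (sp q)
def aT' (c : Fin 21 → KF) : Fin 21 → KF := fun q => c (tp q) * wt' q

def spE : Equiv.Perm (Fin 21) := ⟨sp, spi, by decide, by decide⟩
def tpE : Equiv.Perm (Fin 21) := ⟨tp, tpi, by decide, by decide⟩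

/-- the vector number 0 -/
def e0 : Fin 21 → KF := fun q => if q = 0 then 1 else 0

/-- the action of `yw` -/
def ay (c : Fin 21 → KF) : Fin 21 → KF := aT (aS' (aS' (aT' (aS' (aT (aS c))))))

def aST (c : Fin 21 → KF) : Fin 21 → KF := aS (aT c)

/-- `eD` of the vector number 0 -/
def r0 : Fin 21 → KF := fun q => KF.mk (([1, 1, 3, 1, 3, 1, 3, 1, 2, 1, 3, 3, 1, 1, 3, 3, 3, 2, 3, 1, 1] : List ℕ).getD q 0)

theorem r0_eq : ∀ q, ∑ j : Fin 3, ∑ i : Fin 7, (ay^[(j : ℕ)] (aST^[(i : ℕ)] e0)) q = r0 q := by decide +kernel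

/-- the Hecke operator as a function -/
def hm : Fin 21 → Fin 21 → KF := Hm

/-- `T S T⁻¹ S⁻¹ T` of `r0` etc. -/
def c0 : Fin 21 → KF := fun q =>
  KF.mk 3 * aT (aS (aT' (aS' (aT r0)))) q + KF.mk 3 * aT (aS (aT (aS' (aT r0)))) q + KF.mk 2 * aT' (aS' (aT' r0)) q

theorem c0_eq : ∀ q, ∑ i : Fin 5, (aS^[(i : ℕ)] c0) q = e0 q + hm 0 q := by decide +kernel

theorem r0_Hm : ∀ q, ∑ p, r0 p * hm p q = 0 := by decide +kernel

theorem Hm_Hm : ∀ p q, ∑ k, hm p k * hm k q = hm p q := by decide +kernel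

theorem Hm_sp : ∀ p q, hm (sp p) (sp q) = hm p q := by decide +kernel

theorem Hm_tp : ∀ p q, hm p q * wt q = wt p * hm (tp p) (tp q) := by decide +kernel

/-! ### linear combinations -/

section lin

variable {F : Type u} [Field F] {ω : F} {M : Type*} [AddCommGroup M] [Module F M]

theorem io_wt (hω : ω * ω = ω + 1) (p : Fin 21) : KF.io ω (wt p) = ω ^ nt p := by
  have h1 : ∀ p : Fin 21, nt p = 0 ∨ nt p = 1 ∨ nt p = 2 := by decide
  unfold wt
  rcases h1 p with h | h | h <;> rw [h]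
  · show KF.io ω 1 = ω ^ 0
    rw [KF.io_one, pow_zero]
  · show KF.io ω (KF.mk 2) = ω ^ 1
    rw [KF.io_two, pow_one]
  · show KF.io ω (KF.mk 3) = ω ^ 2
    rw [KF.io_three, pow_two, hω, add_comm]

theorem wt_wt' (p : Fin 21) : wt' p * wt p = 1 := by
  revert p
  decide

theorem lin_add (h2 : (2 : F) = 0) (c d : Fin 21 → KF) (v : Fin 21 → M) :
    lin ω (fun q => c q + d q) v = lin ω c v + lin ω d v := by
  unfold lin
  rw [← Finset.sum_add_distrib]
  exact Finset.sum_congr rfl fun i _ => by rw [KF.io_add h2, add_smul]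

theorem lin_mul (h2 : (2 : F) = 0) (hω : ω * ω = ω + 1) (k : KF) (c : Fin 21 → KF) (v : Fin 21 → M) :
    lin ω (fun q => k * c q) v = KF.io ω k • lin ω c v := by
  unfold lin
  rw [Finset.smul_sum]
  exact Finset.sum_congr rfl fun i _ => by rw [KF.io_mul h2 hω, mul_smul]

theorem lin_zero (v : Fin 21 → M) : lin ω (fun _ => (0 : KF)) v = 0 := by
  unfold lin
  exact Finset.sum_eq_zero fun i _ => by rw [KF.io_zero, zero_smul]

theorem lin_sum (h2 : (2 : F) = 0) {ι : Type*} (s : Finset ι) (c : ι → Fin 21 → KF) (v : Fin 21 → M) :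
    lin ω (fun q => ∑ i ∈ s, c i q) v = ∑ i ∈ s, lin ω (c i) v := by
  classical
  induction s using Finset.induction_on with
  | empty =>
    rw [Finset.sum_empty]
    exact lin_zero v
  | insert a s ha ih =>
    rw [Finset.sum_insert ha, ← ih, ← lin_add h2]
    congr 1
    funext q
    rw [Finset.sum_insert ha]

theorem lin_e0 (v : Fin 21 → M) : lin ω e0 v = v 0 := by
  unfold lin e0
  rw [Finset.sum_eq_single 0]
  · rw [if_pos rfl, KF.io_one, one_smul]
  · intro j _ hj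
    rw [if_neg hj, KF.io_zero, zero_smul]
  · intro h; exact absurd (Finset.mem_univ _) h

theorem lin_lin (h2 : (2 : F) = 0) (hω : ω * ω = ω + 1) (c : Fin 21 → KF) (d : Fin 21 → Fin 21 → KF) (v : Fin 21 → M) :
    lin ω c (fun p => lin ω (d p) v) = lin ω (fun q => ∑ p, c p * d p q) v := by
  rw [lin_sum h2]
  unfold lin
  refine Finset.sum_congr rfl fun p _ => ?_
  rw [Finset.smul_sum]
  exact Finset.sum_congr rfl fun q _ => by rw [KF.io_mul h2 hω, mul_smul]

end lin

section act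

variable {F : Type u} [Field F] {ω : F} {G : Type*} [Group G] {σ : Representation F G (I27 → F)} {S T : G}
  {v f g : Fin 21 → I27 → F}

/-- action on linear combinations -/
def Im (ω : F) (σ : Representation F G (I27 → F)) (v : Fin 21 → I27 → F) (g : G) (A : (Fin 21 → KF) → Fin 21 → KF) : Prop :=
  ∀ c, σ g (lin ω c v) = lin ω (A c) v

theorem app_mul (g h : G) (x : I27 → F) : σ (g * h) x = σ g (σ h x) := by rw [map_mul]; rfl

theorem app_one (x : I27 → F) : σ 1 x = x := by rw [map_one]; rfl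

theorem Im.mul {g h : G} {A B : (Fin 21 → KF) → Fin 21 → KF} (hA : Im ω σ v g A) (hB : Im ω σ v h B) :
    Im ω σ v (g * h) (fun c => A (B c)) := by
  intro c
  rw [app_mul, hB, hA]

theorem Im.pow {g : G} {A : (Fin 21 → KF) → Fin 21 → KF} (hA : Im ω σ v g A) (n : ℕ) : Im ω σ v (g ^ n) (A^[n]) := by
  induction n with
  | zero =>
    intro c
    rw [pow_zero, app_one]
    rfl
  | succ n ih =>
    intro c
    rw [pow_succ', app_mul, ih, hA, Function.iterate_succ_apply']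

theorem Im.inv {g : G} {A B : (Fin 21 → KF) → Fin 21 → KF} (hA : Im ω σ v g A) (hAB : ∀ c, A (B c) = c) :
    Im ω σ v g⁻¹ B := by
  intro c
  have h1 := hA (B c)
  rw [hAB] at h1
  rw [← h1, ← app_mul, inv_mul_cancel, app_one]

theorem im_S (hv : Fam ω σ S T v) : Im ω σ v S aS := by
  intro c
  unfold lin aS
  rw [map_sum]
  refine Eq.trans ?_ (Equiv.sum_comp spE _)
  refine Finset.sum_congr rfl fun p _ => ?_
  have h1 : spi (spE p) = p := spE.symm_apply_apply p
  rw [map_smul, hv.s, h1]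
  rfl

theorem im_T (h2 : (2 : F) = 0) (hω : ω * ω = ω + 1) (hv : Fam ω σ S T v) : Im ω σ v T aT := by
  intro c
  unfold lin aT
  rw [map_sum]
  refine Eq.trans ?_ (Equiv.sum_comp tpE _)
  refine Finset.sum_congr rfl fun p _ => ?_
  have h1 : tpi (tpE p) = p := tpE.symm_apply_apply p
  rw [map_smul, hv.t, h1, KF.io_mul h2 hω, io_wt hω, mul_smul]
  rfl

theorem im_S' (hv : Fam ω σ S T v) : Im ω σ v S⁻¹ aS' := by
  refine (im_S hv).inv fun c => ?_
  funext q
  show c (sp (spi q)) = c q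
  rw [show sp (spi q) = q from spE.apply_symm_apply q]

theorem im_T' (h2 : (2 : F) = 0) (hω : ω * ω = ω + 1) (hv : Fam ω σ S T v) : Im ω σ v T⁻¹ aT' := by
  refine (im_T h2 hω hv).inv fun c => ?_
  funext q
  show c (tp (tpi q)) * wt' (tpi q) * wt (tpi q) = c q
  rw [show tp (tpi q) = q from tpE.apply_symm_apply q, mul_assoc, wt_wt', mul_one]

theorem im_yw (h2 : (2 : F) = 0) (hω : ω * ω = ω + 1) (hv : Fam ω σ S T v) : Im ω σ v (yw S T) ay :=
  ((((((im_T h2 hω hv).mul (im_S' hv)).mul (im_S' hv)).mul (im_T' h2 hω hv)).mul (im_S' hv)).mul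
    (im_T h2 hω hv)).mul (im_S hv)

theorem im_ST (h2 : (2 : F) = 0) (hω : ω * ω = ω + 1) (hv : Fam ω σ S T v) : Im ω σ v (S * T) aST :=
  (im_S hv).mul (im_T h2 hω hv)

/-- `eD` of the vector number 0 -/
theorem eD_zero (h2 : (2 : F) = 0) (hω : ω * ω = ω + 1) (hv : Fam ω σ S T v) : eD σ S T (v 0) = lin ω r0 v := by
  have h1 : r0 = fun q => ∑ j : Fin 3, ∑ i : Fin 7, (ay^[(j : ℕ)] (aST^[(i : ℕ)] e0)) q := funext fun q => (r0_eq q).symm
  rw [h1, lin_sum h2]
  unfold eD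
  rw [LinearMap.sum_apply]
  refine Finset.sum_congr rfl fun j _ => ?_
  rw [lin_sum h2, LinearMap.sum_apply]
  refine Finset.sum_congr rfl fun i _ => ?_
  have h3 := ((im_yw h2 hω hv).pow (j : ℕ)).mul ((im_ST h2 hω hv).pow (i : ℕ)) e0
  rw [lin_e0] at h3
  exact h3

theorem omega_ne (hω : ω * ω = ω + 1) : ω ≠ 0 := by
  rintro rfl
  simp at hω

/-- uniqueness of families -/
theorem fam_ext (hω : ω * ω = ω + 1) (hf : Fam ω σ S T f) (h0 : f 0 = 0) : ∀ p, f p = 0 := by
  have hs : ∀ p q, sp p = q → f p = 0 → f q = 0 := by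
    rintro p _ rfl hp
    rw [← hf.s, hp, map_zero]
  have ht : ∀ p q, tp p = q → f p = 0 → f q = 0 := by
    rintro p _ rfl hp
    have h1 := hf.t p
    rw [hp, map_zero] at h1
    exact (smul_eq_zero.1 h1.symm).resolve_left (pow_ne_zero _ (omega_ne hω))
  have h6 := ht 0 6 (by decide) h0
  have h7 := hs 6 7 (by decide) h6
  have h8 := hs 7 8 (by decide) h7
  have h9 := hs 8 9 (by decide) h8
  have h10 := hs 9 10 (by decide) h9
  have h1 := ht 6 1 (by decide) h6
  have h2 := hs 1 2 (by decide) h1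
  have h3 := hs 2 3 (by decide) h2
  have h4 := hs 3 4 (by decide) h3
  have h5 := hs 4 5 (by decide) h4
  have h11 := ht 7 11 (by decide) h7
  have h12 := hs 11 12 (by decide) h11
  have h13 := hs 12 13 (by decide) h12
  have h14 := hs 13 14 (by decide) h13
  have h15 := hs 14 15 (by decide) h14
  have h16 := ht 8 16 (by decide) h8
  have h17 := hs 16 17 (by decide) h16
  have h18 := hs 17 18 (by decide) h17
  have h19 := hs 18 19 (by decide) h18
  have h20 := hs 19 20 (by decide) h19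
  intro p
  fin_cases p <;> assumption

theorem fam_sub (hf : Fam ω σ S T f) (hg : Fam ω σ S T g) : Fam ω σ S T fun p => f p - g p where
  s p := by rw [map_sub, hf.s, hg.s]
  t p := by rw [map_sub, hf.t, hg.t, smul_sub]

theorem fam_eq (hω : ω * ω = ω + 1) (hf : Fam ω σ S T f) (hg : Fam ω σ S T g) (h0 : f 0 = g 0) : ∀ p, f p = g p :=
  fun p => sub_eq_zero.1 (fam_ext hω (fam_sub hf hg) (sub_eq_zero.2 h0) p)

/-- the Hecke operator commutes -/
theorem hm_fam (h2 : (2 : F) = 0) (hω : ω * ω = ω + 1) (hv : Fam ω σ S T v) :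
    Fam ω σ S T fun p => lin ω (hm p) v where
  s p := by
    rw [im_S hv]
    congr 1
    funext q
    show hm p (spi q) = hm (sp p) q
    rw [← Hm_sp, show sp (spi q) = q from spE.apply_symm_apply q]
  t p := by
    rw [im_T h2 hω hv, ← io_wt hω, ← lin_mul h2 hω]
    congr 1
    funext q
    show hm p (tpi q) * wt (tpi q) = wt p * hm (tp p) q
    rw [Hm_tp, show tp (tpi q) = q from tpE.apply_symm_apply q]

theorem hm_fix (h2 : (2 : F) = 0) (hω : ω * ω = ω + 1) (v : Fin 21 → I27 → F) : HFix ω fun p => lin ω (hm p) v := by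
  intro p
  show lin ω (hm p) v = lin ω (hm p) fun p => lin ω (hm p) v
  rw [lin_lin h2 hω]
  congr 1
  exact funext fun q => (Hm_Hm p q).symm

theorem hm_eD (h2 : (2 : F) = 0) (hω : ω * ω = ω + 1) (hv : Fam ω σ S T v) : eD σ S T (lin ω (hm 0) v) = 0 := by
  have h1 := eD_zero h2 hω (hm_fam h2 hω hv)
  rw [h1, lin_lin h2 hω]
  have h3 : (fun q => ∑ p, r0 p * hm p q) = fun _ => (0 : KF) := funext r0_Hm
  rw [h3, lin_zero]

/-- families fixed by the Hecke operator are killed by `eD` -/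
theorem eD_of_fix (h2 : (2 : F) = 0) (hω : ω * ω = ω + 1) (hv : Fam ω σ S T v) (hH : HFix ω v) : eD σ S T (v 0) = 0 := by
  rw [hH 0]
  exact hm_eD h2 hω hv

/-- **B1** -/
theorem hfix (h2 : (2 : F) = 0) (hω : ω * ω = ω + 1) (hv : Fam ω σ S T v) (hD : eD σ S T (v 0) = 0) : HFix ω v := by
  have hr : lin ω r0 v = 0 := by rw [← eD_zero h2 hω hv, hD]
  have i1 := ((((im_T h2 hω hv).mul (im_S hv)).mul (im_T' h2 hω hv)).mul (im_S' hv)).mul (im_T h2 hω hv) r0
  have i2 := ((((im_T h2 hω hv).mul (im_S hv)).mul (im_T h2 hω hv)).mul (im_S' hv)).mul (im_T h2 hω hv) r0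
  have i3 := ((im_T' h2 hω hv).mul (im_S' hv)).mul (im_T' h2 hω hv) r0
  rw [hr, map_zero] at i1 i2 i3
  have hc : lin ω c0 v = 0 := by
    have h3 : c0 = fun q => (KF.mk 3 * aT (aS (aT' (aS' (aT r0)))) q + KF.mk 3 * aT (aS (aT (aS' (aT r0)))) q) +
      KF.mk 2 * aT' (aS' (aT' r0)) q := rfl
    rw [h3, lin_add h2, lin_add h2, lin_mul h2 hω, lin_mul h2 hω, lin_mul h2 hω, ← i1, ← i2, ← i3, smul_zero, smul_zero,
      add_zero, add_zero]
  have h4 : lin ω (fun q => e0 q + hm 0 q) v = 0 := by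
    have h5 : (fun q => e0 q + hm 0 q) = fun q => ∑ i : Fin 5, (aS^[(i : ℕ)] c0) q := funext fun q => (c0_eq q).symm
    rw [h5, lin_sum h2]
    refine Finset.sum_eq_zero fun i _ => ?_
    rw [← (im_S hv).pow (i : ℕ) c0, hc, map_zero]
  rw [lin_add h2, lin_e0] at h4
  refine fam_eq hω hv (hm_fam h2 hω hv) ?_
  have h6 : lin ω (hm 0) v + lin ω (hm 0) v = 0 := by rw [← two_smul F, h2, zero_smul]
  calc v 0 = v 0 + (lin ω (hm 0) v + lin ω (hm 0) v) := by rw [h6, add_zero]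
    _ = (v 0 + lin ω (hm 0) v) + lin ω (hm 0) v := by abel
    _ = lin ω (hm 0) v := by rw [h4, zero_add]

/-- `hm_fam` in terms of `Hm` -/
theorem Hm_fam (h2 : (2 : F) = 0) (hω : ω * ω = ω + 1) (hv : Fam ω σ S T v) :
    Fam ω σ S T fun p => lin ω (Hm p) v := hm_fam h2 hω hv

theorem Hm_fix (h2 : (2 : F) = 0) (hω : ω * ω = ω + 1) (v : Fin 21 → I27 → F) : HFix ω fun p => lin ω (Hm p) v :=
  hm_fix h2 hω v

theorem Hm_eD (h2 : (2 : F) = 0) (hω : ω * ω = ω + 1) (hv : Fam ω σ S T v) : eD σ S T (lin ω (Hm 0) v) = 0 :=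
  hm_eD h2 hω hv

end act

end Cfsg.Agent.H401.S7B1
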