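import Cfsg.Agent.H401.Plus

set_option autoImplicit false
open Subgroup MulAction
open scoped Pointwise

namespace Cfsg.Agent.H401

variable {G : Type*} [Group G] {p : ℕ} [Finite G] [Fact p.Prime]

/-- A Sylow subgroup of a subgroup containing a Sylow subgroup is Sylow. -/
theorem exists_sylow_map {M : Subgroup G} {P : Sylow p G} (hP : (P : Subgroup G) ≤ M)
    (Q : Sylow p M) : ∃ Q' : Sylow p G, (Q' : Subgroup G) = (Q : Subgroup M).map M.subtype := by
  obtain ⟨m, hm⟩ := MulAction.exists_smul_eq M (P.subtype hP) Q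
  refine ⟨(m : G) • P, ?_⟩
  rw [← hm, Sylow.coe_subgroup_smul, Sylow.coe_subgroup_smul, Sylow.coe_subtype]
  ext x
  simp only [mem_pointwise_smul_iff_inv_smul_mem, mem_map, coe_subtype, Subtype.exists,
    ← map_inv, MulAut.smul_def, MulAut.conj_apply, mem_subgroupOf]
  constructor
  · intro h
    have hx : x ∈ M := by
      have := M.mul_mem (M.mul_mem m.2 (hP h)) (M.inv_mem m.2)
      simpa [mul_assoc] using this
    exact ⟨x, hx, by simpa using h, rfl⟩
  · rintro ⟨y, hy, h, rfl⟩
    simpa using h

theorem exists_sylow_of_map {M : Subgroup G} {Q' : Sylow p G} (hQ : (Q' : Subgroup G) ≤ M) :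
    ∃ Q : Sylow p M, (Q : Subgroup M) = (Q' : Subgroup G).subgroupOf M :=
  ⟨Q'.subtype hQ, Sylow.coe_subtype _ _⟩

theorem map_plus {M : Subgroup G} {P : Sylow p G} (hP : (P : Subgroup G) ≤ M) (U : Subgroup M) :
    (plus p U).map M.subtype = plus p (U.map M.subtype) := by
  apply le_antisymm
  · rw [map_le_iff_le_comap, plus_le_iff]
    intro Q hQ
    obtain ⟨Q', hQ'⟩ := exists_sylow_map hP Q
    rw [← map_le_iff_le_comap, ← hQ']
    apply le_plus
    rw [hQ']
    exact map_mono hQ
  · rw [plus_le_iff]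
    intro Q' hQ'
    have hQM : (Q' : Subgroup G) ≤ M := hQ'.trans (map_subtype_le _)
    obtain ⟨Q, hQ⟩ := exists_sylow_of_map hQM
    have : (Q' : Subgroup G) = (Q : Subgroup M).map M.subtype := by
      rw [hQ, subgroupOf_map_subtype, inf_eq_left.2 hQM]
    rw [this]
    apply map_mono
    apply le_plus
    rw [hQ, subgroupOf, ← comap_map_eq_self_of_injective (subtype_injective M) U]
    exact comap_mono hQ'

theorem pGen_plus {H : Subgroup G} {P : Sylow p G} (hP : (P : Subgroup G) ≤ H) :
    PGen p (plus p H) := by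
  have hPM : (P : Subgroup G) ≤ plus p H := le_plus hP
  have h := map_plus hPM (⊤ : Subgroup (plus p H))
  rw [← MonoidHom.range_eq_map, range_subtype, plus_plus] at h
  unfold PGen
  apply map_injective (subtype_injective (plus p H))
  rw [h, ← MonoidHom.range_eq_map, range_subtype]

end Cfsg.Agent.H401
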