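import Cfsg.Agent.H401.CaseB

/-!
# Theorem Z: primitive actions with a Sylow subgroup of prime order
-/

set_option autoImplicit false
open Subgroup MulAction
open scoped Pointwise

namespace Cfsg.Agent.H401

universe u

theorem Bd_zero {p l : ℕ} (hp : 0 < p) : Bd p 0 l := by
  refine ⟨fun _ => hp, fun hl => ?_⟩
  rw [Nat.zero_div, Nat.div_pos_iff]
  refine ⟨hp, ?_⟩
  have : (p - 1) * 1 ≤ (p - 1) * (l - 1) := Nat.mul_le_mul_left _ (by omega)
  omega

theorem card_sylow_eq {G : Type*} [Group G] [Finite G] {p : ℕ} [Fact p.Prime]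
    (hG : PGen p G) (hp2G : ¬ p ^ 2 ∣ Nat.card G) {H : Subgroup G} (hH : H ≠ ⊤) (P : Sylow p G) :
    Nat.card P = p := by
  have hp : p.Prime := Fact.out
  obtain ⟨k, hk⟩ := (IsPGroup.iff_card).1 P.isPGroup'
  have hdvd : Nat.card P ∣ Nat.card G := Subgroup.card_subgroup_dvd_card (P : Subgroup G)
  rcases k with _ | _ | k
  · exfalso
    rw [pow_zero] at hk
    have hbot : (P : Subgroup G) = ⊥ := Subgroup.card_eq_one.1 hk
    have h1 : fs (P : Subgroup G) (G ⧸ H) = Set.univ := by
      rw [Set.eq_univ_iff_forall]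
      intro x
      rw [mem_fs, hbot]
      exact bot_le
    have h2 := stabilizer_eq_top hG P h1 ((1 : G) : G ⧸ H)
    rw [stabilizer_mk_one] at h2
    exact hH h2
  · rw [hk]
    simp
  · exfalso
    apply hp2G
    refine dvd_trans ?_ hdvd
    rw [hk]
    exact pow_dvd_pow p (by omega)

/-- The inductive step, for an arbitrary primitive action. -/
theorem thmZ_step {p : ℕ} [Fact p.Prime] (hp2 : p ≠ 2) {G X : Type u} [Group G] [Finite G]
    [MulAction G X] [Finite X] [IsPreprimitive G X] [Nontrivial X] (hG : PGen p G)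
    {P : Sylow p G} (hPc : Nat.card P = p)
    (IH : ∀ M : Subgroup G, PGen p M → ∀ U : Subgroup M, IsCoatom U →
      Nat.card (M ⧸ U) < Nat.card X → ZB p U)
    {f l : ℕ} (hf : (fs (P : Subgroup G) X).ncard = f) (hX : Nat.card X = f + p * l)
    (hl : 1 ≤ l) : Bd p f l := by
  have hp : p.Prime := Fact.out
  have hp3 : 3 ≤ p := by
    have := hp.two_le
    omega
  by_contra hB
  have hne : (fs (P : Subgroup G) X).Nonempty := by
    apply Set.nonempty_of_ncard_ne_zero
    intro h
    rw [hf] at h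
    rw [h] at hB
    exact hB (Bd_zero hp.pos)
  obtain ⟨β, hβ⟩ := hne
  have hβ' : (P : Subgroup G) ≤ stabilizer G β := hβ
  have hfp : ¬ p ∣ f := by
    have h1 := not_dvd_card_of_fixed P hβ
    intro h2
    apply h1
    rw [hX]
    exact dvd_add h2 (dvd_mul_right _ _)
  obtain ⟨ι, hι, ⟨d⟩⟩ := exists_dat (p := p) hp3 (M := plus p (stabilizer G β)) (X := X)
    (pGen_plus hβ') (P.subtype (le_plus hβ')) β (fun m => plus_le _ m.2)
    (by
      intro x hx hst
      apply hx
      apply eq_of_plus_le hG hβ'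
      intro m hm
      have : (⟨m, hm⟩ : plus p (stabilizer G β)) ∈ stabilizer (plus p (stabilizer G β)) x := by
        rw [hst]; trivial
      exact this)
    (fun U hU hlt => IH _ (pGen_plus hβ') U hU hlt)
    (by rw [fs_subtype, hf]) hX hl hfp hB
  by_cases hc1 : ∀ i, d.c i = 1
  · exact caseA hp2 hPc hβ' hf hX d hc1
  · exact caseB hp2 hPc hβ' d hc1

theorem thmZ {p : ℕ} [Fact p.Prime] (hp2 : p ≠ 2) (n : ℕ) :
    ∀ (G : Type u) [Group G] [Finite G] (H : Subgroup G), IsCoatom H → Nat.card (G ⧸ H) = n →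
      PGen p G → ¬ p ^ 2 ∣ Nat.card G → ZB p H := by
  have hp : p.Prime := Fact.out
  induction n using Nat.strong_induction_on with
  | _ n IH =>
    intro G _ _ H hH hn hG hp2G P l hX
    have hPc := card_sylow_eq hG hp2G hH.1 P
    have hl : 1 ≤ l := one_le_of_card hG P (z := ((1 : G) : G ⧸ H))
      (by rw [stabilizer_mk_one]; exact hH.1) hX
    have hnt : Nontrivial (G ⧸ H) := by
      rw [QuotientGroup.nontrivial_iff]
      exact hH.1
    have hprim : IsPreprimitive G (G ⧸ H) := by
      rw [← isCoatom_stabilizer_iff_preprimitive G ((1 : G) : G ⧸ H), stabilizer_mk_one]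
      exact hH
    exact thmZ_step hp2 hG hPc
      (fun M hM U hU hlt => IH _ (by rw [← hn]; exact hlt) M U hU rfl hM
          (fun h => hp2G (h.trans (Subgroup.card_subgroup_dvd_card _)))) rfl hX hl

end Cfsg.Agent.H401
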