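import Cfsg.Agent.H401.Local
import Cfsg.Agent.H401.ThmZ

/-!
# The main theorem on fixed points of Sylow subgroups
-/

set_option autoImplicit false
open Subgroup MulAction
open scoped Pointwise

namespace Cfsg.Agent.H401

universe u

theorem pGen_of_surjective {G G' : Type*} [Group G] [Finite G] [Group G'] {p : ℕ} [Fact p.Prime]
    (hG : PGen p G) {f : G →* G'} (hf : Function.Surjective f) : PGen p G' := by
  have h : (plus p (⊤ : Subgroup G')).comap f = ⊤ := by
    apply hG.eq_top
    intro Q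
    rw [← map_le_iff_le_comap]
    exact le_plus (Q := Q.mapSurjective hf) le_top
  unfold PGen
  rw [eq_top_iff]
  intro x _
  obtain ⟨g, rfl⟩ := hf x
  have : g ∈ (plus p (⊤ : Subgroup G')).comap f := by rw [h]; trivial
  exact this

section

variable {p : ℕ} [Fact p.Prime]

/-- The case of a Sylow subgroup of odd prime order. -/
theorem fs_odd {G X : Type u} [Group G] [Finite G] [MulAction G X] [Finite X]
    [IsPretransitive G X] [Nontrivial X] (hG : PGen p G) (hp2 : p ≠ 2) (P : Sylow p G)
    (hPc : Nat.card P = p) :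
    (2 * p - 1) * (fs (P : Subgroup G) X).ncard ≤ (p - 1) * Nat.card X := by
  have hp : p.Prime := Fact.out
  obtain ⟨x0⟩ : Nonempty X := inferInstance
  have hst : stabilizer G x0 ≠ ⊤ := by
    intro h
    have h1 := index_stabilizer_of_transitive G x0
    rw [h, Subgroup.index_top] at h1
    have h2 : 1 < Nat.card X := Finite.one_lt_card
    omega
  obtain ⟨U, hU, hxU⟩ := (eq_top_or_exists_le_coatom (stabilizer G x0)).resolve_left hst
  have hp2G : ¬ p ^ 2 ∣ Nat.card G := by
    intro h
    have h1 := P.card_eq_multiplicity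
    have h2 : Nat.card P = p ^ 1 := by rw [hPc, pow_one]
    rw [h2] at h1
    have h3 := Nat.pow_right_injective hp.two_le h1
    have h4 := (hp.pow_dvd_iff_le_factorization Nat.card_pos.ne').1 h
    omega
  have hZ := thmZ hp2 _ G U hU rfl hG hp2G
  obtain ⟨b, s, hb, hb1, hb2, -, -⟩ := orbit_count (X := X) P hxU
  obtain ⟨l, hl⟩ := exists_lc' (X := G ⧸ U) P.isPGroup'
  have hl1 : 1 ≤ l := one_le_of_card hG P (z := ((1 : G) : G ⧸ U))
    (by rw [stabilizer_mk_one]; exact hU.1) hl
  have hle := (hZ P l hl).le hp.pos hl1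
  rw [orbit_eq_univ, Set.inter_univ] at hb2
  rw [orbit_eq_univ, Set.ncard_univ] at hb1
  set f := (fs (P : Subgroup G) X).ncard
  set f' := (fs (P : Subgroup G) (G ⧸ U)).ncard
  have hfle : f ≤ b * f' := by omega
  obtain ⟨q, rfl⟩ : ∃ q, p = q + 1 := ⟨p - 1, by have := hp.pos; omega⟩
  have e1 : 2 * (q + 1) - 1 = q + (q + 1) := by omega
  rw [e1, hb1, hl, Nat.add_sub_cancel]
  rw [Nat.add_sub_cancel] at hle
  calc (q + (q + 1)) * f ≤ (q + (q + 1)) * (b * f') := Nat.mul_le_mul_left _ hfle
    _ = b * (q * f' + (q + 1) * f') := by ring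
    _ ≤ b * (q * f' + (q + 1) * (q * l)) := by
      apply Nat.mul_le_mul_left
      apply Nat.add_le_add_left
      exact Nat.mul_le_mul_left _ hle
    _ = q * (b * (f' + (q + 1) * l)) := by ring

/-- The case of a Sylow 2-subgroup of order 2. -/
theorem fs_two {G X : Type*} [Group G] [Finite G] [MulAction G X] [Finite X]
    [IsPretransitive G X] [Nontrivial X] (hG : PGen 2 G) (P : Sylow 2 G)
    (hPc : Nat.card P = 2) :
    3 * (fs (P : Subgroup G) X).ncard ≤ Nat.card X := by
  rcases (fs (P : Subgroup G) X).eq_empty_or_nonempty with h0 | hne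
  · rw [h0, Set.ncard_empty]
    exact Nat.zero_le _
  have hN : normalizer ((P : Subgroup G) : Set G) ≤ centralizer ((P : Subgroup G) : Set G) := by
    intro g hg
    rw [mem_centralizer_iff]
    intro h hh
    -- `g h g⁻¹` is in `P`, of order two
    have h1 : g * h * g⁻¹ ∈ (P : Subgroup G) := (mem_normalizer_iff.1 hg h).1 hh
    by_cases hh1 : h = 1
    · rw [hh1, one_mul, mul_one]
    · have h2 : g * h * g⁻¹ = h := by
        obtain ⟨y, hy, hyu⟩ := (Nat.card_eq_two_iff' (1 : ↥(P : Subgroup G))).1 hPc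
        have e1 := hyu ⟨h, hh⟩ (fun h' => hh1 (congrArg Subtype.val h'))
        have e2 := hyu ⟨g * h * g⁻¹, h1⟩ (fun h' => by
          have h3 : g * h * g⁻¹ = 1 := congrArg Subtype.val h'
          rw [mul_inv_eq_one, mul_eq_left] at h3
          exact hh1 h3)
        exact congrArg Subtype.val (e2.trans e1.symm)
      rw [mul_inv_eq_iff_eq_mul] at h2
      exact h2.symm
  set K := (MonoidHom.transferSylow P hN).ker with hK
  have hKn : K.Normal := MonoidHom.normal_ker _
  have hKc := MonoidHom.ker_transferSylow_isComplement' P hN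
  have hK2 := MonoidHom.not_dvd_card_ker_transferSylow P hN
  obtain ⟨γ, hγ⟩ := hne
  have htr : ∀ x y : X, ∃ k ∈ K, k • x = y := by
    have key : ∀ y : X, ∃ k ∈ K, k • γ = y := by
      intro y
      obtain ⟨g, rfl⟩ := MulAction.exists_smul_eq G γ y
      obtain ⟨⟨⟨k, hk⟩, ⟨s, hs⟩⟩, hks⟩ := hKc.2 g
      refine ⟨k, hk, ?_⟩
      have h1 : k * s = g := hks
      have h2 : s • γ = γ := hγ hs
      rw [← h1, mul_smul, h2]
    intro x y
    obtain ⟨k, hk, rfl⟩ := key x
    obtain ⟨k', hk', rfl⟩ := key y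
    exact ⟨k' * k⁻¹, mul_mem hk' (inv_mem hk), by rw [smul_smul, inv_mul_cancel_right]⟩
  have hdvd := ncard_fs_dvd (X := X) P.isPGroup' hK2
    (by rw [normalizer_eq_top_iff.2 hKn]; exact le_top) htr ⟨γ, hγ⟩
  have hodd := not_dvd_card_of_fixed P hγ
  obtain ⟨m, hm⟩ := hdvd
  have hlt : (fs (P : Subgroup G) X).ncard ≠ Nat.card X := by
    intro h
    have h1 : fs (P : Subgroup G) X = Set.univ := by
      apply Set.eq_of_subset_of_ncard_le (Set.subset_univ _) _ Set.finite_univ
      rw [Set.ncard_univ, h]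
    have h2 := stabilizer_eq_top hG P h1 γ
    have h3 := index_stabilizer_of_transitive G γ
    rw [h2, Subgroup.index_top] at h3
    have h4 : 1 < Nat.card X := Finite.one_lt_card
    omega
  have hpos : 0 < Nat.card X := Nat.card_pos
  have hm3 : 3 ≤ m := by
    by_contra hm3
    have : m = 0 ∨ m = 1 ∨ m = 2 := by omega
    rcases this with rfl | rfl | rfl
    · omega
    · rw [mul_one] at hm
      exact hlt hm.symm
    · exact hodd ⟨_, by rw [hm, mul_comm]⟩
  rw [hm, mul_comm]
  exact Nat.mul_le_mul_left _ hm3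

/-- The semiregular case for large Sylow subgroups. -/
theorem fs_semi {G X : Type u} [Group G] [Finite G] [MulAction G X] [Finite X]
    [IsPretransitive G X] [Nontrivial X] (hG : PGen p G) (P : Sylow p G)
    (hPc : p ^ 2 ≤ Nat.card P)
    (hsr : ∀ x : X, x ∉ fs (P : Subgroup G) X → (P : Subgroup G) ⊓ stabilizer G x = ⊥) :
    (2 * p - 1) * (fs (P : Subgroup G) X).ncard ≤ (p - 1) * Nat.card X := by
  have hp : p.Prime := Fact.out
  obtain ⟨x0⟩ : Nonempty X := inferInstance
  have hst : stabilizer G x0 ≠ ⊤ := by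
    intro h
    have h1 := index_stabilizer_of_transitive G x0
    rw [h, Subgroup.index_top] at h1
    have h2 : 1 < Nat.card X := Finite.one_lt_card
    omega
  obtain ⟨t, ht⟩ := exists_t P (Set.univ : Set X) (fun _ _ _ _ => trivial)
    (fun x _ hx => hsr x hx)
  have hb := hp_orbit x0 (hp_main _ G (stabilizer G x0) hst rfl hG) P (fun x _ hx => hsr x hx)
    (t := t) (by rw [orbit_eq_univ]; exact ht)
  rw [orbit_eq_univ, Set.inter_univ] at hb
  rw [Set.inter_univ, Set.ncard_univ] at ht
  rw [ht]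
  set f := (fs (P : Subgroup G) X).ncard
  obtain ⟨q, rfl⟩ : ∃ q, p = q + 1 := ⟨p - 1, by have := hp.pos; omega⟩
  have hq : 1 ≤ q := by
    have := hp.two_le
    omega
  have e1 : 2 * (q + 1) - 1 = q + (q + 1) := by omega
  rw [e1, Nat.add_sub_cancel]
  calc (q + (q + 1)) * f = q * f + (q + 1) * f := by ring
    _ ≤ q * f + (q + 1) * ((q + 1) * t) :=
      Nat.add_le_add_left (Nat.mul_le_mul_left _ hb.le) _
    _ = q * f + (q + 1) ^ 2 * t := by ring
    _ ≤ q * f + Nat.card P * t := Nat.add_le_add_left (Nat.mul_le_mul_right _ hPc) _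
    _ ≤ q * f + q * (Nat.card P * t) := Nat.add_le_add_left (Nat.le_mul_of_pos_left _ hq) _
    _ = q * (f + Nat.card P * t) := by ring

/-- The normalizer of a Sylow subgroup is transitive on its fixed points. -/
theorem exists_normalizing_smul {G X : Type*} [Group G] [Finite G] [MulAction G X]
    [IsPretransitive G X] (P : Sylow p G) {x y : X} (hx : x ∈ fs (P : Subgroup G) X)
    (hy : y ∈ fs (P : Subgroup G) X) :
    ∃ g : G, MulAut.conj g • (P : Subgroup G) = P ∧ g • x = y := by
  obtain ⟨k, hk⟩ := MulAction.exists_smul_eq G x y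
  have h1 : ((k • P : Sylow p G) : Subgroup G) ≤ stabilizer G y := by
    rw [Sylow.coe_subgroup_smul, ← hk, stabilizer_smul']
    exact Subgroup.pointwise_smul_le_pointwise_smul_iff.2 hx
  have hy' : (P : Subgroup G) ≤ stabilizer G y := hy
  obtain ⟨h, hh⟩ := MulAction.exists_smul_eq (stabilizer G y) ((k • P).subtype h1) (P.subtype hy')
  refine ⟨(h : G) * k, ?_, ?_⟩
  · have e1 := congrArg (fun Q : Sylow p (stabilizer G y) =>
      (Q : Subgroup (stabilizer G y)).map (stabilizer G y).subtype) hh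
    simp only [Sylow.coe_subgroup_smul] at e1
    rw [smul_map_subtype, Sylow.coe_subtype, Sylow.coe_subtype, subgroupOf_map_subtype,
      subgroupOf_map_subtype, inf_eq_left.2 h1, inf_eq_left.2 hy'] at e1
    rw [map_mul, mul_smul]
    rw [Sylow.coe_subgroup_smul] at e1
    exact e1
  · rw [mul_smul, hk]
    exact h.2

/-- The sum over the local contributions. -/
theorem fs_local {G : Type u} {X : Type*} [Group G] [Finite G]
    [MulAction G X] [Finite X] [IsPretransitive G X] [FaithfulSMul G X]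
    (IH : ∀ (G' : Type u) [Group G'] [Finite G'], Nat.card G' < Nat.card G → PGen p G' →
      ∀ K : Subgroup G', K ≠ ⊤ → FS p K)
    (P : Sylow p G) {r : ℕ} (hr : 1 < r)
    (hmax : ∀ x : X, x ∉ fs (P : Subgroup G) X →
      Nat.card ((P : Subgroup G) ⊓ stabilizer G x : Subgroup G) ≤ r)
    {δ : X} (hδ : δ ∉ fs (P : Subgroup G) X)
    (hδr : Nat.card ((P : Subgroup G) ⊓ stabilizer G δ : Subgroup G) = r) :
    (2 * p - 1) * (fs (P : Subgroup G) X).ncard ≤ (p - 1) * Nat.card X := by
  classical
  have hp : p.Prime := Fact.out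
  have := Fintype.ofFinite X
  have := Fintype.ofFinite (Subgroup G)
  rcases (fs (P : Subgroup G) X).eq_empty_or_nonempty with h0 | hne
  · rw [h0, Set.ncard_empty, mul_zero]
    exact Nat.zero_le _
  set Γ := fs (P : Subgroup G) X with hΓ
  let 𝓡 : Finset (Subgroup G) := Finset.univ.filter fun R => ∃ x : X, x ∉ Γ ∧
    R = (P : Subgroup G) ⊓ stabilizer G x ∧ Nat.card R = r
  have h𝓡 : ∀ R, R ∈ 𝓡 ↔ ∃ x : X, x ∉ Γ ∧ R = (P : Subgroup G) ⊓ stabilizer G x ∧
      Nat.card R = r := by
    intro R
    simp [𝓡]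
  have hloc : ∀ R ∈ 𝓡, p * (Γ \ FF p R X).ncard ≤ (p - 1) * (fs R X \ Γ).ncard ∧
      (Γ \ FF p R X).Nonempty := by
    intro R hR
    obtain ⟨x, hx, hRx, hRr⟩ := (h𝓡 R).1 hR
    exact local_step IH P hr hmax hne hx hRx hRr
  -- the fixed points are covered
  have hcov : ∀ γ ∈ Γ, ∃ R ∈ 𝓡, γ ∉ FF p R X := by
    intro γ hγ
    set R := (P : Subgroup G) ⊓ stabilizer G δ with hR
    have hR𝓡 : R ∈ 𝓡 := (h𝓡 R).2 ⟨δ, hδ, hR, hδr⟩
    obtain ⟨x, hx1, hx2⟩ := (hloc R hR𝓡).2
    obtain ⟨g, hg, hgx⟩ := exists_normalizing_smul P hx1 hγ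
    have hgR : MulAut.conj g • R = (P : Subgroup G) ⊓ stabilizer G (g • δ) := by
      rw [hR, smul_inf, hg, stabilizer_smul']
    refine ⟨MulAut.conj g • R, (h𝓡 _).2 ⟨g • δ, ?_, hgR, ?_⟩, ?_⟩
    · intro h
      apply hδ
      have h1 : g • δ ∈ fs (MulAut.conj g • (P : Subgroup G)) X := by
        rw [hg]
        exact h
      exact (fs_smul _ g δ).1 h1
    · rw [card_conj]
      exact hδr
    · intro h
      apply hx2
      rw [← hgx] at h
      exact FF_smul R g x h
  have h1 : Γ.ncard ≤ ∑ R ∈ 𝓡, (Γ \ FF p R X).ncard := by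
    have hsub : Γ.toFinset ⊆ 𝓡.biUnion fun R => (Γ \ FF p R X).toFinset := by
      intro γ hγ
      rw [Set.mem_toFinset] at hγ
      obtain ⟨R, hR, hγR⟩ := hcov γ hγ
      rw [Finset.mem_biUnion]
      exact ⟨R, hR, by rw [Set.mem_toFinset]; exact ⟨hγ, hγR⟩⟩
    rw [Set.ncard_eq_toFinset_card' Γ]
    refine (Finset.card_le_card hsub).trans (Finset.card_biUnion_le.trans (le_of_eq ?_))
    apply Finset.sum_congr rfl
    intro R _
    rw [Set.ncard_eq_toFinset_card']
  have h2 : ∑ R ∈ 𝓡, (fs R X \ Γ).ncard ≤ Γᶜ.ncard := by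
    have hdisj : ∀ R ∈ 𝓡, ∀ x ∈ fs R X \ Γ, (P : Subgroup G) ⊓ stabilizer G x = R := by
      rintro R hR x ⟨hx1, hx2⟩
      obtain ⟨y, hy, hRy, hRr⟩ := (h𝓡 R).1 hR
      have h3 : R ≤ (P : Subgroup G) ⊓ stabilizer G x := by
        refine le_inf ?_ hx1
        rw [hRy]
        exact inf_le_left
      refine (Subgroup.eq_of_le_of_card_ge h3 ?_).symm
      rw [hRr]
      exact hmax x hx2
    have h3 : ∑ R ∈ 𝓡, (fs R X \ Γ).ncard =
        (𝓡.biUnion fun R => (fs R X \ Γ).toFinset).card := by
      rw [Finset.card_biUnion]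
      · apply Finset.sum_congr rfl
        intro R _
        rw [Set.ncard_eq_toFinset_card']
      · intro R hR R' hR' hne'
        rw [Function.onFun, Finset.disjoint_left]
        intro x hx hx'
        rw [Set.mem_toFinset] at hx hx'
        apply hne'
        rw [← hdisj R hR x hx, ← hdisj R' hR' x hx']
    rw [h3, Set.ncard_eq_toFinset_card' Γᶜ]
    apply Finset.card_le_card
    intro x hx
    rw [Finset.mem_biUnion] at hx
    obtain ⟨R, hR, hx⟩ := hx
    rw [Set.mem_toFinset] at hx ⊢
    exact hx.2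
  have h3 : p * Γ.ncard ≤ (p - 1) * Γᶜ.ncard := by
    calc p * Γ.ncard ≤ p * ∑ R ∈ 𝓡, (Γ \ FF p R X).ncard := Nat.mul_le_mul_left _ h1
      _ = ∑ R ∈ 𝓡, p * (Γ \ FF p R X).ncard := Finset.mul_sum _ _ _
      _ ≤ ∑ R ∈ 𝓡, (p - 1) * (fs R X \ Γ).ncard :=
        Finset.sum_le_sum fun R hR => (hloc R hR).1
      _ = (p - 1) * ∑ R ∈ 𝓡, (fs R X \ Γ).ncard := (Finset.mul_sum _ _ _).symm
      _ ≤ (p - 1) * Γᶜ.ncard := Nat.mul_le_mul_left _ h2
  have h4 := Set.ncard_add_ncard_compl Γ
  rw [← h4]
  obtain ⟨q, rfl⟩ : ∃ q, p = q + 1 := ⟨p - 1, by have := hp.pos; omega⟩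
  have e1 : 2 * (q + 1) - 1 = q + (q + 1) := by omega
  rw [e1, Nat.add_sub_cancel]
  rw [Nat.add_sub_cancel] at h3
  rw [add_mul, mul_add]
  omega

/-- The faithful case. -/
theorem fs_faithful {G X : Type u} [Group G] [Finite G]
    [MulAction G X] [Finite X] [IsPretransitive G X] [FaithfulSMul G X] [Nontrivial X]
    (hG : PGen p G)
    (IH : ∀ (G' : Type u) [Group G'] [Finite G'], Nat.card G' < Nat.card G → PGen p G' →
      ∀ K : Subgroup G', K ≠ ⊤ → FS p K) (P : Sylow p G) :
    (2 * p - 1) * (fs (P : Subgroup G) X).ncard ≤ (p - 1) * Nat.card X := by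
  classical
  have hp : p.Prime := Fact.out
  have := Fintype.ofFinite X
  have hne : ∃ δ : X, δ ∉ fs (P : Subgroup G) X := by
    by_contra hcon
    push Not at hcon
    obtain ⟨x⟩ : Nonempty X := inferInstance
    have h2 := stabilizer_eq_top hG P (Set.eq_univ_of_forall hcon) x
    have h3 := index_stabilizer_of_transitive G x
    rw [h2, Subgroup.index_top] at h3
    have h4 : 1 < Nat.card X := Finite.one_lt_card
    omega
  obtain ⟨δ0, hδ0⟩ := hne
  obtain ⟨δ, hδ, hmax⟩ := Finset.exists_max_image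
    (Finset.univ.filter fun x : X => x ∉ fs (P : Subgroup G) X)
    (fun x => Nat.card ((P : Subgroup G) ⊓ stabilizer G x : Subgroup G))
    ⟨δ0, by simpa using hδ0⟩
  simp only [Finset.mem_filter, Finset.mem_univ, true_and] at hδ hmax
  rcases Nat.lt_or_ge 1 (Nat.card ((P : Subgroup G) ⊓ stabilizer G δ : Subgroup G)) with h1 | h1
  · exact fs_local IH P h1 hmax hδ rfl
  · have hsr : ∀ x : X, x ∉ fs (P : Subgroup G) X → (P : Subgroup G) ⊓ stabilizer G x = ⊥ := by
      intro x hx
      rw [← Subgroup.card_le_one_iff_eq_bot]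
      exact (hmax x hx).trans h1
    obtain ⟨k, hk⟩ := (IsPGroup.iff_card).1 P.isPGroup'
    rcases k with _ | _ | k
    · exfalso
      apply hδ
      have hbot : (P : Subgroup G) = ⊥ := Subgroup.card_eq_one.1 (by rw [hk, pow_zero])
      rw [mem_fs, hbot]
      exact bot_le
    · rw [zero_add, pow_one] at hk
      by_cases hp2 : p = 2
      · subst hp2
        have := fs_two (X := X) hG P hk
        simpa using this
      · exact fs_odd hG hp2 P hk
    · apply fs_semi hG P _ hsr
      rw [hk]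
      exact Nat.pow_le_pow_right hp.pos (by omega)

theorem fs_general {G X : Type u} [Group G] [Finite G]
    [MulAction G X] [Finite X] [IsPretransitive G X] [Nontrivial X]
    (hG : PGen p G)
    (IH : ∀ (G' : Type u) [Group G'] [Finite G'], Nat.card G' < Nat.card G → PGen p G' →
      ∀ K : Subgroup G', K ≠ ⊤ → FS p K) (P : Sylow p G) :
    (2 * p - 1) * (fs (P : Subgroup G) X).ncard ≤ (p - 1) * Nat.card X := by
  by_cases hf : FaithfulSMul G X
  · exact fs_faithful hG IH P
  · -- pass to the permutation group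
    have hsurj : Function.Surjective (toPermHom G X).rangeRestrict :=
      MonoidHom.rangeRestrict_surjective _
    have hker : (toPermHom G X).ker ≠ ⊥ := by
      intro h
      apply hf
      constructor
      intro g g' hgg'
      rw [MonoidHom.ker_eq_bot_iff] at h
      apply h
      ext x
      exact hgg' x
    have hcard : Nat.card (toPermHom G X).range < Nat.card G := by
      rw [← Subgroup.index_ker, ← Subgroup.card_mul_index (toPermHom G X).ker]
      have h1 : 1 < Nat.card (toPermHom G X).ker := by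
        rw [Subgroup.one_lt_card_iff_ne_bot]
        exact hker
      have h2 : 0 < (toPermHom G X).ker.index :=
        Nat.pos_of_ne_zero Subgroup.index_ne_zero_of_finite
      exact (Nat.lt_mul_iff_one_lt_left h2).2 h1
    have htr : IsPretransitive (toPermHom G X).range X := by
      constructor
      intro x y
      obtain ⟨d, hd⟩ := MulAction.exists_smul_eq G x y
      exact ⟨⟨toPermHom G X d, d, rfl⟩, hd⟩
    obtain ⟨x⟩ : Nonempty X := inferInstance
    have hst : stabilizer (toPermHom G X).range x ≠ ⊤ := by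
      intro h
      have h1 := index_stabilizer_of_transitive (toPermHom G X).range x
      rw [h, Subgroup.index_top] at h1
      have h2 : 1 < Nat.card X := Finite.one_lt_card
      omega
    have h1 := (IH (toPermHom G X).range hcard (pGen_of_surjective hG hsurj) _ hst).orbit
      (P.mapSurjective hsurj)
    rw [orbit_eq_univ, Set.inter_univ, Set.ncard_univ] at h1
    have h2 : fs ((P.mapSurjective hsurj : Sylow p (toPermHom G X).range) :
        Subgroup (toPermHom G X).range) X = fs (P : Subgroup G) X := by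
      ext y
      rw [mem_fs, mem_fs, Sylow.coe_mapSurjective]
      constructor
      · intro h g hg
        exact h ⟨g, hg, rfl⟩
      · rintro h _ ⟨g, hg, rfl⟩
        exact h hg
    rw [h2] at h1
    exact h1

/-- **Theorem F.** -/
theorem thmF (n : ℕ) : ∀ (G : Type u) [Group G] [Finite G], Nat.card G = n → PGen p G →
    ∀ K : Subgroup G, K ≠ ⊤ → FS p K := by
  induction n using Nat.strong_induction_on with
  | _ n IH =>
    intro G _ _ hn hG K hK P
    have hnt : Nontrivial (G ⧸ K) := by
      rw [QuotientGroup.nontrivial_iff]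
      exact hK
    exact fs_general hG (fun G' _ _ hlt hG' => IH _ (by rw [← hn]; exact hlt) G' rfl hG') P

end

end Cfsg.Agent.H401
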